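import Mathlib.GroupTheory.Abelianization.Defs
import Mathlib.GroupTheory.Index
import Mathlib.Algebra.Group.Subgroup.Finite
import Mathlib.GroupTheory.Commutator.Basic
import Mathlib.GroupTheory.QuotientGroup.Basic
import Mathlib.Tactic.Group
import Mathlib.Tactic.Ring

/-! The order of the derived subgroup of an extension of `N` by a cyclic group. -/

namespace Cfsg.Agent.BlkChar

open Subgroup
open scoped commutatorElement

/-- If `G = N⟨x⟩`, then `|C_{N/N'}(x)| * |G'| = |N| * |N'|`, with the centralizer counted in `N`. -/
theorem card_fixMod_mul_card_commutator {G : Type*} [Group G] [Finite G] (N : Subgroup G)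
    [N.Normal] (x : G) (hgen : N ⊔ Subgroup.zpowers x = ⊤) :
    Nat.card {n : N // x * n * x⁻¹ * (n : G)⁻¹ ∈ (commutator N).map N.subtype} *
      Nat.card (commutator G) = Nat.card N * Nat.card (commutator N) := by
  set D : Subgroup G := (commutator N).map N.subtype with hD
  haveI hDn : D.Normal := by
    rw [hD, map_subtype_commutator]; exact Subgroup.commutator_normal N N
  have hmem : ∀ n : N, x * n * x⁻¹ * (n : G)⁻¹ ∈ N := fun n =>
    N.mul_mem (Subgroup.Normal.conj_mem inferInstance _ n.2 x) (N.inv_mem n.2)
  let q := QuotientGroup.mk' D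
  have hab : ∀ a b : G, a ∈ N → b ∈ N → q a * q b = q b * q a := by
    intro a b ha hb
    rw [← commutatorElement_eq_one_iff_mul_comm, ← map_commutatorElement]
    refine (QuotientGroup.eq_one_iff _).2 ?_
    rw [hD, map_subtype_commutator]
    exact Subgroup.commutator_mem_commutator ha hb
  let f : N →* G ⧸ D := MonoidHom.mk' (fun n => q (x * n * x⁻¹ * (n : G)⁻¹)) fun n m => by
    have h1 : x * ((n * m : N) : G) * x⁻¹ * ((n * m : N) : G)⁻¹ =
        (x * n * x⁻¹) * ((x * m * x⁻¹ * (m : G)⁻¹) * (n : G)⁻¹) := by
      push_cast; group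
    show q _ = q _ * q _
    rw [h1, map_mul, map_mul q (x * m * x⁻¹ * (m : G)⁻¹), hab _ _ (hmem m) (N.inv_mem n.2),
      ← mul_assoc, ← map_mul q (x * n * x⁻¹)]
  have hf : ∀ n : N, f n = q (x * n * x⁻¹ * (n : G)⁻¹) := fun n => rfl
  set K : Subgroup G := f.range.comap q with hK
  have hDK : D ≤ K := fun d hd => by
    show q d ∈ f.range
    rw [show q d = 1 from (QuotientGroup.eq_one_iff d).2 hd]
    exact one_mem _
  have hKle : K ≤ N ⊓ commutator G := by
    rintro k ⟨n, hn⟩
    rw [hf] at hn
    have hd : (x * n * x⁻¹ * (n : G)⁻¹)⁻¹ * k ∈ D := QuotientGroup.eq.1 hn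
    have hD2 : D ≤ N ⊓ commutator G := by
      refine le_inf (Subgroup.map_subtype_le _) ?_
      rw [hD, map_subtype_commutator]
      exact Subgroup.commutator_mono le_top le_top
    have h2 := (N ⊓ commutator G).mul_mem (Subgroup.mem_inf.2 ⟨hmem n,
      Subgroup.commutator_mem_commutator (Subgroup.mem_top x) (Subgroup.mem_top (n : G))⟩) (hD2 hd)
    rwa [mul_inv_cancel_left] at h2
  have hGK : commutator G ≤ K := by
    have hKn : K.Normal := by
      constructor
      intro k hk g
      have hsub : (⊤ : Subgroup G) ≤ Subgroup.normalizer (K : Set G) := by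
        rw [← hgen, sup_le_iff, Subgroup.zpowers_le]
        constructor
        · intro a ha
          rw [Subgroup.mem_normalizer_iff]
          intro b
          constructor
          · intro hb
            have h1 : q (a * b * a⁻¹) = q b := by
              rw [map_mul, map_mul, hab a b ha (hKle hb).1, mul_assoc, ← map_mul,
                mul_inv_cancel, map_one, mul_one]
            show q _ ∈ f.range
            rw [h1]; exact hb
          · intro hb
            have h1 : q b = q (a * b * a⁻¹) := by
              have h2 := hab (a⁻¹) (a * b * a⁻¹) (N.inv_mem ha) (hKle hb).1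
              rw [← map_mul, ← map_mul] at h2
              have h3 : a⁻¹ * (a * b * a⁻¹) = b * a⁻¹ := by group
              rw [h3, map_mul, map_mul] at h2
              calc q b = q b * q a⁻¹ * q a := by rw [mul_assoc, ← map_mul, inv_mul_cancel, map_one, mul_one]
                _ = _ := by rw [h2, mul_assoc, ← map_mul, inv_mul_cancel, map_one, mul_one]
            show q b ∈ f.range
            rw [h1]; exact hb
        · rw [Subgroup.mem_normalizer_iff]
          intro b
          constructor
          · rintro ⟨n, hn⟩
            refine ⟨⟨x * n * x⁻¹, Subgroup.Normal.conj_mem inferInstance _ n.2 x⟩, ?_⟩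
            rw [map_mul, map_mul, ← hn, hf, hf, ← map_mul, ← map_mul]
            congr 1
            push_cast
            group
          · rintro ⟨n, hn⟩
            refine ⟨⟨x⁻¹ * n * x⁻¹⁻¹, Subgroup.Normal.conj_mem inferInstance _ n.2 x⁻¹⟩, ?_⟩
            have h2 : q b = q x⁻¹ * q (x * b * x⁻¹) * q x := by
              rw [← map_mul, ← map_mul]; congr 1; group
            rw [h2, ← hn, hf, hf, ← map_mul, ← map_mul]
            congr 1
            push_cast
            group
      exact (Subgroup.mem_normalizer_iff.1 (hsub (Subgroup.mem_top g)) k).1 hk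
    haveI := hKn
    rw [_root_.commutator_def, Subgroup.commutator_le]
    intro a _ b _
    have hcen : Subgroup.center (G ⧸ K) = ⊤ := by
      have hxN : ∀ n ∈ N, (QuotientGroup.mk' K) x * (QuotientGroup.mk' K) n =
          (QuotientGroup.mk' K) n * (QuotientGroup.mk' K) x := by
        intro n hn
        rw [← commutatorElement_eq_one_iff_mul_comm, ← map_commutatorElement]
        exact (QuotientGroup.eq_one_iff _).2 ⟨⟨n, hn⟩, rfl⟩
      have hNN : ∀ m ∈ N, ∀ n ∈ N, (QuotientGroup.mk' K) m * (QuotientGroup.mk' K) n =
          (QuotientGroup.mk' K) n * (QuotientGroup.mk' K) m := by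
        intro m hm n hn
        rw [← commutatorElement_eq_one_iff_mul_comm, ← map_commutatorElement]
        refine (QuotientGroup.eq_one_iff _).2 (hDK ?_)
        rw [hD, map_subtype_commutator]
        exact Subgroup.commutator_mem_commutator hm hn
      have key : ∀ c : G, (∀ n ∈ N, Commute (QuotientGroup.mk' K c) (QuotientGroup.mk' K n)) →
          Commute (QuotientGroup.mk' K c) (QuotientGroup.mk' K x) →
          (QuotientGroup.mk' K c) ∈ Subgroup.center (G ⧸ K) := by
        intro c h1 h2
        rw [Subgroup.mem_center_iff]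
        intro y
        obtain ⟨y, rfl⟩ := QuotientGroup.mk'_surjective K y
        have hle : (⊤ : Subgroup G) ≤
            (Subgroup.centralizer {(QuotientGroup.mk' K) c}).comap (QuotientGroup.mk' K) := by
          rw [← hgen, sup_le_iff, Subgroup.zpowers_le]
          exact ⟨fun n hn => Subgroup.mem_centralizer_singleton_iff.2 (h1 n hn).eq.symm,
            Subgroup.mem_centralizer_singleton_iff.2 h2.eq.symm⟩
        exact Subgroup.mem_centralizer_singleton_iff.1 (hle (Subgroup.mem_top y))
      refine top_le_iff.1 fun y _ => ?_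
      obtain ⟨y, rfl⟩ := QuotientGroup.mk'_surjective K y
      have hle : (⊤ : Subgroup G) ≤ (Subgroup.center (G ⧸ K)).comap (QuotientGroup.mk' K) := by
        rw [← hgen, sup_le_iff, Subgroup.zpowers_le]
        exact ⟨fun n hn => key n (fun m hm => hNN n hn m hm) (hxN n hn).symm,
          key x (fun m hm => hxN m hm) (Commute.refl _)⟩
      exact hle (Subgroup.mem_top y)
    refine (QuotientGroup.eq_one_iff _).1 ?_
    show (QuotientGroup.mk' K) ⁅a, b⁆ = 1
    rw [map_commutatorElement, commutatorElement_eq_one_iff_mul_comm]
    exact (Subgroup.mem_center_iff.1 (hcen.ge (Subgroup.mem_top (QuotientGroup.mk' K b))) _)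
  have hKeq : K = commutator G := le_antisymm (hKle.trans inf_le_right) hGK
  have hker : Nat.card f.ker = Nat.card {n : N // x * n * x⁻¹ * (n : G)⁻¹ ∈ D} :=
    Nat.card_congr (Equiv.subtypeEquivRight fun n => (QuotientGroup.eq_one_iff _))
  have h1 := Subgroup.card_mul_index f.ker
  rw [Subgroup.index_ker] at h1
  have h2 : Nat.card f.range * Nat.card D = Nat.card K := by
    have e1 := Subgroup.card_mul_index f.range
    have e2 := Subgroup.card_mul_index (f.range.comap q)
    rw [Subgroup.index_comap_of_surjective _ (QuotientGroup.mk'_surjective D),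
      Subgroup.card_eq_card_quotient_mul_card_subgroup D, ← e1] at e2
    refine Nat.eq_of_mul_eq_mul_right (Nat.pos_of_ne_zero (Subgroup.index_ne_zero_of_finite (H := f.range))) ?_
    show _ = Nat.card (f.range.comap q) * f.range.index
    rw [e2]
    ring
  have h3 : Nat.card D = Nat.card (commutator N) :=
    Subgroup.card_subtype N (commutator N)
  rw [← hker, ← hKeq, ← h2, ← h3, ← h1]
  ring

end Cfsg.Agent.BlkChar
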