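import Cfsg.Agent.Char.Orthogonality
import Cfsg.Agent.CharInd.Basic

/-! A fully ramified character vanishes off the subgroup. -/

namespace Cfsg.Agent.BlkChar

open Cfsg Cfsg.Agent.Char
open scoped ComplexConjugate

variable {H : Type*} [Group H] [Finite H]

theorem fullyRamified_vanish {Z : Subgroup H} {χ : H → ℂ} (hχ : IsIrrCharacter H χ)
    {θ : Z → ℂ} (hθ : IsIrrCharacter Z θ) {e : ℕ} (he : e ^ 2 = Z.index)
    (hres : ∀ z : Z, χ z = (e : ℂ) * θ z) {h : H} (hh : h ∉ Z) : χ h = 0 := by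
  classical
  letI := Fintype.ofFinite H
  have h1 := classInner_irr_self hχ
  have h2 := classInner_irr_self hθ
  simp only [classInner] at h1 h2
  rw [inv_mul_eq_iff_eq_mul₀ card_ne_zero_complex, mul_one] at h1
  rw [inv_mul_eq_iff_eq_mul₀ card_ne_zero_complex, mul_one] at h2
  have hsplit := Finset.sum_filter_add_sum_filter_not Finset.univ (fun g : H => g ∈ Z)
    (fun g => χ g * conj (χ g))
  have hZ : ∑ g ∈ Finset.univ.filter (fun g : H => g ∈ Z), χ g * conj (χ g) =
      ∑ z : Z, χ z * conj (χ z) :=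
    Finset.sum_subtype _ (fun g => by simp) _
  rw [h1, hZ] at hsplit
  simp only [hres, map_mul, Complex.conj_natCast] at hsplit
  have hcard : (e : ℂ) ^ 2 * Nat.card Z = Nat.card H := by
    rw [← Z.card_mul_index, ← he]; push_cast; ring
  have h3 : ∑ z : Z, (e : ℂ) * θ z * ((e : ℂ) * conj (θ z)) = (Nat.card H : ℂ) := by
    rw [← hcard, ← h2, Finset.mul_sum]
    exact Finset.sum_congr rfl fun z _ => by ring
  rw [h3, add_eq_left] at hsplit
  have h4 : ∑ g ∈ Finset.univ.filter (fun g : H => ¬ g ∈ Z), ‖χ g‖ ^ 2 = 0 := by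
    have hc : ((∑ g ∈ Finset.univ.filter (fun g : H => ¬ g ∈ Z), ‖χ g‖ ^ 2 : ℝ) : ℂ) = 0 := by
      rw [← hsplit]
      push_cast
      exact Finset.sum_congr rfl fun g _ => (Complex.mul_conj' _).symm
    exact_mod_cast hc
  rw [Finset.sum_eq_zero_iff_of_nonneg (fun g _ => by positivity)] at h4
  simpa using h4 h (by simp [hh])

end Cfsg.Agent.BlkChar
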