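import Cfsg.Agent.BrauerPairs.Local
import Cfsg.Agent.Brauer.RegElement
import Cfsg.Agent.Block.Degrees
import Cfsg.Agent.Block.Restrict
import Cfsg.Agent.Char.DefectZero
import Cfsg.Agent.Char.Kernel
import Mathlib

/-!
# Maximal Brauer pairs: defect zero over the centre and index of the stabilizer
-/

set_option autoImplicit false
set_option linter.style.haveILetI false

open scoped ComplexConjugate Classical
open Finset

namespace Cfsg.Agent.MaxPair

universe u

variable {p : ℕ} [hp : Fact p.Prime] {M : Ideal AlgInt}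

section Central

variable {C : Type u} [Group C] [Fintype C] {Z : Subgroup C} [Z.Normal]

theorem norm_irr_sum {χ : C → ℂ} (hχ : IsIrrCharacter C χ) :
    ∑ g : C, χ g * conj (χ g) = (Nat.card C : ℂ) := by
  rw [Char.sum_mul_conj_eq_card_mul_classInner, Char.classInner_irr hχ hχ, if_pos rfl, mul_one]

/-- For a defect-zero character over the central `p`-subgroup `Z`: sums over `p`-regular
elements. -/
theorem regSum_self (hZc : Z ≤ Subgroup.center C) (hZp : IsPGroup p Z) (θ : IrrCharacter C)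
    (hker : ∀ z ∈ Z, (θ : C → ℂ) z = (θ : C → ℂ) 1)
    (hdeg : (charDegree (θ : C → ℂ)).factorization p + (Nat.card Z).factorization p =
      (Nat.card C).factorization p) :
    ∃ m : ℕ, ¬ p ∣ m ∧ Brauer.regSum p (θ : C → ℂ) θ = (charDegree (θ : C → ℂ) : ℂ) * m := by
  obtain ⟨ψ, hψ, hψg⟩ := Char.irr_exists_descend θ.2 Z hker
  obtain ⟨h1, hd0, -⟩ := Block.irr_one_eq_charDegree θ.2
  set d := charDegree (θ : C → ℂ) with hd
  have hψ1 : ψ 1 = (d : ℂ) := by rw [← QuotientGroup.mk_one, ← hψg, h1]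
  obtain ⟨d', -, hd', m, hm⟩ := Char.irr_degree_dvd_card hψ
  have hdd : d' = d := by exact_mod_cast hd'.symm.trans hψ1
  rw [hdd] at hm
  have hm0 : m ≠ 0 := fun h => by
    rw [h, mul_zero] at hm; exact Nat.card_pos.ne' hm
  have hcard : Nat.card C = d * m * Nat.card Z := by
    rw [Subgroup.card_eq_card_quotient_mul_card_subgroup Z, hm]
  have hpm : ¬ p ∣ m := fun h => by
    rw [hcard, Nat.factorization_mul (Nat.mul_ne_zero hd0.ne' hm0) Nat.card_pos.ne',
      Nat.factorization_mul hd0.ne' hm0] at hdeg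
    have := (hp.out.dvd_iff_one_le_factorization hm0).mp h
    simp only [Finsupp.add_apply] at hdeg
    omega
  refine ⟨m, hpm, ?_⟩
  have hvan : ∀ g : C, p ∣ orderOf (g : C ⧸ Z) → (θ : C → ℂ) g = 0 := fun g hg => by
    rw [hψg]; exact Char.irr_defect_zero_vanish hψ hp.out hψ1 hm hpm _ hg
  set R := univ.filter (fun y : C => ¬ p ∣ orderOf y) with hR
  let F : Z × R → C := fun zy => (zy.1 : C) * (zy.2 : C)
  have hFinj : Function.Injective F := by
    rintro ⟨⟨z, hz⟩, ⟨y, hy⟩⟩ ⟨⟨z', hz'⟩, ⟨y', hy'⟩⟩ h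
    change z * y = z' * y' at h
    simp only [hR, mem_filter, mem_univ, true_and] at hy hy'
    set w := z'⁻¹ * z with hw
    have hwZ : w ∈ Z := Z.mul_mem (Z.inv_mem hz') hz
    have hy'w : y' = w * y := by rw [hw, mul_assoc, h, inv_mul_cancel_left]
    set n := orderOf y * orderOf y'
    have hn : ¬ p ∣ n := fun hd => (hp.out.dvd_mul.mp hd).elim hy hy'
    have h2 : y' ^ n = w ^ n * y ^ n := by
      rw [hy'w]
      exact Commute.mul_pow (Subgroup.mem_center_iff.mp (hZc hwZ) y).symm n
    rw [orderOf_dvd_iff_pow_eq_one.mp (dvd_mul_left _ _),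
      orderOf_dvd_iff_pow_eq_one.mp (dvd_mul_right _ _), mul_one] at h2
    obtain ⟨k, hk⟩ := (IsPGroup.iff_orderOf.mp hZp) ⟨w, hwZ⟩
    rw [Subgroup.orderOf_mk] at hk
    have hdvd : p ^ k ∣ n := hk ▸ orderOf_dvd_of_pow_eq_one h2.symm
    rcases Nat.eq_zero_or_pos k with rfl | hk0
    · rw [pow_zero, orderOf_eq_one_iff] at hk
      have hzz : z = z' := inv_mul_eq_one.mp (hw ▸ hk) |>.symm
      subst hzz
      simp [mul_left_cancel h]
    · exact absurd ((dvd_pow_self p hk0.ne').trans hdvd) hn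
  have hout : ∀ g ∉ univ.image F, (θ : C → ℂ) g * conj ((θ : C → ℂ) g) = 0 := by
    intro g hg
    rw [hvan g ?_, zero_mul]
    by_contra hnd
    refine hg ?_
    set r := orderOf (g : C ⧸ Z)
    obtain ⟨e, he⟩ := IsPGroup.iff_card.mp hZp
    have hgr : g ^ r ∈ Z := by
      rw [← QuotientGroup.eq_one_iff, QuotientGroup.mk_pow, pow_orderOf_eq_one]
    have hcop : Nat.Coprime r (p ^ e) :=
      Nat.Coprime.pow_right _ ((Nat.Prime.coprime_iff_not_dvd hp.out).mpr hnd).symm
    obtain ⟨a, ha⟩ : ∃ a : ℕ, r * a ≡ 1 [MOD p ^ e] := by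
      rcases Nat.eq_zero_or_pos e with rfl | he0
      · exact ⟨0, Nat.modEq_one⟩
      · obtain ⟨a, -, ha⟩ :=
          Nat.exists_mul_mod_eq_one_of_coprime hcop (Nat.one_lt_pow he0.ne' hp.out.one_lt)
        exact ⟨a, by
          rw [Nat.ModEq, ha, Nat.mod_eq_of_lt (Nat.one_lt_pow he0.ne' hp.out.one_lt)]⟩
    have hz : g ^ (r * a) ∈ Z := by rw [pow_mul]; exact Z.pow_mem hgr a
    have hy : (g * (g ^ (r * a))⁻¹) ^ r = 1 := by
      rw [Commute.mul_pow ((Commute.self_pow g _).inv_right), inv_pow, ← pow_mul g (r * a) r,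
        show r * a * r = r * (r * a) by ring, pow_mul g r (r * a)]
      have hpe : (g ^ r) ^ (r * a) = g ^ r := by
        have hord : orderOf (g ^ r) ∣ p ^ e := by
          rw [← he]; exact Subgroup.orderOf_dvd_natCard Z hgr
        conv_rhs => rw [← pow_one (g ^ r)]
        exact pow_eq_pow_iff_modEq.mpr (ha.of_dvd hord)
      rw [hpe, mul_inv_cancel]
    refine mem_image.mpr ⟨(⟨_, hz⟩, ⟨g * (g ^ (r * a))⁻¹, mem_filter.mpr ⟨mem_univ _, fun h =>
      hnd (h.trans (orderOf_dvd_of_pow_eq_one hy))⟩⟩), mem_univ _, ?_⟩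
    show g ^ (r * a) * (g * (g ^ (r * a))⁻¹) = g
    rw [← mul_assoc, (Commute.self_pow g _).symm.eq, mul_inv_cancel_right]
  have hsum : (Nat.card Z : ℂ) * Brauer.regSum p (θ : C → ℂ) θ = (Nat.card C : ℂ) := by
    rw [← norm_irr_sum θ.2, ← Finset.sum_subset (subset_univ (univ.image F)) fun g _ hg => hout g hg,
      Finset.sum_image fun a _ b _ h => hFinj h, Fintype.sum_prod_type]
    have hval : ∀ (z : Z) (y : R), (θ : C → ℂ) (F (z, y)) = (θ : C → ℂ) y := fun z y =>
      (Char.isCharacter_mul_of_mem_ker (Char.isCharacter_of_irr θ.2) (hker z z.2) _).1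
    simp only [hval, Finset.sum_const, Finset.card_univ, nsmul_eq_mul, Nat.card_eq_fintype_card]
    rw [Brauer.regSum, Finset.sum_coe_sort R (fun y => (θ : C → ℂ) y * conj ((θ : C → ℂ) y))]
  refine mul_left_cancel₀ (Nat.cast_ne_zero.mpr (Nat.card_pos (α := Z)).ne') ?_
  rw [hsum, hcard]
  push_cast
  ring

/-- A character of defect zero over a central `p`-subgroup has least degree in its block. -/
theorem degree_le_of_sameBlock (hM : IsPModular p M) (hZc : Z ≤ Subgroup.center C)
    (hZp : IsPGroup p Z) (θ : IrrCharacter C) (hker : ∀ z ∈ Z, (θ : C → ℂ) z = (θ : C → ℂ) 1)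
    (hdeg : (charDegree (θ : C → ℂ)).factorization p + (Nat.card Z).factorization p =
      (Nat.card C).factorization p)
    (χ : IrrCharacter C) (h : SameBlock M (χ : C → ℂ) (θ : C → ℂ)) :
    (charDegree (θ : C → ℂ)).factorization p ≤ (charDegree (χ : C → ℂ)).factorization p := by
  haveI := Block.isPrime_of_isPModular hM
  obtain ⟨m, hpm, hm⟩ := regSum_self hZc hZp θ hker hdeg
  obtain ⟨hθ1, hd0, -⟩ := Block.irr_one_eq_charDegree θ.2
  obtain ⟨hχ1, hc0, -⟩ := Block.irr_one_eq_charDegree χ.2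
  set d := charDegree (θ : C → ℂ)
  set c := charDegree (χ : C → ℂ)
  have hd : (d : ℂ) ≠ 0 := Nat.cast_ne_zero.mpr hd0.ne'
  set r := Brauer.regSum p (χ : C → ℂ) θ
  have hu : ¬ MemLocalIdeal M (r / (c : ℂ)) := fun hmem => by
    have h1 := Brauer.regSum_div_congr hM (Char.isCharacter_of_irr θ.2) h
    rw [hm, hθ1, hχ1, mul_div_cancel_left₀ _ hd] at h1
    have h2 := Block.memLocalIdeal_sub hmem h1
    rw [sub_sub_cancel] at h2
    exact hpm ((Block.memLocalIdeal_natCast_iff hM m).mp h2)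
  have hloc : MemLocalRing M (r / (c : ℂ)) := by
    have := Brauer.regSum_div_memLocalRing hM (Char.isCharacter_of_irr θ.2) χ
    rwa [hχ1] at this
  have hrd : MemLocalRing M (r / (d : ℂ)) := by
    have := Brauer.regSum_div_memLocalRing hM
      (Char.isCharacter_conjFun (Char.isCharacter_of_irr χ.2))
      ⟨_, Char.isIrrCharacter_conjFun θ.2⟩
    rw [show Brauer.regSum p (fun g => conj ((θ : C → ℂ) g)) (fun g => conj ((χ : C → ℂ) g)) = r by
      simp only [r, Brauer.regSum, Complex.conj_conj]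
      exact Finset.sum_congr rfl fun g _ => mul_comm _ _] at this
    simpa [hθ1] using this
  have hr0 : r ≠ 0 := fun h0 => hu (by rw [h0, zero_div]; exact Block.memLocalIdeal_zero)
  have hdiv : MemLocalRing M ((c : ℂ) / d) := by
    have heq : (c : ℂ) / d = r / d * (r / c)⁻¹ := by
      have : (c : ℂ) ≠ 0 := Nat.cast_ne_zero.mpr hc0.ne'
      field_simp
    rw [heq]
    exact (Block.localRing M).mul_mem hrd (Block.memLocalRing_inv hloc hu)
  exact (Block.memLocalRing_natCast_div_iff hM hc0.ne' hd0.ne').mp hdiv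

/-- Every block has a member with the central `p`-subgroup `Z` in its kernel. -/
theorem exists_trivial_on (hM : IsPModular p M) (hZc : Z ≤ Subgroup.center C)
    (hZp : IsPGroup p Z) {B : Set (IrrCharacter C)} (hB : IsPBlock M B) :
    ∃ θ ∈ B, ∀ z ∈ Z, (θ : C → ℂ) z = (θ : C → ℂ) 1 := by
  haveI := Block.isPrime_of_isPModular hM
  haveI := Block.charP_resF hM
  by_contra hall
  have hnil : IsNilpotent (Block.idemF M B) := by
    refine Block.isNilpotent_of_coset_sum_eq_zero hZp fun g => ?_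
    simp only [Block.coeff_idemF hB]
    rw [← Block.redC_sum _ _ fun x _ => Block.blockCoeff_memLocalRing hB x]
    suffices h0 : ∑ x ∈ univ.filter (fun x => g⁻¹ * x ∈ Z), blockCoeff B x = 0 by
      rw [h0, Block.redC_zero]
    have hre : ∀ φ : C → ℂ, ∑ x ∈ univ.filter (fun x => g⁻¹ * x ∈ Z), φ x = ∑ z : Z, φ (g * z) := by
      intro φ
      refine Finset.sum_bij' (fun x hx => (⟨g⁻¹ * x, (mem_filter.mp hx).2⟩ : Z))
        (fun z _ => g * z) (fun _ _ => mem_univ _) (fun z _ => by simp) (fun x _ => by simp)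
        (fun z _ => by simp) (fun x _ => by simp)
    rw [hre]
    simp only [blockCoeff, ← Finset.mul_sum]
    simp only [finsum_mem_eq_toFinset_sum]
    rw [Finset.sum_comm]
    refine mul_eq_zero_of_right _ (Finset.sum_eq_zero fun χ hχ => ?_)
    rw [← Finset.mul_sum, ← map_sum]
    suffices hs : ∑ z : Z, (χ : C → ℂ) (g * z) = 0 by rw [hs, map_zero, mul_zero]
    rw [Set.mem_toFinset] at hχ
    obtain ⟨z₀, hz₀, hne⟩ : ∃ z ∈ Z, (χ : C → ℂ) z ≠ (χ : C → ℂ) 1 := by
      by_contra hc
      push Not at hc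
      exact hall ⟨χ, hχ, hc⟩
    obtain ⟨ω, -, hω1, hω⟩ := Char.irr_mul_center χ.2 (hZc hz₀)
    have hω' : ω ≠ 1 := fun h => hne (by rw [hω1, h, one_mul])
    have heq : ω * ∑ z : Z, (χ : C → ℂ) (g * z) = ∑ z : Z, (χ : C → ℂ) (g * z) := by
      rw [Finset.mul_sum]
      refine Fintype.sum_equiv (Equiv.mulLeft (⟨z₀, hz₀⟩ : Z)) _ _ fun z => ?_
      rw [Equiv.coe_mulLeft, Subgroup.coe_mul, ← hω]
      congr 1
      rw [← mul_assoc, ← Subgroup.mem_center_iff.mp (hZc hz₀) g, mul_assoc]
    by_contra hs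
    exact hω' ((mul_eq_right₀ hs).mp heq)
  obtain ⟨n, hn⟩ := hnil
  obtain ⟨χ, hχ⟩ := Block.pBlock_nonempty hB
  have h1 := Block.lam_idemF_of_mem hB hχ
  have hid : IsIdempotentElem (Block.idemF M B) := Block.idemF_mul_self hB
  rcases n with _ | n
  · rw [eq_zero_of_zero_eq_one (by simpa using hn.symm) (Block.idemF M B)] at h1
    rw [Block.lam_zero] at h1
    exact zero_ne_one h1
  · rw [hid.pow_succ_eq] at hn
    rw [hn, Block.lam_zero] at h1
    exact zero_ne_one h1

/-- The defect group is the central subgroup exactly when a member has defect zero over it. -/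
theorem isDefectGroup_iff_exists (hM : IsPModular p M) (hZc : Z ≤ Subgroup.center C)
    (hZp : IsPGroup p Z) {B : Set (IrrCharacter C)} (hB : IsPBlock M B) :
    IsDefectGroup p M B Z ↔ ∃ θ ∈ B, (∀ z ∈ Z, (θ : C → ℂ) z = (θ : C → ℂ) 1) ∧
      (charDegree (θ : C → ℂ)).factorization p + (Nat.card Z).factorization p =
        (Nat.card C).factorization p := by
  haveI := Block.isPrime_of_isPModular hM
  obtain ⟨e, he⟩ := IsPGroup.iff_card.mp hZp
  have hez : (Nat.card Z).factorization p = e := by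
    rw [he, hp.out.factorization_pow, Finsupp.single_eq_same]
  set deg := fun χ : IrrCharacter C => (charDegree (χ : C → ℂ)).factorization p
  constructor
  · intro hD
    obtain ⟨θ, hθ, hker⟩ := exists_trivial_on hM hZc hZp hB
    refine ⟨θ, hθ, hker, ?_⟩
    have hcard := Block.card_isDefectGroup hM hB hD
    rw [he, blockDefect] at hcard
    have he' := Nat.pow_right_injective hp.out.two_le hcard
    have hmin : sInf (deg '' B) ≤ deg θ := Nat.sInf_le ⟨θ, hθ, rfl⟩
    obtain ⟨ψ, hψ, hψg⟩ := Char.irr_exists_descend θ.2 Z hker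
    obtain ⟨h1, hd0, -⟩ := Block.irr_one_eq_charDegree θ.2
    obtain ⟨d', -, hd', hdvd⟩ := Char.irr_degree_dvd_card hψ
    obtain rfl : d' = charDegree (θ : C → ℂ) := by
      rw [← QuotientGroup.mk_one, ← hψg, h1] at hd'; exact_mod_cast hd'.symm
    have hle : deg θ ≤ (Nat.card (C ⧸ Z)).factorization p :=
      (Nat.factorization_le_iff_dvd hd0.ne' Nat.card_pos.ne').mpr hdvd p
    have hfac : (Nat.card C).factorization p = (Nat.card (C ⧸ Z)).factorization p + e := by
      rw [Subgroup.card_eq_card_quotient_mul_card_subgroup Z,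
        Nat.factorization_mul Nat.card_pos.ne' Nat.card_pos.ne', Finsupp.add_apply, hez]
    rw [hez]
    simp only [deg] at hle hmin he'
    omega
  · rintro ⟨θ, hθ, hker, hdeg⟩
    obtain ⟨D, hD⟩ := Block.exists_isDefectGroup (p := p) hB
    have hle : Z ≤ D := Block.normal_le_isDefectGroup hM hB hD hZp
    have hmin : deg θ ≤ sInf (deg '' B) := le_csInf ⟨_, θ, hθ, rfl⟩ (by
      rintro _ ⟨χ, hχ, rfl⟩
      exact degree_le_of_sameBlock hM hZc hZp θ hker hdeg χ (Block.pBlock_sameBlock hB hχ hθ))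
    have hcard := Block.card_isDefectGroup hM hB hD
    have hdef : blockDefect p B ≤ e := by
      rw [blockDefect]
      rw [hez] at hdeg
      simp only [deg] at hmin
      omega
    have : Z = D := Subgroup.eq_of_le_of_card_ge hle (by
      rw [hcard, he]; exact Nat.pow_le_pow_right hp.out.pos hdef)
    rw [this]; exact hD

end Central


section Global

open MonoidAlgebra Cfsg.Agent.BrauerPairs

section Abstract

variable {G : Type u} [Group G] [Finite G] {k : Type*} [Field k] [CharP k p]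

/-- A pair is maximal in its block exactly when the Brauer map of no strictly larger `p`-subgroup
of its stabilizer keeps the idempotent alive. -/
theorem exists_maxPair_iff {ι₀ : Type*} [Fintype ι₀] (S₀ : BlockSys k (⊤ : Subgroup G) ι₀)
    {ι : Subgroup G → Type*} [∀ P, Fintype (ι P)]
    (S : ∀ P : Subgroup G, BlockSys k (Subgroup.centralizer (P : Set G)) (ι P))
    {Q : Subgroup G} (f : ι Q) (hQ : IsPGroup p Q) :
    (∃ B, MaxPair S₀ S p B ⟨Q, f⟩) ↔
      ∀ R : Subgroup G, IsPGroup p R → Q ≤ R → R ≤ Subgroup.normalizer (Q : Set G) →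
        Fixed R ((S Q).idem f) → trunc R ((S Q).idem f) ≠ 0 → R = Q := by
  constructor
  · rintro ⟨B, hB⟩ R hR hQR hRN hfix hne
    have hcen : CentralIn (Subgroup.centralizer (R : Set G)) (trunc R ((S Q).idem f)) :=
      ⟨suppIn_trunc _ _, (((S Q).central_idem f).fixed.mono
        (centralizer_anti hQR)).trunc (Subgroup.centralizer_le_normalizer _)⟩
    obtain ⟨g, hg⟩ := (S R).exists_lam_one hcen
      (by rw [← trunc_mul hR hfix hfix, (S Q).idem_mul_self]) hne
    exact hB.eq_of_nsub (c := ⟨R, g⟩) ⟨hR, hQR, hRN, hfix, hg⟩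
  · intro h
    obtain ⟨B, hB, -⟩ := existsUnique_pairOf (p := p) S₀ S (a := ⟨Q, f⟩) hQ
    refine ⟨B, hB, fun b _ hab => ?_⟩
    rcases hab.cases_lt with rfl | ⟨c, hlt, hc, -⟩
    · rfl
    obtain ⟨hcp, hle, hN, hfix, hlam⟩ := hc
    refine absurd (h c.1 hcp hle hN hfix ?_) hlt.ne'
    intro h0
    rw [h0, (S c.1).lam_zero] at hlam
    exact zero_ne_one hlam

variable {Q : Subgroup G} {ι : Type*} [Fintype ι]
  (S : BlockSys k (Subgroup.centralizer (Q : Set G)) ι) (ib : ι)

theorem coeff_eq_of_mem_classSet {H : Subgroup G} {a : MonoidAlgebra k G} (ha : Fixed H a)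
    {x g : G} (hg : g ∈ classSet H x) : a.coeff g = a.coeff x := by
  obtain ⟨h, hh, rfl⟩ := hg
  exact ha h hh x

theorem mem_classSet_out {H : Subgroup G} (c : H) :
    (c : G) ∈ classSet H ((Quotient.out (s := IsConj.setoid H) (ConjClasses.mk c) : H) : G) := by
  obtain ⟨d, hd⟩ := isConj_iff.1
    (ConjClasses.mk_eq_mk_iff_isConj.1 (Quotient.out_eq (s := IsConj.setoid H) (ConjClasses.mk c)) :
      IsConj (Quotient.out (s := IsConj.setoid H) (ConjClasses.mk c)) c)
  exact ⟨d, d.2, congrArg Subtype.val hd⟩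

/-- The stabilizer of a block of the centralizer. -/
noncomputable def stb : Subgroup G where
  carrier := {x | x ∈ Subgroup.normalizer (Q : Set G) ∧ cj x (S.idem ib) = S.idem ib}
  one_mem' := ⟨one_mem _, cj_one _⟩
  mul_mem' hx hy := ⟨mul_mem hx.1 hy.1, by rw [← cj_cj, hy.2, hx.2]⟩
  inv_mem' {x} hx := ⟨inv_mem hx.1, by
    conv_lhs => rw [← hx.2]
    exact cj_inv_cj x _⟩

theorem centralizer_le_stb : Subgroup.centralizer (Q : Set G) ≤ stb S ib := fun x hx =>
  ⟨Subgroup.centralizer_le_normalizer _ hx, fixed_iff_cj.1 (S.central_idem ib).fixed x hx⟩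

theorem self_le_stb : Q ≤ stb S ib := fun x hx =>
  ⟨Subgroup.le_normalizer hx,
    fixed_iff_cj.1 (fixed_self_of_suppIn (S.central_idem ib).supp) x hx⟩

theorem fixed_stb : Fixed (stb S ib) (S.idem ib) := fixed_iff_cj.2 fun _ hx => hx.2

theorem isDefIn_inf (hQ : IsPGroup p Q)
    (h : ∀ R : Subgroup G, IsPGroup p R → Q ≤ R → R ≤ stb S ib → trunc R (S.idem ib) ≠ 0 → R = Q) :
    IsDefIn p (Subgroup.centralizer (Q : Set G)) (S.idem ib)
      (Q ⊓ Subgroup.centralizer (Q : Set G)) := by
  obtain ⟨D, hD⟩ := S.exists_isDefIn (p := p) ib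
  have hsupp := (S.central_idem ib).supp
  have hsup : Q ⊔ D = Q := h _
    (isPGroup_sup_of_le_normalizer hQ hD.2.1 (hD.1.trans (Subgroup.centralizer_le_normalizer _)))
    le_sup_left (sup_le (self_le_stb S ib) (hD.1.trans (centralizer_le_stb S ib)))
    (by rw [trunc_sup_eq hsupp]; exact hD.2.2.1)
  have hDQ : D ≤ Q := hsup.le.trans' le_sup_right
  refine hD.of_card_eq (S.central_idem ib).fixed inf_le_right
    (hQ.to_le inf_le_left) ?_ (Subgroup.card_le_of_le (le_inf hDQ hD.1))
  rw [trunc_eq_self_iff.2 fun g hg => hsupp g fun hc => hg (centralizer_anti inf_le_left hc)]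
  exact S.idem_ne_zero ib

theorem sum_classes_eq_one [Fintype (ConjClasses (Subgroup.centralizer (Q : Set G)))] :
    ∑ K : ConjClasses (Subgroup.centralizer (Q : Set G)),
      (S.idem ib).coeff ((Quotient.out (s := IsConj.setoid _) K : Subgroup.centralizer (Q : Set G)) : G) *
        S.lam ib (classSum k (Subgroup.centralizer (Q : Set G))
          ((Quotient.out (s := IsConj.setoid _) K : Subgroup.centralizer (Q : Set G)) : G)) = 1 := by
  set o : ConjClasses (Subgroup.centralizer (Q : Set G)) → G := fun K =>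
    ((Quotient.out (s := IsConj.setoid _) K : Subgroup.centralizer (Q : Set G)) : G) with ho
  have hexp : S.idem ib = ∑ K, (S.idem ib).coeff (o K) •
      classSum k (Subgroup.centralizer (Q : Set G)) (o K) := by
    ext g
    simp only [coeff_sum, Finsupp.coe_finsetSum, Finset.sum_apply, coeff_smul, Finsupp.smul_apply,
      smul_eq_mul, coeff_classSum]
    by_cases hg : g ∈ Subgroup.centralizer (Q : Set G)
    · rw [Finset.sum_eq_single (ConjClasses.mk (⟨g, hg⟩ : Subgroup.centralizer (Q : Set G)))]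
      · rw [Set.indicator_of_mem (mem_classSet_out (⟨g, hg⟩ : Subgroup.centralizer (Q : Set G))),
          mul_one]
        exact coeff_eq_of_mem_classSet (S.central_idem ib).fixed
          (mem_classSet_out (⟨g, hg⟩ : Subgroup.centralizer (Q : Set G)))
      · intro K _ hK
        rw [Set.indicator_of_notMem, mul_zero]
        rintro ⟨h', hh', he⟩
        apply hK
        have hc : ConjClasses.mk (Quotient.out (s := IsConj.setoid _) K) =
            ConjClasses.mk (⟨g, hg⟩ : Subgroup.centralizer (Q : Set G)) :=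
          ConjClasses.mk_eq_mk_iff_isConj.2 (isConj_iff.2 ⟨⟨h', hh'⟩, Subtype.ext he⟩)
        exact ((Quotient.out_eq (s := IsConj.setoid _) K).symm.trans hc)
      · exact fun hK => absurd (Finset.mem_univ _) hK
    · rw [(S.central_idem ib).supp g hg]
      refine (Finset.sum_eq_zero fun K _ => ?_).symm
      rw [Set.indicator_of_notMem, mul_zero]
      rintro ⟨h', hh', rfl⟩
      exact hg (mul_mem (mul_mem hh' (SetLike.coe_mem _)) (inv_mem hh'))
  have h1 := S.lam_idem_self ib
  have hc : ∀ K, CentralIn (Subgroup.centralizer (Q : Set G))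
      (classSum k (Subgroup.centralizer (Q : Set G)) (o K)) := fun K =>
    centralIn_classSum (SetLike.coe_mem _)
  calc ∑ K, (S.idem ib).coeff (o K) *
        S.lam ib (classSum k (Subgroup.centralizer (Q : Set G)) (o K))
      = S.lam ib (∑ K, (S.idem ib).coeff (o K) •
          classSum k (Subgroup.centralizer (Q : Set G)) (o K)) := by
        rw [S.lam_sum ib _ fun K _ => (hc K).smul _]
        exact Finset.sum_congr rfl fun K _ => (S.lam_smul ib _ _ (hc K)).symm
    _ = 1 := by rw [← hexp, h1]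

theorem exists_fixed_class {x : G} (hx : x ∈ stb S ib) {n : ℕ} (hord : orderOf x = p ^ n) :
    ∃ t : G, t ∈ Subgroup.centralizer (Q : Set G) ∧ (S.idem ib).coeff t ≠ 0 ∧
      ∃ d ∈ Subgroup.centralizer (Q : Set G), (d * x) * t = t * (d * x) := by
  haveI := Fintype.ofFinite (ConjClasses (Subgroup.centralizer (Q : Set G)))
  have hN : ∀ r : Subgroup.zpowers x, (r : G) ∈ stb S ib := fun r =>
    (Subgroup.zpowers_le.2 hx) r.2
  let φ : Subgroup.zpowers x →
      Subgroup.centralizer (Q : Set G) →* Subgroup.centralizer (Q : Set G) := fun r =>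
    { toFun := fun c => ⟨(r : G) * c * (r : G)⁻¹, centralizer_conj_mem (hN r).1 c.2⟩
      map_one' := Subtype.ext (by simp)
      map_mul' := fun c d => Subtype.ext (by simp [mul_assoc]) }
  letI : MulAction (Subgroup.zpowers x) (ConjClasses (Subgroup.centralizer (Q : Set G))) :=
    { smul := fun r K => ConjClasses.map (φ r) K
      one_smul := fun K => by
        induction K using Quotient.inductionOn with
        | h c => exact congrArg ConjClasses.mk (Subtype.ext (by simp [φ]))
      mul_smul := fun r s K => by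
        induction K using Quotient.inductionOn with
        | h c => exact congrArg ConjClasses.mk (Subtype.ext (by simp [φ, mul_assoc])) }
  let f : ConjClasses (Subgroup.centralizer (Q : Set G)) → k := fun K =>
    (S.idem ib).coeff ((Quotient.out (s := IsConj.setoid _) K : Subgroup.centralizer (Q : Set G)) : G) *
      S.lam ib (classSum k (Subgroup.centralizer (Q : Set G))
        ((Quotient.out (s := IsConj.setoid _) K : Subgroup.centralizer (Q : Set G)) : G))
  have hfmk : ∀ c : Subgroup.centralizer (Q : Set G), f (ConjClasses.mk c) =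
      (S.idem ib).coeff (c : G) *
        S.lam ib (classSum k (Subgroup.centralizer (Q : Set G)) (c : G)) := by
    intro c
    simp only [f]
    rw [coeff_eq_of_mem_classSet (S.central_idem ib).fixed (mem_classSet_out c),
      classSum_eq_of_mem (mem_classSet_out c)]
  have hinv : ∀ (r : Subgroup.zpowers x) (K : ConjClasses (Subgroup.centralizer (Q : Set G))),
      f (r • K) = f K := by
    intro r K
    induction K using Quotient.inductionOn with
    | h c =>
      show f (ConjClasses.mk (φ r c)) = f (ConjClasses.mk c)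
      rw [hfmk, hfmk]
      obtain ⟨hrN, hrE⟩ := hN r
      congr 1
      · exact fixed_stb S ib r (hN r) c
      · show S.lam ib (classSum k (Subgroup.centralizer (Q : Set G))
          ((r : G) * c * (r : G)⁻¹)) = _
        rw [← cj_classSum (Subgroup.centralizer (Q : Set G)) (c : G) (r : G)
          (normalizer_le_normalizer_centralizer _ hrN)]
        exact S.lam_cj S (r : G)
          (map_conj_of_mem_normalizer (normalizer_le_normalizer_centralizer _ hrN)) hrE.symm
          (centralIn_classSum c.2)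
  have hRp : IsPGroup p (Subgroup.zpowers x) :=
    IsPGroup.of_card (by rw [Nat.card_zpowers, hord] : Nat.card (Subgroup.zpowers x) = p ^ n)
  have hsum : ∑ K, f K = 1 := sum_classes_eq_one S ib
  rw [sum_eq_sum_fixedPoints (p := p) (P := Subgroup.zpowers x)
    (fun r : k => by simp) hRp f hinv] at hsum
  obtain ⟨K, hK, hfK⟩ := Finset.exists_ne_zero_of_sum_ne_zero (by rw [hsum]; exact one_ne_zero)
  obtain ⟨tc, rfl⟩ := ConjClasses.mk_surjective K
  rw [hfmk] at hfK
  have hcj : ConjClasses.mk (φ ⟨x, Subgroup.mem_zpowers x⟩ tc) = ConjClasses.mk tc :=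
    (Finset.mem_filter.1 hK).2 ⟨x, Subgroup.mem_zpowers x⟩
  obtain ⟨d, hd⟩ := isConj_iff.1 (ConjClasses.mk_eq_mk_iff_isConj.1 hcj)
  refine ⟨tc, tc.2, left_ne_zero_of_mul hfK, d, d.2, ?_⟩
  have hd' : (d : G) * (x * tc * x⁻¹) * (d : G)⁻¹ = tc := congrArg Subtype.val hd
  rw [← mul_inv_eq_iff_eq_mul]
  simpa [mul_assoc] using hd'

theorem mem_sup_centralizer (hQ : IsPGroup p Q)
    (h : ∀ R : Subgroup G, IsPGroup p R → Q ≤ R → R ≤ stb S ib → trunc R (S.idem ib) ≠ 0 → R = Q)
    {x : G} (hx : x ∈ stb S ib) {n : ℕ} (hord : orderOf x = p ^ n) :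
    x ∈ Q ⊔ Subgroup.centralizer (Q : Set G) := by
  obtain ⟨t, htC, ht0, d, hdC, hcomm⟩ := exists_fixed_class S ib hx hord
  set y := d * x with hy
  have hys : y ∈ stb S ib := mul_mem (centralizer_le_stb S ib hdC) hx
  have hxC : ∀ c ∈ Subgroup.centralizer (Q : Set G),
      x⁻¹ * c * x ∈ Subgroup.centralizer (Q : Set G) := fun c hc => by
    simpa using centralizer_conj_mem (inv_mem hx.1) hc
  have hpow : ∀ m : ℕ, (x ^ m)⁻¹ * y ^ m ∈ Subgroup.centralizer (Q : Set G) := by
    intro m
    induction m with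
    | zero => simp
    | succ m ih =>
      have : (x ^ (m + 1))⁻¹ * y ^ (m + 1) =
          (x⁻¹ * ((x ^ m)⁻¹ * y ^ m) * x) * (x⁻¹ * d * x) := by
        rw [pow_succ x, pow_succ y, hy]; group
      rw [this]
      exact mul_mem (hxC _ ih) (hxC _ hdC)
  obtain ⟨j, m, hm, hmo⟩ :=
    Nat.exists_eq_pow_mul_and_not_dvd (orderOf_pos y).ne' p hp.out.ne_one
  obtain ⟨b, hb⟩ : ∃ b : ℕ, m * b ≡ 1 [MOD p ^ n] := by
    rcases Nat.eq_zero_or_pos n with rfl | hn
    · exact ⟨0, Nat.modEq_one⟩
    · have hlt := Nat.one_lt_pow hn.ne' hp.out.one_lt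
      obtain ⟨b, -, hb⟩ := Nat.exists_mul_mod_eq_one_of_coprime
        (Nat.Coprime.pow_right n ((Nat.Prime.coprime_iff_not_dvd hp.out).mpr hm).symm) hlt
      exact ⟨b, by rw [Nat.ModEq, hb, Nat.mod_eq_of_lt hlt]⟩
  set u := y ^ (m * b) with hu
  have hxu : x⁻¹ * u ∈ Subgroup.centralizer (Q : Set G) := by
    have hxm : x ^ (m * b) = x := by
      conv_rhs => rw [← pow_one x]
      exact pow_eq_pow_iff_modEq.mpr (by rw [hord]; exact hb)
    have := hpow (m * b)
    rwa [hxm] at this
  have hup : IsPGroup p (Subgroup.zpowers u) := by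
    have hu1 : u ^ p ^ j = 1 := by
      rw [hu, ← pow_mul, show m * b * p ^ j = p ^ j * m * b by ring, ← hmo, pow_mul,
        pow_orderOf_eq_one, one_pow]
    obtain ⟨l, -, hl⟩ := (Nat.dvd_prime_pow hp.out).1 (orderOf_dvd_of_pow_eq_one hu1)
    exact IsPGroup.of_card (by rw [Nat.card_zpowers, hl] : Nat.card (Subgroup.zpowers u) = p ^ l)
  have hus : u ∈ stb S ib := pow_mem hys _
  have hne : trunc (Subgroup.zpowers u) (S.idem ib) ≠ 0 := by
    intro h0
    apply ht0
    have htc : t ∈ Subgroup.centralizer ((Subgroup.zpowers u : Subgroup G) : Set G) := by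
      rw [Subgroup.mem_centralizer_iff]
      intro g hg
      obtain ⟨z, rfl⟩ := Subgroup.mem_zpowers_iff.1 hg
      exact (((show Commute y t from hcomm).pow_left _).zpow_left z).eq
    rw [← coeff_trunc_mem (S.idem ib) htc, h0]
    rfl
  have hR : Q ⊔ Subgroup.zpowers u = Q :=
    h _ (isPGroup_sup_of_le_normalizer hQ hup (Subgroup.zpowers_le.2 hus.1)) le_sup_left
      (sup_le (self_le_stb S ib) (Subgroup.zpowers_le.2 hus))
      (by rw [trunc_sup_eq (S.central_idem ib).supp]; exact hne)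
  have huQ : u ∈ Q := hR.le (Subgroup.mem_sup_right (Subgroup.mem_zpowers u))
  rw [show x = u * (x⁻¹ * u)⁻¹ by group]
  exact mul_mem (Subgroup.mem_sup_left huQ) (Subgroup.mem_sup_right (inv_mem hxu))

theorem eq_of_trunc_ne_zero
    (hD : IsDefIn p (Subgroup.centralizer (Q : Set G)) (S.idem ib)
      (Q ⊓ Subgroup.centralizer (Q : Set G)))
    (hx : ∀ x ∈ stb S ib, (∃ n : ℕ, orderOf x = p ^ n) →
      x ∈ Q ⊔ Subgroup.centralizer (Q : Set G))
    {R : Subgroup G} (hR : IsPGroup p R) (hQR : Q ≤ R) (hRs : R ≤ stb S ib)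
    (hne : trunc R (S.idem ib) ≠ 0) : R = Q := by
  have hinf : R ⊓ Subgroup.centralizer (Q : Set G) = Q ⊓ Subgroup.centralizer (Q : Set G) := by
    refine (Subgroup.eq_of_le_of_card_ge
      (le_inf (inf_le_left.trans hQR) inf_le_right) ?_).symm
    refine hD.card_le inf_le_right (hR.to_le inf_le_left) fun h0 => hne ?_
    rw [← trunc_trunc (P := R) (Q := R ⊓ Subgroup.centralizer (Q : Set G)) inf_le_left, h0,
      map_zero]
  refine le_antisymm (fun r hr => ?_) hQR
  obtain ⟨n, hn⟩ := (IsPGroup.iff_orderOf.mp hR) ⟨r, hr⟩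
  have hmem := hx r (hRs hr) ⟨n, by rwa [Subgroup.orderOf_mk] at hn⟩
  rw [sup_comm, ← SetLike.mem_coe,
    Subgroup.coe_mul_of_left_le_normalizer_right (Subgroup.centralizer (Q : Set G)) Q
      (Subgroup.centralizer_le_normalizer _)] at hmem
  obtain ⟨c, hc, q, hq, rfl⟩ := Set.mem_mul.1 hmem
  have hcR : c ∈ R := by simpa using mul_mem hr (inv_mem (hQR hq))
  exact mul_mem (hinf.le (Subgroup.mem_inf.2 ⟨hcR, hc⟩)).1 hq

end Abstract

variable [M.IsPrime] [CharP (Block.ResF M) p] {G : Type u} [Group G] [Finite G]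

theorem maxPair_iff {Q : Subgroup G} (f : Blk M (Subgroup.centralizer (Q : Set G)))
    (hM : IsPModular p M) (hQ : IsPGroup p Q) :
    (∃ B : Set (IrrCharacter G), IsMaximalBrauerPair p M B Q f.1) ↔
      ∃ θ ∈ f.1, (∀ z : Subgroup.centralizer (Q : Set G), (z : G) ∈ Q →
          (θ : Subgroup.centralizer (Q : Set G) → ℂ) z =
            (θ : Subgroup.centralizer (Q : Set G) → ℂ) 1) ∧
        (charDegree (θ : Subgroup.centralizer (Q : Set G) → ℂ)).factorization p +
            (Nat.card ↥(Q ⊓ Subgroup.centralizer (Q : Set G))).factorization p =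
          (Nat.card (Subgroup.centralizer (Q : Set G))).factorization p ∧
        (∀ g : G, g ∈ Subgroup.normalizer (Q : Set G) →
          StabilizesBlock (Subgroup.centralizer (Q : Set G)) f.1 g →
            (∃ k : ℕ, orderOf g = p ^ k) → g ∈ Q ⊔ Subgroup.centralizer (Q : Set G)) := by
  haveI := Fintype.ofFinite G
  let a : PairIdx M G := ⟨Q, f⟩
  have hZc : Q.subgroupOf (Subgroup.centralizer (Q : Set G)) ≤ Subgroup.center (Subgroup.centralizer (Q : Set G)) := fun z hz => Subgroup.mem_center_iff.2 fun c =>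
    Subtype.ext ((Subgroup.mem_centralizer_iff.1 c.2 z hz).symm)
  haveI : (Q.subgroupOf (Subgroup.centralizer (Q : Set G))).Normal := ⟨fun z hz c => by
    rw [Subgroup.mem_center_iff.1 (hZc hz) c, mul_inv_cancel_right]; exact hz⟩
  have hZp : IsPGroup p (Q.subgroupOf (Subgroup.centralizer (Q : Set G))) :=
    (hQ.to_le inf_le_left : IsPGroup p (Q ⊓ (Subgroup.centralizer (Q : Set G)) : Subgroup G)).of_equiv
      (Subgroup.equivMapOfInjective _ (Subgroup.centralizer (Q : Set G)).subtype (Subgroup.centralizer (Q : Set G)).subtype_injective |>.trans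
        (MulEquiv.subgroupCongr (Subgroup.subgroupOf_map_subtype Q (Subgroup.centralizer (Q : Set G))))).symm
  have hcard : Nat.card (Q.subgroupOf (Subgroup.centralizer (Q : Set G))) = Nat.card ↥(Q ⊓ (Subgroup.centralizer (Q : Set G))) := by
    rw [← Subgroup.subgroupOf_map_subtype, Subgroup.card_map_of_injective (Subgroup.centralizer (Q : Set G)).subtype_injective]
  have hdef : IsDefIn p (Subgroup.centralizer (Q : Set G)) ((pairSys M G Q).idem f) (Q ⊓ (Subgroup.centralizer (Q : Set G))) ↔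
      ∃ θ ∈ f.1, (∀ z : (Subgroup.centralizer (Q : Set G)), (z : G) ∈ Q → (θ : (Subgroup.centralizer (Q : Set G)) → ℂ) z = (θ : (Subgroup.centralizer (Q : Set G)) → ℂ) 1) ∧
        (charDegree (θ : (Subgroup.centralizer (Q : Set G)) → ℂ)).factorization p + (Nat.card ↥(Q ⊓ (Subgroup.centralizer (Q : Set G)))).factorization p =
          (Nat.card (Subgroup.centralizer (Q : Set G))).factorization p := by
    rw [← hcard]
    exact (isDefectGroup_subgroupOf_iff f).symm.trans (isDefectGroup_iff_exists hM hZc hZp f.2)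
  have hstb : ∀ g, g ∈ stb (pairSys M G Q) f ↔ g ∈ Subgroup.normalizer (Q : Set G) ∧
      StabilizesBlock (Subgroup.centralizer (Q : Set G)) f.1 g := fun g => mem_stab_iff_stabilizesBlock f g
  have key := exists_maxPair_iff (blockSysTop M) (pairSys M G) f hQ
  constructor
  · rintro ⟨B, hB⟩
    have h0 := key.1 ⟨⟨B, hB.1.2.1⟩, (isMaximalBrauerPair_iff ⟨B, hB.1.2.1⟩ a).1 hB⟩
    have h : ∀ R : Subgroup G, IsPGroup p R → Q ≤ R → R ≤ stb (pairSys M G Q) f →
        trunc R ((pairSys M G Q).idem f) ≠ 0 → R = Q := fun R hR hQR hRs =>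
      h0 R hR hQR (fun r hr => (hRs hr).1) ((fixed_stb _ f).mono hRs)
    obtain ⟨θ, hθ, h1, h2⟩ := hdef.1 (isDefIn_inf (pairSys M G Q) f hQ h)
    exact ⟨θ, hθ, h1, h2, fun g hg hs ⟨n, hn⟩ => mem_sup_centralizer (pairSys M G Q) f hQ h
      ((hstb g).2 ⟨hg, hs⟩) hn⟩
  · rintro ⟨θ, hθ, h1, h2, h3⟩
    obtain ⟨B, hB⟩ := key.2 fun R hR hQR hRN hfix hne =>
      eq_of_trunc_ne_zero (pairSys M G Q) f (hdef.2 ⟨θ, hθ, h1, h2⟩) (fun x hx hk =>
        h3 x ((hstb x).1 hx).1 ((hstb x).1 hx).2 hk) hR hQR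
        (fun r hr => ⟨hRN hr, fixed_iff_cj.1 hfix r hr⟩) hne
    exact ⟨B.1, (isMaximalBrauerPair_iff B a).2 hB⟩

end Global

end Cfsg.Agent.MaxPair
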