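import Cfsg.Agent.BlkChar.CommutatorCount
import Mathlib.GroupTheory.Nilpotent
import Mathlib.GroupTheory.SpecificGroups.Cyclic
import Mathlib.GroupTheory.Sylow
import Mathlib.GroupTheory.IndexNormal

/-! Groups of prime power order: counting with centres and derived subgroups. -/

namespace Cfsg.Agent.BlkChar

open Subgroup
open scoped commutatorElement

variable {P : Type*} [Group P] [Finite P] {p : ℕ} [Fact p.Prime]

theorem index_center_ne_prime : (center P).index ≠ p := by
  intro h
  have hc : IsCyclic (P ⧸ center P) := isCyclic_of_prime_card (p := p) (by rw [← index_eq_card, h])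
  have : ∀ a b : P, a * b = b * a :=
    commutative_of_cyclic_center_quotient (QuotientGroup.mk' (center P)) (by simp)
  have htop : center P = ⊤ := top_le_iff.1 fun a _ => mem_center_iff.2 fun b => (this a b).symm
  rw [htop, index_top] at h
  exact (Fact.out : p.Prime).ne_one h.symm

theorem exists_not_mem_of_index {N : Subgroup P} [N.Normal] (hN : N.index = p) :
    ∃ x, x ∉ N ∧ N ⊔ zpowers x = ⊤ := by
  have hp : p.Prime := Fact.out
  have hne : N ≠ ⊤ := fun h => hp.ne_one (by rw [← hN, h, index_top])
  obtain ⟨x, -, hx⟩ := SetLike.exists_of_lt (lt_top_iff_ne_top.2 hne)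
  refine ⟨x, hx, ?_⟩
  by_contra hc
  have hlt : N < N ⊔ zpowers x := lt_of_le_of_ne le_sup_left fun h => hx (h.symm ▸
    (le_sup_right : zpowers x ≤ N ⊔ zpowers x) (mem_zpowers x))
  rcases (Nat.dvd_prime hp).1 (hN ▸ index_dvd_of_le hlt.le : (N ⊔ zpowers x).index ∣ p) with h | h
  · exact hc (index_eq_one.1 h)
  · have h1 := relIndex_mul_index hlt.le
    rw [h, hN] at h1
    have h2 : N.relIndex (N ⊔ zpowers x) = 1 :=
      Nat.eq_of_mul_eq_mul_right hp.pos (by rw [h1, one_mul])
    exact hlt.ne (le_antisymm hlt.le (relIndex_eq_one.1 h2))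

theorem sup_zpowers_eq_top_of_index {N : Subgroup P} (hN : N.index = p) {x : P} (hx : x ∉ N) :
    N ⊔ zpowers x = ⊤ := by
  have hp : p.Prime := Fact.out
  have hlt : N < N ⊔ zpowers x := lt_of_le_of_ne le_sup_left fun h => hx (h.symm ▸
    (le_sup_right : zpowers x ≤ N ⊔ zpowers x) (mem_zpowers x))
  rcases (Nat.dvd_prime hp).1 (hN ▸ index_dvd_of_le hlt.le : (N ⊔ zpowers x).index ∣ p) with h | h
  · exact index_eq_one.1 h
  · have h1 := relIndex_mul_index hlt.le
    rw [h, hN] at h1
    exact absurd (le_antisymm hlt.le (relIndex_eq_one.1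
      (Nat.eq_of_mul_eq_mul_right hp.pos (by rw [h1, one_mul])))) hlt.ne

/-- For an abelian subgroup `A` of index `p` in a nonabelian group: `|A| = |P'| |Z(P)|`. -/
theorem card_eq_of_abelian_index (hnab : center P ≠ ⊤) (A : Subgroup P) [A.Normal]
    (hA : A.index = p) (hab : ∀ a ∈ A, ∀ b ∈ A, a * b = b * a) :
    center P ≤ A → Nat.card A = Nat.card (commutator P) * Nat.card (center P) := by
  intro hZA
  obtain ⟨x, hx, hgen⟩ := exists_not_mem_of_index hA
  have h := card_fixMod_mul_card_commutator A x hgen
  have hcA : commutator A = ⊥ := by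
    rw [_root_.commutator_def, eq_bot_iff, commutator_le]
    intro a _ b _
    rw [mem_bot, commutatorElement_eq_one_iff_mul_comm]
    exact Subtype.ext (hab a a.2 b b.2)
  have hcard : Nat.card {n : A // x * n * x⁻¹ * (n : P)⁻¹ ∈ (commutator A).map A.subtype} =
      Nat.card (center P) := by
    refine Nat.card_congr ⟨fun n => ⟨(n.1 : P), ?_⟩, fun z => ⟨⟨z, hZA z.2⟩, ?_⟩,
      fun n => rfl, fun z => rfl⟩
    · have hn := n.2
      simp only [hcA, Subgroup.map_bot, mem_bot] at hn
      rw [← commutatorElement_def,
        commutatorElement_eq_one_iff_mul_comm] at hn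
      rw [mem_center_iff]
      intro g
      have hle : (⊤ : Subgroup P) ≤ centralizer {(n.1 : P)} := by
        rw [← hgen, sup_le_iff, zpowers_le]
        exact ⟨fun a ha => mem_centralizer_singleton_iff.2 (hab a ha _ n.1.2),
          mem_centralizer_singleton_iff.2 hn⟩
      exact mem_centralizer_singleton_iff.1 (hle (mem_top g))
    · rw [hcA, Subgroup.map_bot, mem_bot, ← commutatorElement_def,
        commutatorElement_eq_one_iff_mul_comm]
      exact mem_center_iff.1 z.2 x
  rw [hcard, hcA, Subgroup.card_bot, mul_one] at h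
  rw [← h, mul_comm]

/-- A proper overgroup of the centre of index `p` in `zpowers x ⊔ Z` is abelian. -/
theorem abelian_sup_center (x : P) :
    ∀ a ∈ zpowers x ⊔ center P, ∀ b ∈ zpowers x ⊔ center P, a * b = b * a := by
  have h1 : zpowers x ⊔ center P ≤ centralizer {x} := by
    rw [sup_le_iff, zpowers_le]
    exact ⟨mem_centralizer_singleton_iff.2 rfl, center_le_centralizer _⟩
  intro a ha b hb
  have h2 : zpowers x ⊔ center P ≤ centralizer {b} := by
    rw [sup_le_iff, zpowers_le]
    exact ⟨mem_centralizer_singleton_iff.2 (mem_centralizer_singleton_iff.1 (h1 hb)).symm,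
      center_le_centralizer _⟩
  exact mem_centralizer_singleton_iff.1 (h2 ha)

theorem center_ne_top_of_card_commutator {n : ℕ} (hn : 1 < n)
    (h : Nat.card (commutator P) = n) : center P ≠ ⊤ := by
  intro htop
  have : commutator P = ⊥ := by
    rw [_root_.commutator_def, eq_bot_iff, commutator_le]
    intro a _ b _
    rw [mem_bot, commutatorElement_eq_one_iff_mul_comm]
    exact mem_center_iff.1 (htop.ge (mem_top b)) a
  rw [this, Subgroup.card_bot] at h
  omega

theorem index_center_eq_of_card_commutator (hP : Nat.card P = p ^ 4)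
    (h : Nat.card (commutator P) = p) : (center P).index = p ^ 2 := by
  have hp : p.Prime := Fact.out
  have hnab := center_ne_top_of_card_commutator hp.one_lt h
  have hPG : IsPGroup p P := IsPGroup.of_card hP
  haveI : Nontrivial P := Finite.one_lt_card_iff_nontrivial.1
    (hP ▸ Nat.one_lt_pow (by norm_num) hp.one_lt)
  have hcz := Subgroup.card_mul_index (center P)
  rw [hP] at hcz
  obtain ⟨k, hk4, hk⟩ := (Nat.dvd_prime_pow hp).1 (hP ▸ index_dvd_card (center P) :
    (center P).index ∣ p ^ 4)
  have hk0 : k ≠ 0 := fun h0 => hnab (index_eq_one.1 (by rw [hk, h0, pow_zero]))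
  have hk1 : k ≠ 1 := fun h1 => index_center_ne_prime (p := p) (by rw [hk, h1, pow_one])
  have hk4' : k ≠ 4 := fun h4 => by
    rw [hk, h4] at hcz
    have : Nat.card (center P) = 1 := Nat.eq_of_mul_eq_mul_right (pow_pos hp.pos 4)
      (by rw [hcz, one_mul])
    have hz : Nontrivial (center P) := hPG.center_nontrivial
    exact absurd this (Finite.one_lt_card_iff_nontrivial.2 hz).ne'
  have hk3 : k ≠ 3 := fun h3 => by
    rw [hk, h3, show p ^ 4 = p * p ^ 3 by ring] at hcz
    have hZ : Nat.card (center P) = p := Nat.eq_of_mul_eq_mul_right (pow_pos hp.pos 3) hcz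
    obtain ⟨x, -, hx⟩ := SetLike.exists_of_lt (lt_top_iff_ne_top.2 hnab)
    have hcls : (centralizer {x}).index ≤ p := by
      rw [← h, index_eq_card]
      refine Nat.card_le_card_of_injective
        (Quotient.lift (fun g : P => (⟨⁅g, x⁆,
          commutator_mem_commutator (mem_top g) (mem_top x)⟩ : commutator P)) ?_) ?_
      · intro a b hab
        apply Subtype.ext
        have hc : a⁻¹ * b ∈ centralizer {x} := QuotientGroup.leftRel_apply.1 hab
        have hc' := mem_centralizer_singleton_iff.1 hc
        show ⁅a, x⁆ = ⁅b, x⁆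
        rw [show b = a * (a⁻¹ * b) by group, commutatorElement_def, commutatorElement_def]
        calc a * x * a⁻¹ * x⁻¹ = a * (x * (a⁻¹ * b)) * (a⁻¹ * b)⁻¹ * a⁻¹ * x⁻¹ := by group
          _ = _ := by rw [← hc']; group
      · rintro ⟨a⟩ ⟨b⟩ hab
        have hab' : ⁅a, x⁆ = ⁅b, x⁆ := congrArg Subtype.val hab
        apply QuotientGroup.eq.2
        rw [mem_centralizer_singleton_iff]
        rw [commutatorElement_def, commutatorElement_def, mul_left_inj] at hab'
        calc a⁻¹ * b * x = a⁻¹ * (b * x * b⁻¹) * b := by group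
          _ = _ := by rw [← hab']; group
    set C := centralizer {x}
    have hC1 : C.index ≠ 1 := fun h1 => hx (mem_center_iff.2 fun g =>
      mem_centralizer_singleton_iff.1 ((index_eq_one.1 h1).ge (mem_top g)))
    obtain ⟨j, -, hj⟩ := (Nat.dvd_prime_pow hp).1 (hP ▸ index_dvd_card C : C.index ∣ p ^ 4)
    have hj1 : j = 1 := by
      rcases j with _ | _ | j
      · simp [hj] at hC1
      · rfl
      · exfalso
        rw [hj] at hcls
        have h2 : p ^ 2 ≤ p ^ (j + 2) := Nat.pow_le_pow_right hp.pos (by omega)
        nlinarith [hp.two_le]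
    rw [hj1, pow_one] at hj
    haveI : C.Normal := by
      refine normal_of_index_eq_minFac_card ?_
      rw [hj, hP, Nat.pow_minFac (by norm_num), hp.minFac_eq]
    have hZC : center P ≤ C := center_le_centralizer _
    have hCcard : Nat.card C = p ^ 3 := by
      have := Subgroup.card_mul_index C
      rw [hj, hP] at this
      exact Nat.eq_of_mul_eq_mul_right hp.pos (by rw [this]; ring)
    have habC : ∀ a ∈ C, ∀ b ∈ C, a * b = b * a := by
      have hzC : (zpowers x ⊔ center P).subgroupOf C ≤ center C := by
        intro c hc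
        rw [mem_center_iff]
        intro d
        have hle : zpowers x ⊔ center P ≤ centralizer {(d : P)} := by
          rw [sup_le_iff, zpowers_le]
          exact ⟨mem_centralizer_singleton_iff.2 (mem_centralizer_singleton_iff.1 d.2).symm,
            center_le_centralizer _⟩
        exact Subtype.ext (mem_centralizer_singleton_iff.1 (hle hc)).symm
      have hlt : center P < zpowers x ⊔ center P := lt_of_le_of_ne le_sup_right fun he =>
        hx (he.symm ▸ (le_sup_left : zpowers x ≤ zpowers x ⊔ center P) (mem_zpowers x))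
      have hS : zpowers x ⊔ center P ≤ C := sup_le (zpowers_le.2
        (mem_centralizer_singleton_iff.2 rfl)) hZC
      have hcC : p ^ 2 ≤ Nat.card (center C) := by
        have h1 : p ^ 2 ≤ Nat.card (zpowers x ⊔ center P : Subgroup P) := by
          obtain ⟨i, -, hi⟩ := (Nat.dvd_prime_pow hp).1
            (hP ▸ card_subgroup_dvd_card (zpowers x ⊔ center P) :
              Nat.card (zpowers x ⊔ center P : Subgroup P) ∣ p ^ 4)
          have hgt : Nat.card (center P) < Nat.card (zpowers x ⊔ center P : Subgroup P) := by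
            refine lt_of_le_of_ne (card_le_of_le hlt.le) fun he => hlt.ne ?_
            exact eq_of_le_of_card_ge hlt.le he.ge
          rw [hZ, hi] at hgt
          rw [hi]
          refine Nat.pow_le_pow_right hp.pos ?_
          by_contra hlt2
          have : p ^ i ≤ p ^ 1 := Nat.pow_le_pow_right hp.pos (by omega)
          rw [pow_one] at this
          omega
        refine h1.trans ?_
        rw [← Nat.card_congr (Subgroup.subgroupOfEquivOfLe hS).toEquiv]
        exact card_le_of_le hzC
      have hci : (center C).index ∣ p := by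
        have h2 := Subgroup.card_mul_index (center C)
        rw [hCcard] at h2
        obtain ⟨i, -, hi⟩ := (Nat.dvd_prime_pow hp).1
          (hCcard ▸ index_dvd_card (center C) : (center C).index ∣ p ^ 3)
        rcases i with _ | _ | i
        · simp [hi]
        · simp [hi]
        · exfalso
          rw [hi] at h2
          have h3 : p ^ 2 * p ^ (i + 2) ≤ p ^ 3 := h2 ▸ Nat.mul_le_mul_right _ hcC
          rw [← pow_add] at h3
          have := (Nat.pow_le_pow_iff_right hp.one_lt).1 h3
          omega
      intro a ha b hb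
      rcases (Nat.dvd_prime hp).1 hci with h1 | h1
      · exact (congrArg Subtype.val
          (mem_center_iff.1 ((index_eq_one.1 h1).ge (mem_top (⟨a, ha⟩ : C))) ⟨b, hb⟩)).symm
      · exact absurd h1 index_center_ne_prime
    have h3' := card_eq_of_abelian_index hnab C hj habC hZC
    rw [hCcard, h, hZ] at h3'
    nlinarith [hp.two_le, mul_pos hp.pos hp.pos]
  rw [hk]
  congr 1
  omega

theorem card_commutator_eq_of_index_center (hP : Nat.card P = p ^ 4)
    (h : (center P).index = p ^ 2) : Nat.card (commutator P) = p := by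
  have hp : p.Prime := Fact.out
  have hnab : center P ≠ ⊤ := fun htop => by
    rw [htop, index_top] at h
    exact absurd h.symm (Nat.one_lt_pow (by norm_num) hp.one_lt).ne'
  have hZ : Nat.card (center P) = p ^ 2 := by
    have hcz := Subgroup.card_mul_index (center P)
    rw [hP, h] at hcz
    exact Nat.eq_of_mul_eq_mul_right (pow_pos hp.pos 2) (by rw [hcz]; ring)
  obtain ⟨x, -, hx⟩ := SetLike.exists_of_lt (lt_top_iff_ne_top.2 hnab)
  set A := zpowers x ⊔ center P with hA
  have hlt : center P < A := lt_of_le_of_ne le_sup_right fun he =>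
    hx (he.symm ▸ (le_sup_left : zpowers x ≤ zpowers x ⊔ center P) (mem_zpowers x))
  have hAne : A ≠ ⊤ := fun htop => hx (mem_center_iff.2 fun g =>
    abelian_sup_center x g (htop.ge (mem_top g)) x (htop.ge (mem_top x)))
  have hAi : A.index = p := by
    obtain ⟨i, hi2, hi⟩ := (Nat.dvd_prime_pow hp).1 (h ▸ index_dvd_of_le hlt.le : A.index ∣ p ^ 2)
    have h1 : i ≠ 0 := fun h0 => hAne (index_eq_one.1 (by rw [hi, h0, pow_zero]))
    have h2 : i ≠ 2 := fun h0 => by
      have h3 := relIndex_mul_index hlt.le
      rw [hi, h0, h] at h3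
      exact hlt.ne (le_antisymm hlt.le (relIndex_eq_one.1
        (Nat.eq_of_mul_eq_mul_right (pow_pos hp.pos 2) (by rw [h3, one_mul]))))
    rw [hi, show i = 1 by omega, pow_one]
  haveI : A.Normal := normal_of_index_eq_minFac_card
    (by rw [hAi, hP, Nat.pow_minFac (by norm_num), hp.minFac_eq])
  have hAc : Nat.card A = p ^ 3 := by
    have := Subgroup.card_mul_index A
    rw [hAi, hP] at this
    exact Nat.eq_of_mul_eq_mul_right hp.pos (by rw [this]; ring)
  have h3 := card_eq_of_abelian_index hnab A hAi (abelian_sup_center x) le_sup_right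
  rw [hAc, hZ] at h3
  exact (Nat.eq_of_mul_eq_mul_right (pow_pos hp.pos 2) (by rw [← h3]; ring)).symm

end Cfsg.Agent.BlkChar
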