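import Cfsg.Agent.SmallGroups.OrderPBlock
import Cfsg.Agent.BlkChar.Contribution

/-!
# The form of the regular parts in a principal block with Sylow subgroup of prime order
-/

set_option autoImplicit false
set_option linter.style.haveILetI false
set_option linter.unusedSectionVars false

namespace Cfsg.Agent.BlkChar.OrderPForm

open Cfsg
open Cfsg.Agent.Brauer (regSum)
open Cfsg.Agent.BlkChar.Contrib
open scoped ComplexConjugate Classical

universe u

/-- The form `p ∑ a² - m (∑ s a)²`. -/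
def bil {ι : Type*} (X : Finset ι) (p m : ℤ) (s a b : ι → ℤ) : ℤ :=
  p * ∑ χ ∈ X, a χ * b χ - m * ((∑ χ ∈ X, s χ * a χ) * ∑ χ ∈ X, s χ * b χ)

/-- A nonzero integral vector has value at least the rank. -/
theorem le_bil_self {ι : Type*} (X : Finset ι) {p m : ℤ} {s a : ι → ℤ} (hm : 1 ≤ m)
    (hs : ∀ χ ∈ X, s χ = 1 ∨ s χ = -1) (hp : (X.card : ℤ) * m + 1 = p)
    (ha : ∃ χ ∈ X, a χ ≠ 0) : (X.card : ℤ) ≤ bil X p m s a a := by
  set e : ℤ := (X.card : ℤ) with he
  obtain ⟨χ0, hχ0, h0⟩ := ha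
  have he1 : 1 ≤ e := by
    rw [he]; exact_mod_cast Finset.card_pos.2 ⟨χ0, hχ0⟩
  set S := ∑ χ ∈ X, s χ * a χ with hS
  set Q := ∑ χ ∈ X, a χ * a χ with hQ
  have hsq : ∀ χ ∈ X, a χ * a χ = (s χ * a χ) ^ 2 := fun χ hχ => by
    rcases hs χ hχ with h | h <;> rw [h] <;> ring
  have hQ1 : 1 ≤ Q := by
    have h1 : a χ0 * a χ0 ≤ Q :=
      Finset.single_le_sum (f := fun χ => a χ * a χ) (fun χ _ => mul_self_nonneg _) hχ0
    have h2 : 0 < a χ0 * a χ0 := mul_self_pos.2 h0
    linarith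
  have hQS : |S| ≤ Q := by
    refine (Finset.abs_sum_le_sum_abs _ _).trans (Finset.sum_le_sum fun χ hχ => ?_)
    rw [hsq χ hχ]
    exact Int.le_self_sq (|s χ * a χ|) |>.trans (le_of_eq (sq_abs _))
  have hQC : S ^ 2 ≤ e * Q := by
    have := sq_sum_le_card_mul_sum_sq (s := X) (f := fun χ => s χ * a χ)
    rw [← Finset.sum_congr rfl hsq] at this
    simpa [hS, hQ, he] using this
  show e ≤ p * Q - m * (S * S)
  have hp1 : 0 ≤ p := by nlinarith
  rcases le_or_gt |S| e with hle | hgt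
  · rcases eq_or_ne S 0 with hS0 | hS0
    · rw [hS0]
      nlinarith
    · have hS1 : 1 ≤ |S| := Int.one_le_abs hS0
      have h1 : p * |S| ≤ p * Q := mul_le_mul_of_nonneg_left hQS hp1
      have h2 : 0 ≤ (|S| - 1) * (e - |S|) * m := by
        refine mul_nonneg (mul_nonneg ?_ ?_) ?_ <;> linarith
      have h3 : 0 ≤ (m - 1) * (e - |S|) := mul_nonneg (by linarith) (by linarith)
      have h4 : S * S = |S| * |S| := (abs_mul_abs_self S).symm
      rw [h4]
      subst hp
      nlinarith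
  · have h4 : e * (p * Q - m * (S * S)) ≥ e * e := by
      have h1 : p * S ^ 2 ≤ p * (e * Q) := mul_le_mul_of_nonneg_left hQC hp1
      have h2 : e * e ≤ S ^ 2 := by
        rw [← sq_abs S, pow_two]; exact mul_le_mul hgt.le hgt.le (by linarith) (abs_nonneg S)
      subst hp
      nlinarith
    exact le_of_mul_le_mul_left h4 (by linarith)

theorem bil_self_eq_zero {ι : Type*} (X : Finset ι) {p m : ℤ} {s a : ι → ℤ} (hm : 1 ≤ m)
    (hs : ∀ χ ∈ X, s χ = 1 ∨ s χ = -1) (hp : (X.card : ℤ) * m + 1 = p)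
    (h : bil X p m s a a = 0) : ∀ χ ∈ X, a χ = 0 := by
  by_contra hc
  push Not at hc
  obtain ⟨χ, hχ, h1⟩ := hc
  have := le_bil_self X hm hs hp ⟨χ, hχ, h1⟩
  have : 0 < X.card := Finset.card_pos.2 ⟨χ, hχ⟩
  omega

variable {H : Type u} [Group H] [Fintype H] {p : ℕ} [hp : Fact p.Prime] {M : Ideal AlgInt}

/-- The principal block of a group with Sylow subgroup of prime order in a form ready for use. -/
theorem exists_form (hM : IsPModular p M) (P : Sylow p H) (hP : Nat.card P = p) :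
    ∃ (X : Finset (IrrCharacter H)) (s : IrrCharacter H → ℤ) (m : ℤ)
      (v : IrrCharacter H → IrrCharacter H → ℤ), 1 ≤ m ∧ (∀ χ ∈ X, s χ = 1 ∨ s χ = -1) ∧
      (X.card : ℤ) * m + 1 = (p : ℤ) ∧
      (∀ η ∈ principalBlock M H, ∀ g : H, ¬ p ∣ orderOf g →
        (η : H → ℂ) g = ∑ χ ∈ X, (v η χ : ℂ) * (χ : H → ℂ) g) ∧
      ∀ η ∈ principalBlock M H, ∀ η' ∈ principalBlock M H,
        (p : ℂ) / (Nat.card H : ℂ) * regSum p (η : H → ℂ) (η' : H → ℂ) =
          (bil X p m s (v η) (v η') : ℂ) := by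
  haveI : M.IsPrime := hM.2.1.isPrime
  obtain ⟨u, ho, hu⟩ := Brauer.OrderP.exists_gen P hP
  obtain ⟨act, -, hker⟩ := Brauer.OrderP.exists_action P ho hu
  set e := (Subgroup.centralizer ((P : Subgroup H) : Set H)).relIndex
    (Subgroup.normalizer ((P : Subgroup H) : Set H)) with he
  have hed : e ∣ p - 1 := by
    have : e = Nat.card act.range := by rw [← Subgroup.index_ker, hker]; rfl
    rw [this, ← ZMod.card_units p, ← Nat.card_eq_fintype_card]
    exact Subgroup.card_subgroup_dvd_card _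
  obtain ⟨X, Y, s, ε, hdisj, hB, hX, hY, -, -, hε, hXd, -, hYsum, hrel⟩ :=
    SmallGroups.OrderP.exists_block_data hM P hP e rfl
  have hem : e * ((p - 1) / e) = p - 1 := Nat.mul_div_cancel' hed
  have hpz : (p : ℂ) ≠ 0 := Nat.cast_ne_zero.2 hp.out.ne_zero
  have hεc : (ε : ℂ) * ε = 1 := by rcases hε with h | h <;> simp [h]
  set m : ℕ := (p - 1) / e with hm
  have hm0 : m ≠ 0 := by
    intro h0; rw [h0, mul_zero] at hem; have := hp.out.two_le; omega
  have hpe : (X.card : ℤ) * (m : ℤ) + 1 = (p : ℤ) := by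
    rw [hX]
    have h1 : ((e * m : ℕ) : ℤ) = ((p - 1 : ℕ) : ℤ) := by rw [hem]
    push_cast [hp.out.one_le] at h1
    linarith
  let v : IrrCharacter H → IrrCharacter H → ℤ := fun η χ =>
    if η ∈ X then (if η = χ then 1 else 0) else ε * s χ
  have hv : ∀ η ∈ principalBlock M H, ∀ g : H, ¬ p ∣ orderOf g →
      (η : H → ℂ) g = ∑ χ ∈ X, (v η χ : ℂ) * (χ : H → ℂ) g := by
    intro η hη g hg
    by_cases hηX : η ∈ X
    · simp only [v, if_pos hηX]
      rw [Finset.sum_eq_single η (fun χ _ h => by simp [Ne.symm h]) (fun h => absurd hηX h)]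
      simp
    · have hηY := ((hB η).1 hη).resolve_left hηX
      simp only [v, if_neg hηX, Int.cast_mul, mul_assoc]
      rw [← Finset.mul_sum, ← hrel η hηY g hg, ← mul_assoc, hεc, one_mul]
  -- the values on the singular elements
  have hval : ∀ η ∈ principalBlock M H, ∀ z : H, p ∣ orderOf z → ∃ x ∈ (P : Subgroup H), x ≠ 1 ∧
      ∀ θ ∈ principalBlock M H, (θ : IrrCharacter H).1 z = (θ : H → ℂ) x := by
    intro η hη z hz
    obtain ⟨r, hr⟩ := hz
    have hp2 : ¬ p ^ 2 ∣ Nat.card H := by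
      intro h
      have := P.pow_dvd_card_of_pow_dvd_card h
      rw [hP] at this
      have := Nat.le_of_dvd hp.out.pos this
      nlinarith [hp.out.two_le]
    have hrp : ¬ p ∣ r := fun ⟨c, hc⟩ => hp2 ((Dvd.intro c (by rw [hr, hc]; ring) :
      p ^ 2 ∣ orderOf z).trans (orderOf_dvd_natCard z))
    obtain ⟨a, b, hab⟩ := Nat.isCoprime_iff_coprime.2
      (hp.out.coprime_iff_not_dvd.2 hrp)
    set x0 := z ^ ((r : ℤ) * b) with hx0
    set y0 := z ^ ((p : ℤ) * a) with hy0
    have hxy : x0 * y0 = z := by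
      rw [hx0, hy0, ← zpow_add, show (r : ℤ) * b + p * a = 1 by linarith, zpow_one]
    have hz1 : z ^ ((p : ℤ) * r) = 1 := by
      rw [← Int.natCast_mul, zpow_natCast, ← hr, pow_orderOf_eq_one]
    have hxp : x0 ^ p = 1 := by
      rw [hx0, ← zpow_natCast, ← zpow_mul,
        show (r : ℤ) * b * (p : ℤ) = (p : ℤ) * r * b by ring, zpow_mul, hz1, one_zpow]
    have hyp : ¬ p ∣ orderOf y0 := by
      intro hd
      have : y0 ^ r = 1 := by
        rw [hy0, ← zpow_natCast, ← zpow_mul,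
          show (p : ℤ) * a * (r : ℤ) = (p : ℤ) * r * a by ring, zpow_mul, hz1, one_zpow]
      exact hrp (hd.trans (orderOf_dvd_of_pow_eq_one this))
    have hx1 : x0 ≠ 1 := by
      intro h1
      rw [h1, one_mul] at hxy
      exact hyp (hxy ▸ ⟨r, hr⟩)
    have hxP : IsPGroup p (Subgroup.zpowers x0) := IsPGroup.of_card (n := 1) (by
      rw [Nat.card_zpowers, pow_one, orderOf_eq_prime hxp hx1])
    obtain ⟨Q, hQ⟩ := hxP.exists_le_sylow
    obtain ⟨g, hg⟩ := MulAction.exists_smul_eq H Q P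
    have hmem : g * x0 * g⁻¹ ∈ (P : Subgroup H) := by
      rw [← hg, Sylow.coe_subgroup_smul]
      exact Subgroup.smul_mem_pointwise_smul _ (MulAut.conj g) _ (hQ (Subgroup.mem_zpowers x0))
    refine ⟨g * x0 * g⁻¹, hmem, by simpa using hx1, fun θ hθ => ?_⟩
    have hc : g * y0 * g⁻¹ ∈ Subgroup.centralizer ((P : Subgroup H) : Set H) := by
      rw [← Brauer.OrderP.centralizer_eq P hP hmem (by simpa using hx1),
        Subgroup.mem_centralizer_singleton_iff]
      have : Commute x0 y0 := (Commute.refl z).zpow_zpow _ _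
      calc g * y0 * g⁻¹ * (g * x0 * g⁻¹) = g * (y0 * x0) * g⁻¹ := by group
        _ = g * (x0 * y0) * g⁻¹ := by rw [this.eq]
        _ = _ := by group
    have h := SmallGroups.OrderP.apply_mul_regular hM P hP hθ hmem (by simpa using hx1) hc
      (by rwa [← MulAut.conj_apply, MulEquiv.orderOf_eq])
    rw [← h, ← Char.irr_isClassFunction θ.2 z g, ← hxy]
    congr 1
    group
  refine ⟨X, s, m, v, by exact_mod_cast Nat.pos_of_ne_zero hm0, fun χ hχ => (hXd χ hχ).1, hpe, hv, ?_⟩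
  -- the Gram matrix on `X`
  have hG : ∀ χ ∈ X, ∀ χ' ∈ X, (p : ℂ) / (Nat.card H : ℂ) * regSum p (χ : H → ℂ) (χ' : H → ℂ) =
      (if χ = χ' then (p : ℂ) else 0) - (m : ℂ) * ((s χ : ℂ) * (s χ' : ℂ)) := by
    intro χ hχ χ' hχ'
    have hχB : χ ∈ principalBlock M H := (hB χ).2 (Or.inl hχ)
    have hχ'B : χ' ∈ principalBlock M H := (hB χ').2 (Or.inl hχ')
    have hs2 : (s χ' : ℂ) * s χ' = 1 := by rcases (hXd χ' hχ').1 with h | h <;> simp [h]
    let f : H → ℂ := fun z => (χ' : H → ℂ) z -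
      (m : ℂ) * (s χ' : ℂ) / p * ∑ η ∈ X, (s η : ℂ) * (η : H → ℂ) z +
      (ε : ℂ) * (s χ' : ℂ) / p * ∑ θ ∈ Y, (θ : H → ℂ) z
    have hsing : ∀ z : H, p ∣ orderOf z → f z = 0 := by
      intro z hz
      obtain ⟨x, hx, hx1, hθ⟩ := hval χ' hχ'B z hz
      simp only [f]
      rw [hθ χ' hχ'B, (hXd χ' hχ').2.2 x hx hx1,
        Finset.sum_congr rfl (g := fun _ => (1 : ℂ)) (fun η hη => by
          rw [hθ η ((hB η).2 (Or.inl hη)), (hXd η hη).2.2 x hx hx1]
          rcases (hXd η hη).1 with h | h <;> simp [h]),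
        Finset.sum_congr rfl (fun θ hθ' => hθ θ ((hB θ).2 (Or.inr hθ'))), hYsum x hx hx1,
        Finset.sum_const, nsmul_eq_mul, mul_one]
      have h1 : ((X.card : ℂ)) * (m : ℂ) + 1 = (p : ℂ) := by exact_mod_cast hpe
      field_simp
      rw [← h1]
      linear_combination (-(s χ' : ℂ)) * hεc
    have hregf : ∀ z : H, ¬ p ∣ orderOf z → f z = (χ' : H → ℂ) z := by
      intro z hz
      simp only [f]
      rw [Finset.sum_congr (s₁ := Y) rfl (g := fun _ => (ε : ℂ) * ∑ η ∈ X, (s η : ℂ) * (η : H → ℂ) z)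
          (fun θ hθ => by rw [← hrel θ hθ z hz, ← mul_assoc, hεc, one_mul]),
        Finset.sum_const, nsmul_eq_mul, hY]
      linear_combination ((m : ℂ) * (s χ' : ℂ) / (p : ℂ) *
        ∑ η ∈ X, (s η : ℂ) * (η : H → ℂ) z) * hεc
    have e1 : regSum p (χ : H → ℂ) (χ' : H → ℂ) = ∑ z : H, (χ : H → ℂ) z * conj (f z) := by
      rw [regSum, Finset.sum_filter]
      refine Finset.sum_congr rfl fun z _ => ?_
      by_cases hz : p ∣ orderOf z
      · rw [if_neg (not_not.2 hz), hsing z hz, map_zero, mul_zero]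
      · rw [if_pos hz, hregf z hz]
    have horth : ∀ η : IrrCharacter H, ∑ z : H, (χ : H → ℂ) z * conj ((η : H → ℂ) z) =
        if χ = η then (Nat.card H : ℂ) else 0 := by
      intro η
      have h := Char.sum_mul_conj_eq_card_mul_classInner (χ : H → ℂ) (η : H → ℂ)
      rw [Char.classInner_irrCharacter] at h
      split_ifs with hq
      · subst hq
        simpa [mul_comm] using h
      · rw [if_neg hq] at h
        simpa [mul_comm] using h
    rw [e1]
    simp only [f, map_add, map_sub, map_mul, map_div₀, map_sum, map_natCast, map_intCast, mul_add,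
      mul_sub, Finset.mul_sum, Finset.sum_add_distrib, Finset.sum_sub_distrib]
    rw [Finset.sum_comm (t := X), Finset.sum_comm (t := Y)]
    simp only [mul_left_comm (((χ : IrrCharacter H) : H → ℂ) _), ← Finset.mul_sum, horth]
    rw [Finset.sum_eq_zero (s := Y) (fun θ hθ => if_neg fun h : χ = θ => Finset.disjoint_left.1 hdisj hχ (by rw [h]; exact hθ))]
    simp only [mul_ite, mul_zero, Finset.sum_ite_eq, hχ, if_true, add_zero]
    have hH : (Nat.card H : ℂ) ≠ 0 := Nat.cast_ne_zero.2 Nat.card_pos.ne'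
    split_ifs <;> field_simp <;> ring
  intro η hη η' hη'
  have hrw : regSum p (η : H → ℂ) (η' : H → ℂ) =
      ∑ χ ∈ X, ∑ χ' ∈ X, ((v η χ : ℂ) * (v η' χ' : ℂ)) * regSum p (χ : H → ℂ) (χ' : H → ℂ) := by
    simp only [regSum, Finset.mul_sum]
    rw [Finset.sum_congr rfl (fun χ _ => Finset.sum_comm), Finset.sum_comm]
    refine Finset.sum_congr rfl fun z hz => ?_
    have hz' := (Finset.mem_filter.1 hz).2
    rw [hv η hη z hz', hv η' hη' z hz', map_sum, Finset.sum_mul_sum]
    refine Finset.sum_congr rfl fun χ _ => Finset.sum_congr rfl fun χ' _ => ?_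
    rw [map_mul, map_intCast]
    ring
  rw [hrw, Finset.mul_sum, Finset.sum_congr rfl (fun χ hχ => by
    rw [Finset.mul_sum, Finset.sum_congr rfl (fun χ' hχ' => by
      rw [mul_left_comm, hG χ hχ χ' hχ'])])]
  simp only [bil, Int.cast_sub, Int.cast_mul, Int.cast_sum, Int.cast_natCast]
  rw [Finset.sum_mul_sum]
  simp only [mul_sub, mul_ite, mul_zero, Finset.sum_sub_distrib, Finset.mul_sum]
  congr 1
  · refine Finset.sum_congr rfl fun χ hχ => ?_
    rw [Finset.sum_ite_eq, if_pos hχ]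
    ring
  · exact Finset.sum_congr rfl fun χ _ => Finset.sum_congr rfl fun χ' _ => by ring

end Cfsg.Agent.BlkChar.OrderPForm
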