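import Cfsg.Agent.BlkChar.RegCriterion
import Cfsg.Agent.Brauer.Kernel
import Cfsg.Agent.PSolv.HallHigman
import Cfsg.Agent.PSolv.Cores
import Cfsg.Agent.Cores.Basic
import Cfsg.Agent.S4487

/-!
# The principal block of a `p`-soluble group

It consists of the irreducible characters trivial on `O_{p'}`.
-/

set_option autoImplicit false

namespace Cfsg.Agent.BlkChar

open Cfsg Cfsg.Agent.Block

variable {G : Type*} [Group G] [Finite G] {p : ℕ} [hp : Fact p.Prime]

/-- The total of an inflated function over the regular elements, kernel a `p'`-group. -/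
theorem regTotal_inflate (N : Subgroup G) [N.Normal] (hN : ¬ p ∣ Nat.card N) (f : G ⧸ N → ℂ) :
    regTotal p (fun g : G => f g) = (Nat.card N : ℂ) * regTotal p f := by
  classical
  letI := Fintype.ofFinite G
  letI := Fintype.ofFinite (G ⧸ N)
  have hreg : ∀ g : G, p ∣ orderOf g ↔ p ∣ orderOf (g : G ⧸ N) := by
    intro g
    refine ⟨fun h => ?_, fun h => h.trans (orderOf_map_dvd (QuotientGroup.mk' N) g)⟩
    have h1 : g ^ orderOf (g : G ⧸ N) ∈ N := by
      rw [← QuotientGroup.eq_one_iff, QuotientGroup.mk_pow, pow_orderOf_eq_one]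
    have h2 : orderOf g ∣ orderOf (g : G ⧸ N) * Nat.card N := by
      refine orderOf_dvd_of_pow_eq_one ?_
      rw [pow_mul]
      exact orderOf_dvd_iff_pow_eq_one.1 (Subgroup.orderOf_dvd_natCard N h1)
    exact (hp.out.dvd_mul.1 (h.trans h2)).resolve_right hN
  rw [regTotal_eq, regTotal_eq, Finset.mul_sum,
    ← Finset.sum_fiberwise_of_maps_to (g := fun g : G => (g : G ⧸ N))
      (t := Finset.univ.filter (fun x : G ⧸ N => ¬ p ∣ orderOf x))
      (fun g hg => by simpa [← hreg] using hg)]
  refine Finset.sum_congr rfl fun x hx => ?_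
  simp only [Finset.mem_filter, Finset.mem_univ, true_and] at hx
  obtain ⟨g, rfl⟩ := QuotientGroup.mk_surjective x
  rw [Finset.sum_congr rfl (g := fun _ => f g) (fun y hy => by
    rw [(Finset.mem_filter.1 hy).2]), Finset.sum_const, nsmul_eq_mul]
  congr 2
  rw [Nat.card_eq_fintype_card, ← Finset.card_univ]
  refine (Finset.card_bij' (fun (n : N) _ => g * (n : G))
    (fun y hy => (⟨g⁻¹ * y, QuotientGroup.eq.1 (Finset.mem_filter.1 hy).2.symm⟩ : N))
    ?_ ?_ ?_ ?_).symm
  · intro n _
    have h1 : ((g * (n : G) : G) : G ⧸ N) = (g : G ⧸ N) := by simp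
    simp only [Finset.mem_filter, Finset.mem_univ, true_and]
    exact ⟨fun h => hx (by rw [← h1]; exact (hreg _).1 h), h1⟩
  · intro y _; exact Finset.mem_univ _
  · intro n _; exact Subtype.ext (inv_mul_cancel_left g (n : G))
  · intro y _; exact mul_inv_cancel_left g y

/-- The principal block of a `p`-soluble group. -/
theorem mem_principalBlock_iff_of_isPSolvable {M : Ideal AlgInt} (hM : IsPModular p M)
    (h : IsPSolvable p G) (χ : IrrCharacter G) :
    χ ∈ principalBlock M G ↔ ∀ n ∈ pPrimeCore p G, (χ : G → ℂ) n = (χ : G → ℂ) 1 := by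
  haveI : M.IsPrime := isPrime_of_isPModular hM
  letI := Fintype.ofFinite G
  set N := pPrimeCore p G with hN
  have hNc : ¬ p ∣ Nat.card N := Cores.not_dvd_card_pPrimeCore
  constructor
  · exact fun hχ => Brauer.trivialOn_of_sameBlock hM N hNc (χ := Char.trivialIrr G) hχ
      fun _ _ => rfl
  · intro hχ
    obtain ⟨ψ, hψ, hg⟩ := Char.irr_exists_descend χ.2 N hχ
    have hO : pPrimeCore p (G ⧸ N) = ⊥ := Cores.pPrimeCore_quotient_pPrimeCore_eq_bot
    have hC := PSolv.centralizer_pCore_le (PSolv.isPSolvable_quotient h N) hO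
    have hmem : (⟨ψ, hψ⟩ : IrrCharacter (G ⧸ N)) ∈ principalBlock M (G ⧸ N) :=
      S4487.result p M hM hO hC (Char.trivialIrr (G ⧸ N)) ⟨ψ, hψ⟩
    rw [mem_principalBlock_iff_regTotal hM] at hmem ⊢
    have h1 : (χ : G → ℂ) = fun g : G => ψ g := funext hg
    rw [h1, regTotal_inflate N hNc, mul_div_assoc]
    intro hmul
    apply hmem
    have h0 : (Nat.card N : ℂ) ≠ 0 := Nat.cast_ne_zero.2 Nat.card_pos.ne'
    have h2 := memLocalIdeal_mul_left (memLocalRing_natCast_inv hM hNc) hmul
    rw [← mul_assoc, inv_mul_cancel₀ h0, one_mul] at h2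
    exact h2

end Cfsg.Agent.BlkChar
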