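import Cfsg.Agent.Brauer.RegElement
import Cfsg.Agent.Block.Degrees
import Cfsg.Agent.BlkChar.PPrimeConstituent

/-! Gow: an irreducible character of odd degree, real on the odd order elements, is in the
principal `2`-block. -/

namespace Cfsg.Agent.BlkChar

open Cfsg Cfsg.Agent.Block

theorem memLocalRing_char {G : Type*} [Group G] [Finite G] {M : Ideal AlgInt} [M.IsPrime]
    {χ : G → ℂ} (hχ : IsCharacter G χ) (g : G) : MemLocalRing M (χ g) :=
  memLocalRing_of_isIntegral (Char.isCharacter_isIntegral hχ g)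

theorem mem_principalBlock_two_of_real {G : Type*} [Group G] [Finite G] {M : Ideal AlgInt}
    (hM : IsPModular 2 M) (χ : IrrCharacter G) (hodd : Odd (charDegree (χ : G → ℂ)))
    (hreal : ∀ x : G, Odd (orderOf x) → (χ : G → ℂ) x⁻¹ = (χ : G → ℂ) x) :
    χ ∈ principalBlock M G := by
  classical
  letI := Fintype.ofFinite G
  haveI : M.IsPrime := isPrime_of_isPModular hM
  haveI : CharP (ResF M) 2 := charP_resF hM
  rw [Brauer.mem_principalBlock_iff_regSum hM]
  intro h
  have h1 := isCharacter_one_eq_charDegree (Char.isCharacter_of_irr χ.2)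
  have h2 := memLocalIdeal_mul_right h (memLocalRing_natCast (M := M) (charDegree (χ : G → ℂ)))
  rw [h1, div_mul_cancel₀ _ (h1 ▸ Char.irr_one_ne_zero χ.2)] at h2
  simp only [Brauer.regSum, map_one, mul_one] at h2
  rw [← redC_eq_zero_iff (memLocalRing_of_memLocalIdeal h2),
    redC_sum _ _ (fun x _ => memLocalRing_char (Char.isCharacter_of_irr χ.2) x)] at h2
  have h3 : ∀ s : Finset G, (∀ x, x ∈ s ↔ ¬ 2 ∣ orderOf x) →
      ∑ x ∈ s.erase 1, redC M ((χ : G → ℂ) x) = 0 := by
    intro s hs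
    refine Finset.sum_involution (fun x _ => x⁻¹) ?_ ?_ ?_ ?_
    · intro x hx
      rw [hreal x (Nat.odd_iff.2 (Nat.two_dvd_ne_zero.1 ((hs x).1 (Finset.mem_erase.1 hx).2))),
        CharTwo.add_self_eq_zero]
    · intro x hx _ hfix
      have hx1 := (Finset.mem_erase.1 hx).1
      have hx2 := (hs x).1 (Finset.mem_erase.1 hx).2
      have : x ^ 2 = 1 := by
        rw [sq]
        nth_rewrite 1 [← hfix]
        exact inv_mul_cancel x
      exact hx2 (orderOf_eq_prime this hx1 ▸ dvd_rfl)
    · intro x hx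
      rw [Finset.mem_erase] at hx ⊢
      exact ⟨inv_ne_one.2 hx.1, (hs _).2 (by rw [orderOf_inv]; exact (hs x).1 hx.2)⟩
    · intro x _
      exact inv_inv x
  rw [← Finset.add_sum_erase _ _ (show (1 : G) ∈ _ by simp), h3 _ (fun x => by simp), add_zero,
    redC_eq_zero_iff (memLocalRing_char (Char.isCharacter_of_irr χ.2) 1), h1,
    memLocalIdeal_natCast_iff hM] at h2
  exact Nat.two_dvd_ne_zero.2 (Nat.odd_iff.1 hodd) h2

end Cfsg.Agent.BlkChar
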