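import Cfsg.Agent.Char.Virtual
import Cfsg.Agent.CharInd.Clifford
import Cfsg.Agent.BlkChar.FullyRamified

/-!
# Characters of an intermediate subgroup lying over a fully ramified character

`Z ≤ S` are subgroups of `H`, `Z` normal, `θ` an invariant irreducible character of `Z`.
-/

set_option autoImplicit false
set_option linter.style.haveILetI false

namespace Cfsg.Agent.BlkChar.RamifiedOver

open Cfsg
open Cfsg.Agent.Char
open scoped ComplexConjugate

universe v

variable {H : Type v} [Group H] [Fintype H] {Z : Subgroup H} [Z.Normal] [Fintype Z]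
variable {S : Subgroup H} [Fintype S]

/-- The multiplicity of `θ` in `ψ` restricted to `Z`. -/
noncomputable def mz (θ : IrrCharacter Z) (hZS : Z ≤ S) (ψ : IrrCharacter S) : ℕ :=
  (isCharacter_classInner_nat
    (CharInd.isCharacter_comp (Subgroup.inclusion hZS) (isCharacter_of_irr ψ.2)) θ).choose

theorem mz_spec (θ : IrrCharacter Z) (hZS : Z ≤ S) (ψ : IrrCharacter S) :
    classInner (fun z : Z => (ψ : S → ℂ) (Subgroup.inclusion hZS z)) (θ : Z → ℂ) =
      mz θ hZS ψ :=
  (isCharacter_classInner_nat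
    (CharInd.isCharacter_comp (Subgroup.inclusion hZS) (isCharacter_of_irr ψ.2)) θ).choose_spec

open scoped Classical in
/-- `θ` extended by zero to `S`. -/
noncomputable def extZ (θ : IrrCharacter Z) (S : Subgroup H) : S → ℂ :=
  fun s => if h : (s : H) ∈ Z then (θ : Z → ℂ) ⟨s, h⟩ else 0

theorem extZ_inclusion (θ : IrrCharacter Z) (hZS : Z ≤ S) (z : Z) :
    extZ θ S (Subgroup.inclusion hZS z) = (θ : Z → ℂ) z := by
  rw [extZ, dif_pos (show ((Subgroup.inclusion hZS z : S) : H) ∈ Z from z.2)]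
  rfl

theorem extZ_notMem (θ : IrrCharacter Z) {s : S} (hs : (s : H) ∉ Z) : extZ θ S s = 0 :=
  dif_neg hs

theorem sum_extZ_mul (θ : IrrCharacter Z) (hZS : Z ≤ S) (g : S → ℂ) :
    ∑ s : S, extZ θ S s * g s = ∑ z : Z, (θ : Z → ℂ) z * g (Subgroup.inclusion hZS z) := by
  refine (Fintype.sum_of_injective (Subgroup.inclusion hZS) (Subgroup.inclusion_injective hZS) _ _
    (fun s hs => ?_) (fun z => ?_)).symm
  · rw [extZ_notMem θ (fun h => hs ⟨⟨s, h⟩, rfl⟩), zero_mul]
  · rw [extZ_inclusion θ hZS]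

theorem classInner_extZ (θ : IrrCharacter Z) (hZS : Z ≤ S) (ψ : IrrCharacter S) :
    classInner (extZ θ S) (ψ : S → ℂ) = (Nat.card S : ℂ)⁻¹ * (Nat.card Z * mz θ hZS ψ : ℂ) := by
  rw [classInner, sum_extZ_mul θ hZS (fun s => conj ((ψ : S → ℂ) s)),
    sum_mul_conj_eq_card_mul_classInner, ← classInner_conj, mz_spec, Complex.conj_natCast]

theorem classInner_extZ_self (θ : IrrCharacter Z) (hZS : Z ≤ S) :
    classInner (extZ θ S) (extZ θ S) = (Nat.card S : ℂ)⁻¹ * (Nat.card Z : ℂ) := by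
  rw [classInner, sum_extZ_mul θ hZS (fun s => conj (extZ θ S s))]
  simp only [extZ_inclusion θ hZS]
  rw [sum_mul_conj_eq_card_mul_classInner, classInner_irr_self θ.2, mul_one]

variable {θ : IrrCharacter Z}

theorem extZ_isClassFunction
    (hinv : ∀ (x : H) (z : Z), CharInd.conjChar Z x (θ : Z → ℂ) z = (θ : Z → ℂ) z) :
    IsClassFunction S (extZ θ S) := by
  intro g h
  by_cases hg : (g : H) ∈ Z
  · have hg' : ((h * g * h⁻¹ : S) : H) ∈ Z := by
      simpa using Subgroup.Normal.conj_mem inferInstance _ hg (h : H)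
    rw [extZ, dif_pos hg', extZ, dif_pos hg]
    exact hinv h ⟨g, hg⟩
  · rw [extZ_notMem θ hg, extZ_notMem θ]
    intro hg'
    apply hg
    have := Subgroup.Normal.conj_mem inferInstance _ hg' ((h : H)⁻¹)
    simpa [mul_assoc] using this

/-- The squares of the multiplicities add up to the index. -/
theorem sum_sq (hinv : ∀ (x : H) (z : Z), CharInd.conjChar Z x (θ : Z → ℂ) z = (θ : Z → ℂ) z)
    (hZS : Z ≤ S) : Nat.card Z * ∑ ψ : IrrCharacter S, mz θ hZS ψ ^ 2 = Nat.card S := by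
  have h := classInner_eq_sum_mul_conj (b := extZ θ S) (extZ_isClassFunction (S := S) hinv)
  rw [classInner_extZ_self θ hZS] at h
  simp only [classInner_extZ θ hZS, map_mul, map_inv₀, Complex.conj_natCast] at h
  have hS : (Nat.card S : ℂ) ≠ 0 := card_ne_zero_complex
  have hZ : (Nat.card Z : ℂ) ≠ 0 := card_ne_zero_complex
  have h2 : (Nat.card Z : ℂ) * ∑ ψ : IrrCharacter S, (mz θ hZS ψ : ℂ) ^ 2 = Nat.card S := by
    have h3 : ∑ ψ : IrrCharacter S, (Nat.card S : ℂ)⁻¹ * ((Nat.card Z : ℂ) * mz θ hZS ψ) *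
        ((Nat.card S : ℂ)⁻¹ * ((Nat.card Z : ℂ) * mz θ hZS ψ)) =
        ((Nat.card S : ℂ)⁻¹ * (Nat.card Z : ℂ)) * ((Nat.card S : ℂ)⁻¹ *
          ((Nat.card Z : ℂ) * ∑ ψ : IrrCharacter S, (mz θ hZS ψ : ℂ) ^ 2)) := by
      rw [Finset.mul_sum, Finset.mul_sum, Finset.mul_sum]
      exact Finset.sum_congr rfl fun ψ _ => by ring
    rw [h3] at h
    have hne : ((Nat.card S : ℂ)⁻¹ * (Nat.card Z : ℂ)) ≠ 0 := mul_ne_zero (inv_ne_zero hS) hZ
    have h4 := mul_left_cancel₀ hne ((mul_one _).trans h)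
    field_simp at h4
    exact h4.symm
  exact_mod_cast h2

/-- A constituent over `θ` restricts to a multiple of `θ`. -/
theorem res_eq (hinv : ∀ (x : H) (z : Z), CharInd.conjChar Z x (θ : Z → ℂ) z = (θ : Z → ℂ) z)
    (hZS : Z ≤ S) {ψ : IrrCharacter S} (hψ : mz θ hZS ψ ≠ 0) (z : Z) :
    (ψ : S → ℂ) (Subgroup.inclusion hZS z) = (mz θ hZS ψ : ℂ) * (θ : Z → ℂ) z := by
  classical
  have hcoef : ∀ χ : IrrCharacter S, ∃ a : IrrCharacter Z → ℕ, a θ = mz θ hZS χ ∧
      (fun z : Z => (χ : S → ℂ) (Subgroup.inclusion hZS z)) =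
        ∑ η : IrrCharacter Z, a η • (η : Z → ℂ) := by
    intro χ
    obtain ⟨a, ha, ha'⟩ := isCharacter_exists_coeff
      (CharInd.isCharacter_comp (Subgroup.inclusion hZS) (isCharacter_of_irr χ.2))
    refine ⟨a, ?_, ha⟩
    have := (ha' θ).symm.trans (mz_spec θ hZS χ)
    exact_mod_cast this
  choose a ha hres using hcoef
  choose d hdpos hd using fun χ : IrrCharacter S => irr_one_pos χ.2
  choose t htpos ht using fun η : IrrCharacter Z => irr_one_pos η.2
  have hdeg : ∀ χ : IrrCharacter S, d χ = ∑ η : IrrCharacter Z, a χ η * t η := by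
    intro χ
    have h := congrFun (hres χ) 1
    simp only [map_one, Finset.sum_apply, nsmul_eq_mul, Pi.mul_apply, Pi.natCast_apply] at h
    rw [hd] at h
    simp only [ht] at h
    exact_mod_cast h
  have hexp := congrFun (eq_sum_classInner_smul (extZ_isClassFunction (S := S) hinv)) 1
  have h1 : extZ θ S (1 : S) = (t θ : ℂ) := by
    rw [← ht, ← extZ_inclusion θ hZS, map_one]
  rw [h1] at hexp
  simp only [Finset.sum_apply, Pi.smul_apply, smul_eq_mul, classInner_extZ θ hZS, hd] at hexp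
  have hS : (Nat.card S : ℂ) ≠ 0 := card_ne_zero_complex
  have hsum : Nat.card S * t θ = ∑ χ : IrrCharacter S, Nat.card Z * mz θ hZS χ * d χ := by
    have h : (Nat.card S : ℂ) * t θ =
        ∑ χ : IrrCharacter S, (Nat.card Z : ℂ) * mz θ hZS χ * d χ := by
      rw [hexp, Finset.mul_sum]
      exact Finset.sum_congr rfl fun χ _ => by field_simp
    exact_mod_cast h
  have hle : ∀ χ : IrrCharacter S, mz θ hZS χ * t θ ≤ d χ := fun χ => by
    rw [hdeg, ← ha]
    exact Finset.single_le_sum (fun η _ => Nat.zero_le (a χ η * t η)) (Finset.mem_univ θ)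
  have heq : mz θ hZS ψ * t θ = d ψ := by
    by_contra hne
    have hlt : ∑ χ : IrrCharacter S, Nat.card Z * mz θ hZS χ * (mz θ hZS χ * t θ) <
        ∑ χ : IrrCharacter S, Nat.card Z * mz θ hZS χ * d χ :=
      Finset.sum_lt_sum (fun χ _ => Nat.mul_le_mul_left _ (hle χ))
        ⟨ψ, Finset.mem_univ _, Nat.mul_lt_mul_of_pos_left (lt_of_le_of_ne (hle ψ) hne)
          (Nat.mul_pos Nat.card_pos (Nat.pos_of_ne_zero hψ))⟩
    rw [← hsum, ← sum_sq hinv hZS, Finset.mul_sum, Finset.sum_mul] at hlt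
    exact absurd hlt (le_of_eq (Finset.sum_congr rfl fun χ _ => by ring)).not_gt
  have hzero : ∀ η : IrrCharacter Z, η ≠ θ → a ψ η = 0 := by
    intro η hη
    by_contra hne
    have h := Finset.add_le_sum (f := fun η : IrrCharacter Z => a ψ η * t η)
      (fun i _ => Nat.zero_le _) (Finset.mem_univ θ) (Finset.mem_univ η) hη.symm
    rw [← hdeg, ha, heq] at h
    have := Nat.mul_pos (Nat.pos_of_ne_zero hne) (htpos η)
    omega
  have h := congrFun (hres ψ) z
  simp only [Finset.sum_apply, nsmul_eq_mul, Pi.mul_apply, Pi.natCast_apply] at h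
  rw [h, Finset.sum_eq_single θ (fun η _ hη => by rw [hzero η hη, Nat.cast_zero, zero_mul])
    (fun h => absurd (Finset.mem_univ _) h), ha]

/-- A single constituent over `θ` vanishes off `Z`. -/
theorem vanish (hinv : ∀ (x : H) (z : Z), CharInd.conjChar Z x (θ : Z → ℂ) z = (θ : Z → ℂ) z)
    (hZS : Z ≤ S) {ψ : IrrCharacter S} (hψ : mz θ hZS ψ ≠ 0)
    (huniq : ∀ χ : IrrCharacter S, mz θ hZS χ ≠ 0 → χ = ψ) {s : S} (hs : (s : H) ∉ Z) :
    (ψ : S → ℂ) s = 0 := by
  have h := congrFun (eq_sum_classInner_smul (extZ_isClassFunction (S := S) hinv)) s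
  rw [extZ_notMem θ hs, Finset.sum_apply, Finset.sum_eq_single ψ
    (fun χ _ hχ => by
      have : mz θ hZS χ = 0 := by
        by_contra hne
        exact hχ (huniq χ hne)
      simp [classInner_extZ θ hZS, this])
    (fun h => absurd (Finset.mem_univ _) h), Pi.smul_apply, smul_eq_mul,
    classInner_extZ θ hZS] at h
  have hS : (Nat.card S : ℂ) ≠ 0 := card_ne_zero_complex
  have hZ : (Nat.card Z : ℂ) ≠ 0 := card_ne_zero_complex
  have hm : (mz θ hZS ψ : ℂ) ≠ 0 := Nat.cast_ne_zero.2 hψ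
  simpa [hS, hZ, hm] using h.symm

/-- The inner product with a function that vanishes off `Z` and is a multiple of `θ` on it. -/
theorem sum_mul_conj_eq (hZS : Z ≤ S) {g : S → ℂ} {c : ℂ}
    (hon : ∀ z : Z, g (Subgroup.inclusion hZS z) = c * (θ : Z → ℂ) z)
    (hoff : ∀ s : S, (s : H) ∉ Z → g s = 0) (ψ : IrrCharacter S) :
    ∑ s : S, g s * conj ((ψ : S → ℂ) s) = c * ((Nat.card Z : ℂ) * mz θ hZS ψ) := by
  have hg : g = fun s => c * extZ θ S s := by
    funext s
    by_cases hs : (s : H) ∈ Z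
    · have e : Subgroup.inclusion hZS ⟨s, hs⟩ = s := Subtype.ext rfl
      have h1 := hon ⟨s, hs⟩
      rw [e] at h1
      rw [h1, extZ, dif_pos hs]
    · rw [hoff s hs, extZ_notMem θ hs, mul_zero]
  rw [hg]
  simp only [mul_assoc, ← Finset.mul_sum]
  rw [sum_extZ_mul θ hZS (fun s => conj ((ψ : S → ℂ) s)), sum_mul_conj_eq_card_mul_classInner,
    ← classInner_conj, mz_spec, Complex.conj_natCast]

/-- Divisibility given by the restriction of a fully ramified character. -/
theorem card_dvd (hZS : Z ≤ S) {χ : H → ℂ} (hχ : IsCharacter H χ) {e : ℕ}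
    (hon : ∀ z : Z, χ z = (e : ℂ) * (θ : Z → ℂ) z) (hoff : ∀ h : H, h ∉ Z → χ h = 0)
    (ψ : IrrCharacter S) : Nat.card S ∣ e * (Nat.card Z * mz θ hZS ψ) := by
  obtain ⟨n, hn⟩ := isCharacter_classInner_nat (CharInd.isCharacter_res S hχ) ψ
  refine ⟨n, ?_⟩
  have h := sum_mul_conj_eq_card_mul_classInner (fun s : S => χ s) (ψ : S → ℂ)
  rw [hn, sum_mul_conj_eq hZS (g := fun s : S => χ s) (fun z => hon z) (fun s hs => hoff s hs)]
    at h
  exact_mod_cast h

end Cfsg.Agent.BlkChar.RamifiedOver
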