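import Cfsg.Agent.Char.Kernel
import Cfsg.Agent.BlkChar.Knorr
import Cfsg.Agent.Transfer.Tate
import Cfsg.Agent.Transfer.Frobenius
import Cfsg.Agent.PGroup.Frattini
import Mathlib

/-!
# Extendibility of the `p'`-degree characters of a Sylow normalizer
-/

set_option autoImplicit false
set_option linter.style.haveILetI false

open Subgroup
open scoped commutatorElement

namespace Cfsg.Agent.SylowExtend

universe u

variable {G : Type u} [Group G] [Finite G] {p : ℕ} [hp : Fact p.Prime]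

/-- Characters trivial on `D`, where the image of the normal Sylow subgroup is abelian, have
`p'`-degree. -/
theorem not_dvd_degree {N : Type u} [Group N] [Finite N] (P : Sylow p N) [(P : Subgroup N).Normal]
    (D : Subgroup N) [D.Normal] (hab : ⁅(P : Subgroup N), (P : Subgroup N)⁆ ≤ D)
    (θ : IrrCharacter N) (hθ : ∀ d ∈ D, (θ : N → ℂ) d = (θ : N → ℂ) 1) :
    ¬ p ∣ charDegree (θ : N → ℂ) := by
  obtain ⟨ψ, hψ, hψg⟩ := Char.irr_exists_descend θ.2 D hθ
  set V : Subgroup (N ⧸ D) := (P : Subgroup N).map (QuotientGroup.mk' D) with hV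
  haveI : V.Normal := ‹(P : Subgroup N).Normal›.map _ (QuotientGroup.mk'_surjective D)
  have hVp : IsPGroup p V := P.2.map _
  have hidx : ¬ p ∣ V.index := fun h => P.not_dvd_index
    (h.trans (index_map_dvd _ (QuotientGroup.mk'_surjective D)))
  have hVab : ∀ a ∈ V, ∀ b ∈ V, a * b = b * a := by
    rintro _ ⟨a, ha, rfl⟩ _ ⟨b, hb, rfl⟩
    rw [← map_mul, ← map_mul, QuotientGroup.mk'_eq_mk']
    refine ⟨(a * b)⁻¹ * (b * a), hab ?_, by group⟩
    have : (a * b)⁻¹ * (b * a) = ⁅b⁻¹, a⁻¹⁆ := by rw [commutatorElement_def]; group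
    rw [this]
    exact commutator_mem_commutator (inv_mem hb) (inv_mem ha)
  obtain ⟨C, hC⟩ := exists_right_complement'_of_coprime (N := V) (by
    obtain ⟨k, hk⟩ := IsPGroup.iff_card.mp hVp
    rw [hk]
    exact Nat.Coprime.pow_left _ ((Nat.Prime.coprime_iff_not_dvd hp.out).mpr hidx))
  obtain ⟨d, hd, hpd⟩ := Kgv.degree_not_dvd V hVp hidx hVab C hC ⟨ψ, hψ⟩
  have h1 : (θ : N → ℂ) 1 = (d : ℂ) := by
    rw [hψg, QuotientGroup.mk_one]; exact hd
  rwa [charDegree, h1, Complex.natCast_re, Nat.floor_natCast]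

/-- Extendibility of all these characters gives a normal complement of the Sylow normalizer. -/
theorem exists_complement (P : Sylow p G)
    (h : ∀ θ : IrrCharacter ↥(normalizer ((P : Subgroup G) : Set G)),
      ¬ p ∣ charDegree (θ : ↥(normalizer ((P : Subgroup G) : Set G)) → ℂ) →
      ∃ χ : IrrCharacter G, ∀ x : ↥(normalizer ((P : Subgroup G) : Set G)),
        (χ : G → ℂ) x = (θ : ↥(normalizer ((P : Subgroup G) : Set G)) → ℂ) x) :
    ∃ K : Subgroup G, K.Normal ∧ K ⊔ normalizer ((P : Subgroup G) : Set G) = ⊤ ∧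
      K ⊓ normalizer ((P : Subgroup G) : Set G) = ⊥ := by
  classical
  set N := normalizer ((P : Subgroup G) : Set G) with hN
  have hPN : (P : Subgroup G) ≤ N := le_normalizer
  let PN : Sylow p ↥N := P.subtype hPN
  have hPNcoe : (PN : Subgroup ↥N) = (P : Subgroup G).subgroupOf N := Sylow.coe_subtype ..
  haveI hPNn : (PN : Subgroup ↥N).Normal := by rw [hPNcoe]; exact normal_in_normalizer
  set D : Subgroup ↥N := ⁅(PN : Subgroup ↥N), (PN : Subgroup ↥N)⁆ with hD
  haveI : D.Normal := commutator_normal _ _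
  have hDP : D ≤ (PN : Subgroup ↥N) := commutator_le_self _
  -- kernels of extensions
  have key : ∀ E : Subgroup ↥N, E.Normal → D ≤ E →
      ∃ K : Subgroup G, K.Normal ∧ (∀ x : ↥N, (x : G) ∈ K ↔ x ∈ E) ∧
        ∀ (θ : IrrCharacter ↥N) (hθ : ∀ d ∈ D, (θ : ↥N → ℂ) d = (θ : ↥N → ℂ) 1),
          (∀ e ∈ E, (θ : ↥N → ℂ) e = (θ : ↥N → ℂ) 1) → ∀ g ∈ K,
            ((h θ (not_dvd_degree PN D le_rfl θ hθ)).choose : G → ℂ) g =
              ((h θ (not_dvd_degree PN D le_rfl θ hθ)).choose : G → ℂ) 1 := by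
    intro E hE hDE
    let I := {θ : IrrCharacter ↥N // ∀ e ∈ E, (θ : ↥N → ℂ) e = (θ : ↥N → ℂ) 1}
    have hi : ∀ i : I, ∀ d ∈ D, (i.1 : ↥N → ℂ) d = (i.1 : ↥N → ℂ) 1 :=
      fun i d hd => i.2 d (hDE hd)
    choose Ker hKn hKer using fun i : I => Char.isCharacter_exists_kernel
      (Char.isCharacter_of_irr (h i.1 (not_dvd_degree PN D le_rfl i.1 (hi i))).choose.2)
    refine ⟨⨅ i, Ker i, normal_iInf_normal hKn, fun x => ?_, fun θ hθ hθE g hg =>
      (hKer ⟨θ, hθE⟩ g).mp (mem_iInf.mp hg ⟨θ, hθE⟩)⟩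
    have hval : ∀ (i : I) (y : ↥N),
        ((h i.1 (not_dvd_degree PN D le_rfl i.1 (hi i))).choose : G → ℂ) y = (i.1 : ↥N → ℂ) y :=
      fun i y => (h i.1 (not_dvd_degree PN D le_rfl i.1 (hi i))).choose_spec y
    rw [mem_iInf, Char.mem_normal_iff_forall_irr E x]
    refine forall_congr' (fun i => ?_) |>.trans ⟨fun H θ hθ => H ⟨θ, hθ⟩, fun H i => H i.1 i.2⟩
    rw [hKer, ← hval i x, ← hval i 1, Subgroup.coe_one]
  obtain ⟨K, hKn, hKmem, hKker⟩ := key D inferInstance le_rfl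
  obtain ⟨K₁', hK₁n', hK₁mem', -⟩ := key (PN : Subgroup ↥N) hPNn hDP
  haveI := hKn
  haveI := hK₁n'
  have hPK₁' : (P : Subgroup G) ≤ K₁' := fun x hx =>
    (hK₁mem' ⟨x, hPN hx⟩).mpr (by rw [hPNcoe, mem_subgroupOf]; exact hx)
  -- the Sylow subgroup is its own normalizer inside `K₁'`
  have hK₁N : K₁' ⊓ N ≤ (P : Subgroup G) := fun x hx => by
    have := (hK₁mem' ⟨x, hx.2⟩).mp hx.1
    rwa [hPNcoe, mem_subgroupOf] at this
  have hKP : ∀ x ∈ (P : Subgroup G), x ∈ K → x ∈ (_root_.commutator ↥(P : Subgroup G)).map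
      (P : Subgroup G).subtype := fun x hx hxK => by
    have h1 := (hKmem ⟨x, hPN hx⟩).mp hxK
    rw [map_subtype_commutator]
    have h2 : D.map N.subtype = ⁅(P : Subgroup G), (P : Subgroup G)⁆ := by
      rw [hD, map_commutator, hPNcoe, subgroupOf_map_subtype, inf_eq_left.mpr hPN]
    exact h2 ▸ ⟨_, h1, rfl⟩
  -- pass to the quotient by `K ⊓ K₁'`
  set O := K ⊓ K₁' with hO
  haveI : O.Normal := inferInstance
  set π := QuotientGroup.mk' O with hπ
  have hπs : Function.Surjective π := QuotientGroup.mk'_surjective O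
  set Kb : Subgroup (G ⧸ O) := K₁'.map π with hKb
  haveI : Kb.Normal := hK₁n'.map _ hπs
  let Pb : Sylow p (G ⧸ O) := P.mapSurjective hπs
  have hPb : (Pb : Subgroup (G ⧸ O)) = (P : Subgroup G).map π := Sylow.coe_mapSurjective ..
  have hPKb : (Pb : Subgroup (G ⧸ O)) ≤ Kb := hPb ▸ map_mono hPK₁'
  have hab : ∀ a ∈ (Pb : Subgroup (G ⧸ O)), ∀ b ∈ (Pb : Subgroup (G ⧸ O)), a * b = b * a := by
    rw [hPb]
    rintro _ ⟨a, ha, rfl⟩ _ ⟨b, hb, rfl⟩
    rw [← map_mul, ← map_mul, hπ, QuotientGroup.mk'_eq_mk']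
    refine ⟨(a * b)⁻¹ * (b * a), ?_, by group⟩
    have hm : (a * b)⁻¹ * (b * a) ∈ ⁅(P : Subgroup G), (P : Subgroup G)⁆ := by
      rw [show (a * b)⁻¹ * (b * a) = ⁅b⁻¹, a⁻¹⁆ by rw [commutatorElement_def]; group]
      exact commutator_mem_commutator (inv_mem hb) (inv_mem ha)
    have hmP : (a * b)⁻¹ * (b * a) ∈ (P : Subgroup G) := commutator_le_self _ hm
    refine ⟨(hKmem ⟨_, hPN hmP⟩).mpr ?_, hPK₁' hmP⟩
    have h2 : D.map N.subtype = ⁅(P : Subgroup G), (P : Subgroup G)⁆ := by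
      rw [hD, map_commutator, hPNcoe, subgroupOf_map_subtype, inf_eq_left.mpr hPN]
    rw [← h2] at hm
    obtain ⟨y, hy, hye⟩ := hm
    exact (Subtype.ext hye : y = ⟨_, hPN hmP⟩) ▸ hy
  have hnorm : ∀ q ∈ Kb, q ∈ normalizer ((Pb : Subgroup (G ⧸ O)) : Set (G ⧸ O)) →
      q ∈ (Pb : Subgroup (G ⧸ O)) := by
    rintro _ ⟨x, hx, rfl⟩ hq
    set R := (normalizer ((Pb : Subgroup (G ⧸ O)) : Set (G ⧸ O))).comap π ⊓ K₁' with hR
    set Mm := ((Pb : Subgroup (G ⧸ O))).comap π ⊓ K₁' with hMm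
    have hMR : Mm ≤ R := inf_le_inf_right _ (comap_mono le_normalizer)
    haveI hMn : (Mm.subgroupOf R).Normal := ⟨fun m hm r => by
      rw [mem_subgroupOf] at hm ⊢
      refine ⟨?_, K₁'.mul_mem (K₁'.mul_mem r.2.2 hm.2) (K₁'.inv_mem r.2.2)⟩
      show π ((r : G) * (m : G) * (r : G)⁻¹) ∈ (Pb : Subgroup (G ⧸ O))
      rw [map_mul, map_mul, map_inv]
      exact (mem_normalizer_iff.mp r.2.1 _).mp hm.1⟩
    have hPM : (P : Subgroup G) ≤ Mm := fun y hy =>
      ⟨by show π y ∈ (Pb : Subgroup (G ⧸ O)); rw [hPb]; exact mem_map_of_mem _ hy, hPK₁' hy⟩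
    have hF := Sylow.normalizer_sup_eq_top' (p := p) (N := Mm.subgroupOf R) (P.subtype (hPM.trans hMR))
      (by rw [Sylow.coe_subtype]; exact fun z hz => hPM hz)
    have hxR : x ∈ R := ⟨hq, hx⟩
    have hxm : (⟨x, hxR⟩ : ↥R) ∈ (⊤ : Subgroup ↥R) := mem_top _
    rw [← hF, mem_sup_of_normal_right] at hxm
    obtain ⟨r, hr, m, hm, hrm⟩ := hxm
    have hx' : x = (r : G) * (m : G) := (congrArg Subtype.val hrm).symm
    have hrP : (r : G) ∈ (P : Subgroup G) := hK₁N ⟨r.2.2, by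
      show (r : G) ∈ normalizer ((P : Subgroup G) : Set G)
      rw [mem_normalizer_iff]
      intro y
      change r ∈ normalizer (((P.subtype (hPM.trans hMR) : Sylow p ↥R) : Subgroup ↥R) : Set ↥R) at hr
      rw [Sylow.coe_subtype, mem_normalizer_iff] at hr
      refine ⟨fun hy => ?_, fun hy => ?_⟩
      · exact mem_subgroupOf.mp ((hr ⟨y, hMR (hPM hy)⟩).mp (mem_subgroupOf.mpr hy))
      · have hyR : y ∈ R := by
          have := R.mul_mem (R.mul_mem (R.inv_mem r.2) (hMR (hPM hy))) r.2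
          simpa [mul_assoc] using this
        exact mem_subgroupOf.mp ((hr ⟨y, hyR⟩).mpr (mem_subgroupOf.mpr hy))⟩
    rw [hx', map_mul]
    exact mul_mem (hPb ▸ mem_map_of_mem _ hrP) (mem_subgroupOf.mp hm).1
  let PKb : Sylow p ↥Kb := Pb.subtype hPKb
  have hburn : Cfsg.HasNormalPComplement p ↥Kb :=
    Transfer.hasNormalPComplement_of_normalizer_le_centralizer PKb fun q hq => by
      have hqn : (q : G ⧸ O) ∈ normalizer ((Pb : Subgroup (G ⧸ O)) : Set (G ⧸ O)) := by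
        rw [Sylow.coe_subtype, mem_normalizer_iff] at hq
        rw [mem_normalizer_iff]
        intro y
        refine ⟨fun hy => mem_subgroupOf.mp ((hq ⟨y, hPKb hy⟩).mp (mem_subgroupOf.mpr hy)),
          fun hy => ?_⟩
        have hyK : y ∈ Kb := by
          have := Kb.mul_mem (Kb.mul_mem (Kb.inv_mem q.2) (hPKb hy)) q.2
          simpa [mul_assoc] using this
        exact mem_subgroupOf.mp ((hq ⟨y, hyK⟩).mpr (mem_subgroupOf.mpr hy))
      have hqP := hnorm q q.2 hqn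
      rw [mem_centralizer_iff]
      intro y hy
      rw [Sylow.coe_subtype, SetLike.mem_coe, mem_subgroupOf] at hy
      exact Subtype.ext (hab _ hy _ hqP)
  haveI := hburn
  set R : Subgroup (G ⧸ O) := (Cfsg.pResidual p ↥Kb).map Kb.subtype with hRdef
  haveI : R.Normal := by rw [hRdef]; infer_instance
  set L := R.comap π with hL
  haveI : L.Normal := inferInstance
  have hLP : L ⊓ (P : Subgroup G) ≤ (frattini ↥(P : Subgroup G)).map (P : Subgroup G).subtype := by
    rintro x ⟨hxL, hxP⟩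
    have h1 : π x ∈ (Pb : Subgroup (G ⧸ O)) := hPb ▸ mem_map_of_mem _ hxP
    obtain ⟨y, hy, hyx⟩ := hxL
    have hyP : y ∈ (PKb : Subgroup ↥Kb) := by
      rw [Sylow.coe_subtype, mem_subgroupOf, show (y : G ⧸ O) = π x from hyx]; exact h1
    have h2 := (Transfer.hasNormalPComplement_iff_disjoint PKb).mp hburn
    have hy1 : y = 1 := mem_bot.mp (h2 ▸ ⟨hy, hyP⟩)
    have hxO : x ∈ O := by
      rw [← QuotientGroup.eq_one_iff]
      exact hyx.symm.trans (by rw [hy1]; rfl)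
    exact map_mono (PGroup.commutator_le_frattini P.2) (hKP x hxP hxO.1)
  have hTate := Transfer.hasNormalPComplement_of_inf_le_frattini P L hLP
  set L₀ : Subgroup G := (Cfsg.pResidual p ↥L).map L.subtype with hL₀
  haveI : L₀.Normal := by rw [hL₀]; infer_instance
  have hL₀p : ¬ p ∣ Nat.card L₀ := by
    rw [hL₀, card_map_of_injective L.subtype_injective]
    exact Transfer.hasNormalPComplement_iff.mp hTate
  have hidx : ∀ {X : Type u} [Group X] [Finite X], Cfsg.HasNormalPComplement p X →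
      ∃ a, (Cfsg.pResidual p X).index = p ^ a := fun {X} _ _ hX => by
    obtain ⟨Q⟩ : Nonempty (Sylow p X) := inferInstance
    obtain ⟨a, ha⟩ := IsPGroup.iff_card.mp Q.2
    exact ⟨a, by rw [(Transfer.isComplement'_pResidual hX Q).symm.index_eq_card, ha]⟩
  obtain ⟨a, ha⟩ := hidx hburn
  obtain ⟨b, hb⟩ := hidx hTate
  have hLK : L ≤ K₁' := by
    rw [hL, hRdef]
    refine (comap_mono (map_subtype_le _)).trans ?_
    rw [hKb, comap_map_eq, hπ, QuotientGroup.ker_mk']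
    exact sup_le le_rfl inf_le_right
  have hL₀L : L₀ ≤ L := map_subtype_le _
  have h1 : L.relIndex K₁' = p ^ a := by
    rw [hL, relIndex_comap, ← hKb, hRdef, relIndex, subgroupOf,
      comap_map_eq_self_of_injective Kb.subtype_injective, ha]
  have h2 : L₀.relIndex L = p ^ b := by
    rw [hL₀, relIndex, subgroupOf, comap_map_eq_self_of_injective L.subtype_injective, hb]
  have h3 : L₀.relIndex K₁' = p ^ (b + a) := by
    rw [← relIndex_mul_relIndex L₀ L K₁' hL₀L hLK, h1, h2, pow_add]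
  have hsup : L₀ ⊔ (P : Subgroup G) = K₁' := by
    refine le_antisymm (sup_le (hL₀L.trans hLK) hPK₁') (relIndex_eq_one.mp ?_)
    have hd1 : (L₀ ⊔ (P : Subgroup G)).relIndex K₁' ∣ p ^ (b + a) :=
      h3 ▸ relIndex_dvd_of_le_left K₁' le_sup_left
    have hd2 : (L₀ ⊔ (P : Subgroup G)).relIndex K₁' ∣ (P : Subgroup G).index :=
      (relIndex_dvd_of_le_left K₁' le_sup_right).trans
        (Dvd.intro _ (relIndex_mul_index hPK₁'))
    exact Nat.eq_one_of_dvd_coprimes (Nat.Coprime.pow_left _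
      ((Nat.Prime.coprime_iff_not_dvd hp.out).mpr P.not_dvd_index)) hd1 hd2
  refine ⟨L₀, inferInstance, ?_, ?_⟩
  · have hF := Sylow.normalizer_sup_eq_top' (p := p) (N := K₁') P hPK₁'
    change N ⊔ K₁' = ⊤ at hF
    rw [← hsup] at hF
    refine le_antisymm le_top (hF ▸ sup_le le_sup_right (sup_le le_sup_left ?_))
    exact hPN.trans le_sup_right
  · refine (eq_bot_iff_forall _).mpr fun x hx => ?_
    have hxP : x ∈ (P : Subgroup G) := hK₁N ⟨hLK (hL₀L hx.1), hx.2⟩
    obtain ⟨k, hk⟩ := (IsPGroup.iff_orderOf.mp P.2) ⟨x, hxP⟩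
    rw [Subgroup.orderOf_mk] at hk
    rcases Nat.eq_zero_or_pos k with h0 | h0
    · rwa [h0, pow_zero, orderOf_eq_one_iff] at hk
    · exfalso
      refine hL₀p ((dvd_pow_self p h0.ne').trans (hk ▸ ?_))
      exact Subgroup.orderOf_dvd_natCard L₀ hx.1

end Cfsg.Agent.SylowExtend
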