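import Cfsg.Agent.BlkChar.Major

/-!
# The bound of a 2-block by a major subsection of small rank

The argument only uses that the matrix behaves like `2 ^ d` times a projection of rank at most
three, so it applies to the contributions and to their complement.
-/

set_option autoImplicit false
set_option linter.style.haveILetI false
set_option linter.unusedSectionVars false

namespace Cfsg.Agent.BlkChar.TwoBound

open Cfsg
open Cfsg.Agent.Block Cfsg.Agent.BlkChar.Cyclo
open scoped ComplexConjugate Classical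

variable {M : Ideal AlgInt} {X : Type*} {k : ℕ}

/-- An integral matrix of cyclotomic numbers with the properties of the contributions. -/
structure IsContrib (M : Ideal AlgInt) (s : Finset X) (h : X → ℕ) (d : ℕ)
    (a : X → X → ZMod (2 ^ k) → ℤ) : Prop where
  even : ∀ x ∈ s, ∀ i, a x x (-i) = a x x i
  row : ∀ x ∈ s, ∀ j ∈ unitSet (2 ^ k),
    ∑ y ∈ s, Complex.normSq (cev (a x y) j) = (2 : ℝ) ^ d * (cev (a x x) j).re
  div : ∀ x ∈ s, ∀ y ∈ s, ∀ j ∈ unitSet (2 ^ k),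
    MemLocalRing M (cev (a x y) j / (2 : ℂ) ^ h x)
  unit : ∀ x ∈ s, ∀ y ∈ s, h y = 0 → ∀ j ∈ unitSet (2 ^ k),
    ¬ MemLocalIdeal M (cev (a x y) j / (2 : ℂ) ^ h x)
  diag : ∀ x ∈ s, 1 ≤ h x → ∀ j ∈ unitSet (2 ^ k),
    MemLocalIdeal M (cev (a x x) j / (2 : ℂ) ^ h x)

variable {s : Finset X} {h : X → ℕ} {d : ℕ} {a : X → X → ZMod (2 ^ k) → ℤ}

theorem IsContrib.re_nonneg (hA : IsContrib M s h d a) {x : X} (hx : x ∈ s) {j : ZMod (2 ^ k)}
    (hj : j ∈ unitSet (2 ^ k)) : 0 ≤ (cev (a x x) j).re := by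
  refine (mul_nonneg_iff_of_pos_left (pow_pos (two_pos (α := ℝ)) d)).1 ?_
  rw [← hA.row x hx j hj]
  exact Finset.sum_nonneg fun y _ => Complex.normSq_nonneg _

/-- The mean of a diagonal entry. -/
theorem IsContrib.exists_mean (hM : IsPModular 2 M) (hA : IsContrib M s h d a) {x x₀ : X}
    (hx : x ∈ s) (hx₀ : x₀ ∈ s) (h₀ : h x₀ = 0) :
    ∃ m : ℤ, 0 < m ∧ (∑ j ∈ unitSet (2 ^ k), (cev (a x x) j).re =
        ((unitSet (2 ^ k)).card : ℝ) * m) ∧
      (h x = 0 → ¬ 2 ∣ m) ∧ (1 ≤ h x → (2 : ℤ) ^ (h x + 1) ∣ m) := by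
  haveI : Fact (Nat.Prime 2) := ⟨Nat.prime_two⟩
  haveI : M.IsPrime := isPrime_of_isPModular hM
  obtain ⟨m, hpar, hm⟩ := unitSet_sum_cev_two (a x x) (hA.even x hx)
  set U : ℝ := ((unitSet (2 ^ k)).card : ℝ) with hUdef
  have hU : 0 < U := Nat.cast_pos.2 (unitSet_card_pos _)
  have hre : ∑ j ∈ unitSet (2 ^ k), (cev (a x x) j).re = U * m := by
    rw [← Complex.re_sum, hm]
    simp [hUdef]
  have h1 : (1 : ZMod (2 ^ k)) ∈ unitSet (2 ^ k) := mem_unitSet.2 isUnit_one
  refine ⟨m, ?_, hre, fun h0 hd2 => ?_, fun hpos => ?_⟩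
  · have hlt : 0 < ∑ j ∈ unitSet (2 ^ k), (cev (a x x) j).re := by
      refine Finset.sum_pos' (fun j hj => hA.re_nonneg hx hj) ⟨1, h1, ?_⟩
      refine (mul_pos_iff_of_pos_left (pow_pos (two_pos (α := ℝ)) d)).1 ?_
      rw [← hA.row x hx 1 h1]
      refine Finset.sum_pos' (fun y _ => Complex.normSq_nonneg _) ⟨x₀, hx₀, ?_⟩
      refine Complex.normSq_pos.2 fun hz => hA.unit x hx x₀ hx₀ h₀ 1 h1 ?_
      rw [hz, zero_div]
      exact memLocalIdeal_zero
    rw [hre] at hlt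
    exact_mod_cast (mul_pos_iff_of_pos_left hU).1 hlt
  · have hn := hA.unit x hx x hx h0 1 h1
    rw [h0, pow_zero, div_one] at hn
    apply hn
    have h2 : MemLocalIdeal M (((∑ i, a x x i : ℤ)) : ℂ) :=
      (memLocalIdeal_intCast_iff hM _).2 (by exact_mod_cast hpar.1 hd2)
    have h3 : MemLocalIdeal M (cev (a x x) 1 - (((∑ i, a x x i : ℤ)) : ℂ)) := by
      rw [cev, Int.cast_sum, ← Finset.sum_sub_distrib]
      refine memLocalIdeal_sum _ _ fun i _ => ?_
      rw [← mul_sub_one]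
      exact memLocalIdeal_mul_left (intCast_mem (localRing M) _)
        (Contrib.stdAddChar_sub_one_mem hM _)
    simpa using memLocalIdeal_add h3 h2
  · exact pow_succ_dvd_mean hM (a x x) (hA.even x hx) isUnit_one (hA.diag x hx hpos 1 h1) hm

/-- The lower bound for one entry. -/
theorem IsContrib.entry_bound (hM : IsPModular 2 M) (hA : IsContrib M s h d a) {x x₀ : X}
    (hx : x ∈ s) (hx₀ : x₀ ∈ s) (h₀ : h x₀ = 0) :
    ((unitSet (2 ^ k)).card : ℝ) * 4 ^ h x ≤
      ∑ j ∈ unitSet (2 ^ k), Complex.normSq (cev (a x x₀) j) := by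
  haveI : Fact (Nat.Prime 2) := ⟨Nat.prime_two⟩
  have h1 : (1 : ZMod (2 ^ k)) ∈ unitSet (2 ^ k) := mem_unitSet.2 isUnit_one
  haveI : M.IsPrime := isPrime_of_isPModular hM
  have hne : cev (a x x₀) 1 ≠ 0 := fun hz => hA.unit x hx x₀ hx₀ h₀ 1 h1 (by
    rw [hz, zero_div]; exact memLocalIdeal_zero)
  have := unitSet_mul_le_of_div_mem (p := 2) hM (a x x₀) isUnit_one hne
    (by exact_mod_cast hA.div x hx x₀ hx₀ 1 h1)
  rwa [pow_mul, show ((2 : ℕ) : ℝ) ^ 2 = 4 by norm_num] at this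

/-- The bound. -/
theorem IsContrib.bound (hM : IsPModular 2 M) (hA : IsContrib M s h d a)
    (hswap : ∀ x ∈ s, ∀ y ∈ s, ∀ j ∈ unitSet (2 ^ k),
      Complex.normSq (cev (a y x) j) = Complex.normSq (cev (a x y) (-j)))
    {x₀ : X} (hx₀ : x₀ ∈ s) (h₀ : h x₀ = 0)
    (htr : ∀ j ∈ unitSet (2 ^ k), ∑ x ∈ s, (cev (a x x) j).re ≤ 3 * (2 : ℝ) ^ d ∨ d = 0) :
    3 * s.card ≤ 3 * (s.filter fun x => h x = 0).card +
        2 * ∑ x ∈ s.filter (fun x => 1 ≤ h x), 2 ^ h x ∧
      3 * (s.filter fun x => h x = 0).card +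
        2 * ∑ x ∈ s.filter (fun x => 1 ≤ h x), 2 ^ h x ≤ 3 * 2 ^ d := by
  haveI : Fact (Nat.Prime 2) := ⟨Nat.prime_two⟩
  set s₀ := s.filter (fun x => h x = 0) with hs₀
  set s₁ := s.filter (fun x => 1 ≤ h x) with hs₁
  have hsplit : ∀ f : X → ℕ, ∑ x ∈ s, f x = ∑ x ∈ s₀, f x + ∑ x ∈ s₁, f x := by
    intro f
    rw [hs₀, hs₁, ← Finset.sum_filter_add_sum_filter_not s (fun x => h x = 0)]
    congr 1
    exact Finset.sum_congr (Finset.filter_congr fun x _ => by omega) fun _ _ => rfl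
  refine ⟨?_, ?_⟩
  · have hc : s.card = s₀.card + s₁.card := by simpa using hsplit fun _ => 1
    have h2 : 3 * s₁.card ≤ 2 * ∑ x ∈ s₁, 2 ^ h x := by
      rw [Finset.mul_sum, mul_comm, ← smul_eq_mul, ← Finset.sum_const]
      refine Finset.sum_le_sum fun x hx => ?_
      have : 2 ^ 1 ≤ 2 ^ h x := Nat.pow_le_pow_right two_pos (Finset.mem_filter.1 hx).2
      omega
    omega
  set U : ℝ := ((unitSet (2 ^ k)).card : ℝ) with hUdef
  have hU : 0 < U := Nat.cast_pos.2 (unitSet_card_pos _)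
  choose! m hm0 hm1 hm2 hm3 using fun x (hx : x ∈ s) => hA.exists_mean hM hx hx₀ h₀
  -- the row of a height zero member
  have hrow : ∀ x ∈ s₀, ((∑ y ∈ s, 4 ^ h y : ℕ) : ℝ) ≤ (2 : ℝ) ^ d * m x := by
    intro x hx'
    obtain ⟨hx, hx0⟩ := Finset.mem_filter.1 hx'
    refine le_of_mul_le_mul_left ?_ hU
    rw [Nat.cast_sum, Finset.mul_sum]
    calc ∑ y ∈ s, U * ((4 ^ h y : ℕ) : ℝ)
        ≤ ∑ y ∈ s, ∑ j ∈ unitSet (2 ^ k), Complex.normSq (cev (a y x) j) := by
          refine Finset.sum_le_sum fun y hy => ?_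
          push_cast
          exact hA.entry_bound hM hy hx hx0
      _ = ∑ y ∈ s, ∑ j ∈ unitSet (2 ^ k), Complex.normSq (cev (a x y) j) := by
          refine Finset.sum_congr rfl fun y hy => ?_
          refine Finset.sum_nbij' (fun j => -j) (fun j => -j) ?_ ?_ ?_ ?_ ?_
          · intro j hj; exact mem_unitSet.2 (mem_unitSet.1 hj).neg
          · intro j hj; exact mem_unitSet.2 (mem_unitSet.1 hj).neg
          · intro j _; simp
          · intro j _; simp
          · intro j hj; exact hswap x hx y hy j hj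
      _ = ∑ j ∈ unitSet (2 ^ k), (2 : ℝ) ^ d * (cev (a x x) j).re := by
          rw [Finset.sum_comm]
          exact Finset.sum_congr rfl fun j hj => hA.row x hx j hj
      _ = U * ((2 : ℝ) ^ d * m x) := by rw [← Finset.mul_sum, hm1 x hx]; ring
  by_cases hone : ∃ x ∈ s₀, m x = 1
  · obtain ⟨x, hx, hmx⟩ := hone
    have hb := hrow x hx
    rw [hmx, Int.cast_one, mul_one] at hb
    have hb' : ∑ y ∈ s, 4 ^ h y ≤ 2 ^ d := by exact_mod_cast hb
    rw [hsplit, Finset.sum_congr rfl (g := fun _ => 1) (s₁ := s₀) (fun y hy => by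
      rw [(Finset.mem_filter.1 hy).2, pow_zero]), Finset.sum_const, smul_eq_mul, mul_one] at hb'
    have h2 : ∑ x ∈ s₁, 2 ^ h x ≤ ∑ x ∈ s₁, 4 ^ h x :=
      Finset.sum_le_sum fun x _ => Nat.pow_le_pow_left (by norm_num) _
    omega
  · push Not at hone
    -- defect zero forces a mean one
    have hd : d ≠ 0 := by
      intro hd
      have hmem : x₀ ∈ s₀ := Finset.mem_filter.2 ⟨hx₀, h₀⟩
      refine hone x₀ hmem (le_antisymm ?_ (hm0 x₀ hx₀))
      have hle : ∀ j ∈ unitSet (2 ^ k), (cev (a x₀ x₀) j).re ≤ 1 := by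
        intro j hj
        have h5 := hA.row x₀ hx₀ j hj
        rw [hd, pow_zero, one_mul] at h5
        have h4 : (cev (a x₀ x₀) j).re ^ 2 ≤ (cev (a x₀ x₀) j).re := by
          refine le_trans ?_ (le_of_eq h5)
          refine le_trans ?_ (Finset.single_le_sum
            (f := fun y => Complex.normSq (cev (a x₀ y) j))
            (fun y _ => Complex.normSq_nonneg _) hx₀)
          rw [Complex.normSq_apply]
          nlinarith [mul_self_nonneg (cev (a x₀ x₀) j).im]
        by_contra hc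
        push Not at hc
        nlinarith
      have h6 := Finset.sum_le_sum hle
      rw [hm1 x₀ hx₀, Finset.sum_const, nsmul_eq_mul, mul_one] at h6
      exact_mod_cast le_of_mul_le_mul_left (h6.trans_eq (mul_one U).symm) hU
    have h3 : ∀ x ∈ s₀, (3 : ℤ) ≤ m x := by
      intro x hx
      have h1 := hm2 x (Finset.mem_filter.1 hx).1 (Finset.mem_filter.1 hx).2
      have h2 := hm0 x (Finset.mem_filter.1 hx).1
      have h4 := hone x hx
      omega
    have h4 : ∀ x ∈ s₁, (2 : ℤ) ^ (h x + 1) ≤ m x := fun x hx =>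
      Int.le_of_dvd (hm0 x (Finset.mem_filter.1 hx).1)
        (hm3 x (Finset.mem_filter.1 hx).1 (Finset.mem_filter.1 hx).2)
    have hsum : ((∑ x ∈ s, m x : ℤ) : ℝ) ≤ 3 * (2 : ℝ) ^ d := by
      refine le_of_mul_le_mul_left ?_ hU
      rw [Int.cast_sum, Finset.mul_sum, ← Finset.sum_congr rfl hm1, Finset.sum_comm]
      refine (Finset.sum_le_card_nsmul _ _ _ fun j hj => (htr j hj).resolve_right hd).trans_eq ?_
      rw [nsmul_eq_mul]
    have hsum' : ∑ x ∈ s, m x ≤ 3 * 2 ^ d := by exact_mod_cast hsum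
    have hsp : ∑ x ∈ s, m x = ∑ x ∈ s₀, m x + ∑ x ∈ s₁, m x := by
      rw [hs₀, hs₁, ← Finset.sum_filter_add_sum_filter_not s (fun x => h x = 0)]
      congr 1
      exact Finset.sum_congr (Finset.filter_congr fun x _ => by omega) fun _ _ => rfl
    have h5 := Finset.card_nsmul_le_sum s₀ m 3 h3
    have h6 := Finset.sum_le_sum h4
    rw [nsmul_eq_mul] at h5
    have h7 : ∑ x ∈ s₁, (2 : ℤ) ^ (h x + 1) = 2 * ((∑ x ∈ s₁, 2 ^ h x : ℕ) : ℤ) := by
      push_cast
      rw [Finset.mul_sum]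
      exact Finset.sum_congr rfl fun x _ => pow_succ' 2 _
    have h8 : ((3 * s₀.card + 2 * ∑ x ∈ s₁, 2 ^ h x : ℕ) : ℤ) ≤ ((3 * 2 ^ d : ℕ) : ℤ) := by
      rw [h7] at h6
      push_cast at h6 ⊢
      linarith
    exact_mod_cast h8

theorem two_pow_div {m n : ℕ} (h : n ≤ m) : (2 : ℂ) ^ m / (2 : ℂ) ^ n = (2 : ℂ) ^ (m - n) := by
  rw [div_eq_iff (pow_ne_zero n two_ne_zero), ← pow_add, Nat.sub_add_cancel h]

/-- The complementary matrix. -/
noncomputable def compl (d : ℕ) (a : X → X → ZMod (2 ^ k) → ℤ) (x y : X) : ZMod (2 ^ k) → ℤ :=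
  fun i => (if x = y ∧ i = 0 then (2 : ℤ) ^ d else 0) - a x y i

theorem cev_compl (d : ℕ) (a : X → X → ZMod (2 ^ k) → ℤ) (x y : X) (j : ZMod (2 ^ k)) :
    cev (compl d a x y) j = (if x = y then (2 : ℂ) ^ d else 0) - cev (a x y) j := by
  simp only [cev, compl, Int.cast_sub, sub_mul, Finset.sum_sub_distrib]
  congr 1
  by_cases hxy : x = y
  · simp [hxy, apply_ite ((↑) : ℤ → ℂ)]
  · simp [hxy]

theorem IsContrib.compl (hM : IsPModular 2 M) (hA : IsContrib M s h d a) (hd : d ≠ 0)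
    (hreal : ∀ x ∈ s, ∀ j ∈ unitSet (2 ^ k), (cev (a x x) j).im = 0)
    {x₀ : X} (hx₀ : x₀ ∈ s) (h₀ : h x₀ = 0) (hle : ∀ x ∈ s, h x ≤ d) :
    IsContrib M s h d (TwoBound.compl d a) := by
  haveI : Fact (Nat.Prime 2) := ⟨Nat.prime_two⟩
  haveI : M.IsPrime := isPrime_of_isPModular hM
  have h2pow : ∀ n : ℕ, MemLocalRing M ((2 : ℂ) ^ n) := fun n =>
    (localRing M).pow_mem (by exact_mod_cast natCast_mem (localRing M) 2) n
  have h2 : MemLocalIdeal M (2 : ℂ) := by
    have h4 : MemLocalIdeal M (((2 : ℤ)) : ℂ) := (memLocalIdeal_intCast_iff hM _).2 (by norm_num)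
    simpa using h4
  have hdiv : ∀ x ∈ s, MemLocalRing M ((2 : ℂ) ^ d / (2 : ℂ) ^ h x) := by
    intro x hx
    rw [two_pow_div (hle x hx)]
    exact h2pow _
  have hlt : ∀ x ∈ s, 1 ≤ h x → h x < d := by
    intro x hx hpos
    refine lt_of_le_of_ne (hle x hx) fun he => ?_
    obtain ⟨m, hm0, hm1, -, hm3⟩ := hA.exists_mean hM hx hx₀ h₀
    set U : ℝ := ((unitSet (2 ^ k)).card : ℝ)
    have hU : 0 < U := Nat.cast_pos.2 (unitSet_card_pos _)
    have hb : ∀ j ∈ unitSet (2 ^ k), (cev (a x x) j).re ≤ (2 : ℝ) ^ d := by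
      intro j hj
      have h4 : (cev (a x x) j).re ^ 2 ≤ (2 : ℝ) ^ d * (cev (a x x) j).re := by
        refine le_trans ?_ (le_of_eq (hA.row x hx j hj))
        refine le_trans ?_ (Finset.single_le_sum (f := fun y => Complex.normSq (cev (a x y) j))
          (fun y _ => Complex.normSq_nonneg _) hx)
        rw [Complex.normSq_apply]
        nlinarith [mul_self_nonneg (cev (a x x) j).im]
      have := pow_pos (two_pos (α := ℝ)) d
      by_contra hc
      push Not at hc
      nlinarith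
    have h5 := Finset.sum_le_sum hb
    rw [hm1, Finset.sum_const, nsmul_eq_mul] at h5
    have h6 : ((m : ℤ) : ℝ) ≤ (((2 : ℤ) ^ d : ℤ) : ℝ) := by
      push_cast
      exact le_of_mul_le_mul_left h5 hU
    have h7 := Int.le_of_dvd hm0 (hm3 hpos)
    rw [he, pow_succ] at h7
    have h8 : m ≤ (2 : ℤ) ^ d := by exact_mod_cast h6
    have : (0 : ℤ) < 2 ^ d := pow_pos two_pos d
    omega
  constructor
  · intro x hx i
    simp [TwoBound.compl, hA.even x hx i]
  · intro x hx j hj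
    have e : ∀ y, Complex.normSq (cev (TwoBound.compl d a x y) j) =
        Complex.normSq (cev (a x y) j) +
          (if x = y then ((2 : ℝ) ^ d) ^ 2 - 2 * (2 : ℝ) ^ d * (cev (a x x) j).re else 0) := by
      intro y
      rw [cev_compl]
      split_ifs with hxy
      · subst hxy
        rw [show ((2 : ℂ) ^ d) = (((2 : ℝ) ^ d : ℝ) : ℂ) by push_cast; rfl]
        simp only [Complex.normSq_apply, Complex.sub_re, Complex.sub_im, Complex.ofReal_re,
          Complex.ofReal_im]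
        ring
      · simp
    rw [Finset.sum_congr rfl fun y _ => e y, Finset.sum_add_distrib, hA.row x hx j hj,
      Finset.sum_ite_eq, if_pos hx, cev_compl, if_pos rfl, Complex.sub_re,
      show ((2 : ℂ) ^ d) = (((2 : ℝ) ^ d : ℝ) : ℂ) by push_cast; rfl, Complex.ofReal_re]
    ring
  · intro x hx y hy j hj
    rw [cev_compl, sub_div]
    refine (localRing M).sub_mem ?_ (hA.div x hx y hy j hj)
    split_ifs
    · exact hdiv x hx
    · rw [zero_div]; exact (localRing M).zero_mem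
  · intro x hx y hy hy0 j hj hmem
    apply hA.unit x hx y hy hy0 j hj
    rw [cev_compl, sub_div] at hmem
    have h3 : MemLocalIdeal M ((if x = y then (2 : ℂ) ^ d else 0) / (2 : ℂ) ^ h x) := by
      split_ifs with hxy
      · subst hxy
        rw [hy0, pow_zero, div_one]
        obtain ⟨t, ht⟩ := Nat.exists_eq_succ_of_ne_zero hd
        rw [ht, pow_succ]
        exact memLocalIdeal_mul_left (h2pow t) h2
      · rw [zero_div]; exact memLocalIdeal_zero
    simpa using memLocalIdeal_sub h3 hmem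
  · intro x hx hpos j hj
    rw [cev_compl, if_pos rfl, sub_div]
    refine memLocalIdeal_sub ?_ (hA.diag x hx hpos j hj)
    rw [two_pow_div (hle x hx)]
    obtain ⟨t, ht⟩ := Nat.exists_eq_add_of_lt (hlt x hx hpos)
    rw [ht, show h x + t + 1 - h x = t + 1 by omega, pow_succ]
    exact memLocalIdeal_mul_left (h2pow t) h2

end Cfsg.Agent.BlkChar.TwoBound
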