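import Cfsg.Agent.BlkChar.TwoBound

/-!
# Major subsections of a 2-block
-/

set_option autoImplicit false
set_option linter.style.haveILetI false
set_option linter.unusedSectionVars false

namespace Cfsg.Agent.BlkChar.TwoBound

open Cfsg
open Cfsg.Agent.Block Cfsg.Agent.BlkChar.Cyclo Cfsg.Agent.BlkChar.Contrib
open scoped ComplexConjugate Classical

universe v

variable {G : Type v} [Group G] [Fintype G] {M : Ideal AlgInt}
  {C : Subgroup G} [Fintype C] {u : G} {k : ℕ}

/-- The members of `B` as a finite set. -/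
noncomputable def memSet (B : Set (IrrCharacter G)) : Finset (IrrCharacter G) :=
  Finset.univ.filter (· ∈ B)

theorem mem_memSet {B : Set (IrrCharacter G)} {χ : IrrCharacter G} : χ ∈ memSet B ↔ χ ∈ B := by
  simp [memSet]

theorem isContrib_coefA (hM : IsPModular 2 M) (hS : IsSection 2 k u C)
    {B : Set (IrrCharacter G)} {b : Set (IrrCharacter C)} (hind : IsInducedBlock M C b B)
    (hd : blockDefect 2 b = blockDefect 2 B) :
    IsContrib M (memSet B) (fun χ => blockHeight 2 B (χ : G → ℂ)) (blockDefect 2 B)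
      (coefA hS b) := by
  haveI : Fact (Nat.Prime 2) := ⟨Nat.prime_two⟩
  constructor
  · exact fun χ _ i => coefA_neg hS b χ i
  · intro χ _ j hj
    have h := congrArg Complex.re (sum_normSq_cM_block hS hM hind χ (mem_unitSet.1 hj))
    rw [Complex.re_sum, hd, Nat.cast_pow,
      show (((2 : ℕ) : ℂ) ^ blockDefect 2 B) = (((2 : ℝ) ^ blockDefect 2 B : ℝ) : ℂ) by
        push_cast; rfl, Complex.re_ofReal_mul] at h
    simp only [Complex.ofReal_re] at h
    simp only [← cM_eq_cev, memSet]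
    exact h
  · intro χ hχ ψ _ j hj
    rw [← cM_eq_cev]
    exact_mod_cast cM_div_mem hS hM hind.1 hd (mem_memSet.1 hχ) ψ (mem_unitSet.1 hj)
  · intro χ hχ ψ hψ h0 j hj
    rw [← cM_eq_cev]
    exact_mod_cast cM_div_not_mem hS hM hind hd (mem_memSet.1 hχ) (mem_memSet.1 hψ) h0
      (mem_unitSet.1 hj)
  · intro χ hχ hpos j hj
    rw [← cM_eq_cev]
    exact_mod_cast cM_self_div_mem hS hM hind hd (mem_memSet.1 hχ) hpos (mem_unitSet.1 hj)

theorem finsum_eq_sum (B : Set (IrrCharacter G)) :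
    ∑ᶠ χ ∈ {χ : IrrCharacter G | χ ∈ B ∧ 1 ≤ blockHeight 2 B (χ : G → ℂ)},
        2 ^ blockHeight 2 B (χ : G → ℂ) =
      ∑ χ ∈ (memSet B).filter (fun χ : IrrCharacter G => 1 ≤ blockHeight 2 B (χ : G → ℂ)),
        2 ^ blockHeight 2 B (χ : G → ℂ) := by
  rw [finsum_mem_eq_toFinset_sum]
  exact Finset.sum_congr (by ext; simp [mem_memSet]) fun _ _ => rfl

theorem card_zero_eq (B : Set (IrrCharacter G)) :
    Nat.card {χ : IrrCharacter G // χ ∈ B ∧ blockHeight 2 B (χ : G → ℂ) = 0} =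
      ((memSet B).filter (fun χ : IrrCharacter G => blockHeight 2 B (χ : G → ℂ) = 0)).card := by
  rw [Nat.card_eq_fintype_card, Fintype.card_subtype, memSet, Finset.filter_filter]

theorem card_memSet (B : Set (IrrCharacter G)) : Nat.card B = (memSet B).card := by
  rw [Nat.card_eq_fintype_card, Fintype.card_subtype, memSet]

/-- The bound, for `l ≤ 3` or `k(B) ≤ l + 3`. -/
theorem major_bound (hM : IsPModular 2 M) (hS : IsSection 2 k u C)
    {B : Set (IrrCharacter G)} {b : Set (IrrCharacter C)} (hind : IsInducedBlock M C b B)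
    (hd : blockDefect 2 b = blockDefect 2 B)
    (hl : blockRank 2 b ≤ 3 ∨ Nat.card B ≤ blockRank 2 b + 3) :
    3 * Nat.card B ≤
        3 * Nat.card {χ : IrrCharacter G // χ ∈ B ∧ blockHeight 2 B (χ : G → ℂ) = 0} +
        2 * (∑ᶠ χ ∈ {χ : IrrCharacter G | χ ∈ B ∧ 1 ≤ blockHeight 2 B (χ : G → ℂ)},
          2 ^ blockHeight 2 B (χ : G → ℂ)) ∧
      3 * Nat.card {χ : IrrCharacter G // χ ∈ B ∧ blockHeight 2 B (χ : G → ℂ) = 0} +
        2 * (∑ᶠ χ ∈ {χ : IrrCharacter G | χ ∈ B ∧ 1 ≤ blockHeight 2 B (χ : G → ℂ)},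
          2 ^ blockHeight 2 B (χ : G → ℂ)) ≤ 3 * 2 ^ blockDefect 2 B := by
  haveI : Fact (Nat.Prime 2) := ⟨Nat.prime_two⟩
  haveI : M.IsPrime := isPrime_of_isPModular hM
  rw [card_zero_eq, finsum_eq_sum, card_memSet]
  have hA := isContrib_coefA hM hS hind hd
  obtain ⟨χ₀, hχ₀, h₀⟩ := BlockVal.exists_height_zero (p := 2) (pBlock_nonempty hind.2.1)
  have hswap : ∀ x y : IrrCharacter G, ∀ j : ZMod (2 ^ k),
      cev (coefA hS b y x) j = cev (coefA hS b x y) (-j) := by
    intro x y j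
    rw [← cM_eq_cev, ← cM_eq_cev, cM_swap]
  have htr : ∀ j ∈ unitSet (2 ^ k), ∑ χ ∈ memSet B, (cev (coefA hS b χ χ) j).re =
      (2 : ℝ) ^ blockDefect 2 B * (blockRank 2 b : ℝ) := by
    intro j hj
    have h := congrArg Complex.re (sum_cM_diag_block hS hM hind (mem_unitSet.1 hj))
    rw [Complex.re_sum, hd, Nat.cast_pow,
      show (((2 : ℕ) : ℂ) ^ blockDefect 2 B) * (blockRank 2 b : ℂ) =
        (((2 : ℝ) ^ blockDefect 2 B * (blockRank 2 b : ℝ) : ℝ) : ℂ) by push_cast; rfl,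
      Complex.ofReal_re] at h
    simp only [← cM_eq_cev, memSet]
    exact h
  have hpow : (0 : ℝ) ≤ (2 : ℝ) ^ blockDefect 2 B := by positivity
  rcases Decidable.em (blockRank 2 b ≤ 3 ∨ blockDefect 2 B = 0) with hc | hc
  · refine hA.bound hM (fun x _ y _ j _ => by rw [hswap]) (mem_memSet.2 hχ₀) h₀ fun j hj => ?_
    rcases hc with hc | hc
    · refine Or.inl ?_
      rw [htr j hj, mul_comm (3 : ℝ)]
      exact mul_le_mul_of_nonneg_left (by exact_mod_cast hc) hpow
    · exact Or.inr hc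
  · push Not at hc
    have hk := hl.resolve_left (not_le.2 hc.1)
    have hle : ∀ χ ∈ memSet B, blockHeight 2 B (χ : G → ℂ) ≤ blockDefect 2 B := by
      intro χ hχ
      have h1 := degree_factorization (p := 2) (mem_memSet.1 hχ)
      have h2 := BlockVal.factorization_degree_le 2 χ
      omega
    have hreal : ∀ χ ∈ memSet B, ∀ j ∈ unitSet (2 ^ k), (cev (coefA hS b χ χ) j).im = 0 := by
      intro χ _ j _
      obtain ⟨r, -, hr⟩ := cM_self hS b χ j
      rw [← cM_eq_cev, hr, Complex.ofReal_im]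
    have hA' := hA.compl hM hc.2 hreal (mem_memSet.2 hχ₀) h₀ hle
    refine hA'.bound hM (fun x _ y _ j _ => ?_) (mem_memSet.2 hχ₀) h₀ fun j hj => Or.inl ?_
    · rw [cev_compl, cev_compl, hswap]
      by_cases hxy : x = y
      · subst hxy; simp
      · simp [hxy, Ne.symm hxy]
    · simp only [cev_compl, if_pos, Complex.sub_re, Finset.sum_sub_distrib, Finset.sum_const,
        nsmul_eq_mul, htr j hj]
      rw [show ((2 : ℂ) ^ blockDefect 2 B) = (((2 : ℝ) ^ blockDefect 2 B : ℝ) : ℂ) by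
        push_cast; rfl, Complex.ofReal_re, ← card_memSet, mul_comm ((Nat.card B : ℕ) : ℝ), ← mul_sub,
        mul_comm (3 : ℝ)]
      refine mul_le_mul_of_nonneg_left ?_ hpow
      have hk' : ((Nat.card B : ℕ) : ℝ) ≤ ((blockRank 2 b + 3 : ℕ) : ℝ) := Nat.cast_le.2 hk
      push_cast at hk'
      linarith

end Cfsg.Agent.BlkChar.TwoBound
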