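import Cfsg.Agent.Char.PermChar
import Mathlib.GroupTheory.GroupAction.Embedding
import Mathlib.GroupTheory.GroupAction.SubMulAction.Combination

/-!
# The constituents of the action on pairs of a quadruply transitive group
-/

set_option autoImplicit false
set_option linter.style.haveILetI false
set_option linter.unusedSectionVars false

namespace Cfsg.Agent.BlkChar.TwoSet

open Cfsg MulAction
open Cfsg.Agent.Char
open scoped Classical ComplexConjugate

universe u v w

variable {G : Type u} [Group G] {X : Type v} [MulAction G X]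

/-- Orbit count from a complete invariant. -/
theorem card_orbits_eq {Z : Type w} [MulAction G Z] {K : Type*} [Fintype K] (q : Z → K)
    (hinv : ∀ (g : G) z, q (g • z) = q z) (hsur : Function.Surjective q)
    (hsame : ∀ z z', q z = q z' → ∃ g : G, g • z = z') :
    Nat.card (Quotient (orbitRel G Z)) = Fintype.card K := by
  let f : Quotient (orbitRel G Z) → K := fun c => Quotient.liftOn c q (by
    rintro a b ⟨g, rfl⟩
    exact hinv g b)
  rw [← Nat.card_eq_fintype_card]
  refine Nat.card_eq_of_bijective f ⟨?_, fun k => ?_⟩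
  · intro a b h
    induction a using Quotient.inductionOn with | _ a =>
    induction b using Quotient.inductionOn with | _ b =>
    obtain ⟨g, hg⟩ := hsame b a (h : q a = q b).symm
    exact Quotient.sound ⟨g, hg⟩
  · obtain ⟨z, rfl⟩ := hsur k
    exact ⟨⟦z⟧, rfl⟩

variable [Finite X] [DecidableEq X]

/-- Tuples with the same equalities lie in one orbit. -/
theorem move (h4 : IsMultiplyPretransitive G X 4) (hX : 4 ≤ Nat.card X) {k : ℕ} (hk : k ≤ 4)
    (v v' : Fin k → X) (h : ∀ i j, v i = v j ↔ v' i = v' j) :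
    ∃ g : G, ∀ i, g • v i = v' i := by
  obtain ⟨S, hS⟩ : ∃ S : Finset X, S = Finset.univ.image v := ⟨_, rfl⟩
  have hmem : ∀ x : S, ∃ i, v i = (x : X) := fun x => by
    have hx : (x : X) ∈ Finset.univ.image v := by rw [← hS]; exact x.2
    obtain ⟨i, -, hi⟩ := Finset.mem_image.1 hx
    exact ⟨i, hi⟩
  choose idx hidx using hmem
  have hm : S.card ≤ 4 := by rw [hS]; exact Finset.card_image_le.trans (by simpa using hk)
  have hpre : IsMultiplyPretransitive G X S.card :=
    haveI := h4
    isMultiplyPretransitive_of_le hm hX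
  rw [isMultiplyPretransitive_iff] at hpre
  let e : Fin S.card ≃ S := S.equivFin.symm
  obtain ⟨g, hg⟩ := hpre ⟨fun j => (e j : X), Subtype.val_injective.comp e.injective⟩
    ⟨fun j => v' (idx (e j)), fun a b hab => e.injective (Subtype.ext (by
      rw [← hidx (e a), ← hidx (e b)]; exact (h _ _).2 hab))⟩
  refine ⟨g, fun i => ?_⟩
  let x : S := ⟨v i, by rw [hS]; exact Finset.mem_image_of_mem _ (Finset.mem_univ i)⟩
  have h1 := DFunLike.congr_fun hg (e.symm x)
  simp only [Function.Embedding.smul_apply, Function.Embedding.coeFn_mk, e.apply_symm_apply] at h1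
  rw [h1]
  exact (h _ _).1 (by rw [hidx, e.apply_symm_apply])

/-- Ordered pairs of distinct points. -/
abbrev Q (X : Type v) := Fin 2 ↪ X

/-- Sets of two points. -/
abbrev R (X : Type v) := Set.powersetCard X 2

theorem exists_pair (s : R X) : ∃ a b : X, a ≠ b ∧ (s : Finset X) = {a, b} :=
  Finset.card_eq_two.1 s.2

/-- An ordered pair as an embedding. -/
def mkQ (a b : X) (h : a ≠ b) : Q X :=
  ⟨![a, b], by intro i j; fin_cases i <;> fin_cases j <;> simp [h, h.symm]⟩

@[simp] theorem mkQ_zero (a b : X) (h : a ≠ b) : mkQ a b h 0 = a := rfl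

@[simp] theorem mkQ_one (a b : X) (h : a ≠ b) : mkQ a b h 1 = b := rfl

theorem symm_iff {α : Type*} {a b c d : α} (h : a = b ↔ c = d) : b = a ↔ d = c := by
  rw [eq_comm, h, eq_comm]

/-- The set of an embedded pair. -/
noncomputable def setOf' (a b : X) (h : a ≠ b) : R X := ⟨{a, b}, Finset.card_pair h⟩

theorem smul_set_eq {g : G} {s t : R X} {a b a' b' : X} (hs : (s : Finset X) = {a, b})
    (ht : (t : Finset X) = {a', b'}) (ha : g • a = a') (hb : g • b = b') : g • s = t :=
  Subtype.ext (by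
    rw [Set.powersetCard.coe_smul, hs, ht]
    simp [Finset.smul_finset_insert, Finset.smul_finset_singleton, ha, hb])

theorem mem_smul_iff (g : G) (s : R X) (x : X) :
    g • x ∈ ((g • s : R X) : Finset X) ↔ x ∈ (s : Finset X) := by
  rw [Set.powersetCard.coe_smul, Finset.smul_mem_smul_finset_iff]

theorem other (s : R X) {a : X} (ha : a ∈ (s : Finset X)) :
    ∃ c, c ≠ a ∧ (s : Finset X) = {a, c} := by
  obtain ⟨x, y, hxy, hs⟩ := exists_pair s
  rw [hs] at ha
  rcases Finset.mem_insert.1 ha with rfl | h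
  · exact ⟨y, hxy.symm, hs⟩
  · obtain rfl := Finset.mem_singleton.1 h
    exact ⟨x, hxy, by rw [hs, Finset.pair_comm]⟩

variable (h4 : IsMultiplyPretransitive G X 4) (hX : 4 ≤ Nat.card X)
include h4 hX

theorem exists_four_points : ∃ a b c d : X, a ≠ b ∧ a ≠ c ∧ a ≠ d ∧ b ≠ c ∧ b ≠ d ∧ c ≠ d := by
  haveI := Fintype.ofFinite X
  obtain ⟨f⟩ := Function.Embedding.nonempty_of_card_le
    (show Fintype.card (Fin 4) ≤ Fintype.card X by
      rwa [Fintype.card_fin, ← Nat.card_eq_fintype_card])
  exact ⟨f 0, f 1, f 2, f 3, by simp, by simp, by simp, by simp, by simp, by simp⟩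

theorem orb_X : Nat.card (Quotient (orbitRel G X)) = 1 := by
  obtain ⟨a, -⟩ := exists_four_points h4 hX
  refine card_orbits_eq (K := Unit) (fun _ => ()) (fun _ _ => rfl) (fun _ => ⟨a, rfl⟩) ?_
  intro x y _
  obtain ⟨g, hg⟩ := move h4 hX (k := 1) (by omega) ![x] ![y] (by
    intro i j; fin_cases i; fin_cases j; simp)
  exact ⟨g, hg 0⟩

theorem orb_Q : Nat.card (Quotient (orbitRel G (Q X))) = 1 := by
  obtain ⟨a, b, -, -, hab, -⟩ := exists_four_points h4 hX
  refine card_orbits_eq (K := Unit) (fun _ => ()) (fun _ _ => rfl)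
    (fun _ => ⟨mkQ a b hab, rfl⟩) ?_
  intro x y _
  obtain ⟨g, hg⟩ := move h4 hX (k := 2) (by omega) x y (fun i j => by simp)
  exact ⟨g, by ext i; exact hg i⟩

theorem orb_R : Nat.card (Quotient (orbitRel G (R X))) = 1 := by
  obtain ⟨a, b, -, -, hab, -⟩ := exists_four_points h4 hX
  refine card_orbits_eq (K := Unit) (fun _ => ()) (fun _ _ => rfl)
    (fun _ => ⟨setOf' a b hab, rfl⟩) ?_
  intro x y _
  obtain ⟨a, b, hab, hx⟩ := exists_pair x
  obtain ⟨c, d, hcd, hy⟩ := exists_pair y
  obtain ⟨g, hg⟩ := move h4 hX (k := 2) (by omega) ![a, b] ![c, d] (by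
    intro i j; fin_cases i <;> fin_cases j <;> simp [hab, hcd, hab.symm, hcd.symm])
  exact ⟨g, smul_set_eq hx hy (hg 0) (hg 1)⟩

theorem orb_XX : Nat.card (Quotient (orbitRel G (X × X))) = 2 := by
  obtain ⟨a, b, -, -, hab, -⟩ := exists_four_points h4 hX
  refine Eq.trans (card_orbits_eq (K := Bool) (fun z => decide (z.1 = z.2)) (fun g z => by simp)
    (fun t => by cases t; exacts [⟨(a, b), by simp [hab]⟩, ⟨(a, a), by simp⟩]) ?_) (by simp)
  rintro ⟨x, y⟩ ⟨x', y'⟩ h
  simp only [decide_eq_decide] at h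
  obtain ⟨g, hg⟩ := move h4 hX (k := 2) (by omega) ![x, y] ![x', y'] (by
    intro i j; fin_cases i <;> fin_cases j <;> simp [h, symm_iff h])
  exact ⟨g, Prod.ext (hg 0) (hg 1)⟩

/-- The position of a point relative to an ordered pair. -/
noncomputable def pos (p : Q X) (x : X) : Fin 3 := if x = p 0 then 0 else if x = p 1 then 1 else 2

omit h4 hX in
theorem pos_smul (g : G) (p : Q X) (x : X) : pos (g • p) (g • x) = pos p x := by
  simp [pos, Function.Embedding.smul_apply]

omit h4 hX in
theorem pos_eq_iff {p p' : Q X} {x x' : X} :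
    pos p x = pos p' x' ↔ (x = p 0 ↔ x' = p' 0) ∧ (x = p 1 ↔ x' = p' 1) := by
  have h01 : p 0 ≠ p 1 := by simp
  have h01' : p' 0 ≠ p' 1 := by simp
  unfold pos
  by_cases a : x = p 0 <;> by_cases b : x = p 1 <;> by_cases a' : x' = p' 0 <;>
    by_cases b' : x' = p' 1 <;> simp_all

theorem orb_QX : Nat.card (Quotient (orbitRel G (Q X × X))) = 3 := by
  obtain ⟨a, b, c, -, hab, hac, -, hbc, -⟩ := exists_four_points h4 hX
  let p : Q X := mkQ a b hab
  refine Eq.trans (card_orbits_eq (K := Fin 3) (fun z => pos z.1 z.2) (fun g z => pos_smul g z.1 z.2)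
    (fun t => by
      fin_cases t
      · exact ⟨(p, a), by simp [pos, p]⟩
      · exact ⟨(p, b), by simp [pos, p, hab.symm]⟩
      · exact ⟨(p, c), by simp [pos, p, hac.symm, hbc.symm]⟩) ?_) (by simp)
  rintro ⟨p, x⟩ ⟨p', x'⟩ h
  obtain ⟨h0, h1⟩ := pos_eq_iff.1 h
  obtain ⟨g, hg⟩ := move h4 hX (k := 3) (by omega) ![p 0, p 1, x] ![p' 0, p' 1, x'] (by
    intro i j; fin_cases i <;> fin_cases j <;>
      simp [h0, h1, symm_iff h0, symm_iff h1])
  refine ⟨g, Prod.ext ?_ (hg 2)⟩
  ext i; fin_cases i; exacts [hg 0, hg 1]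

theorem orb_QQ : Nat.card (Quotient (orbitRel G (Q X × Q X))) = 7 := by
  obtain ⟨a, b, c, d, hab, hac, had, hbc, hbd, hcd⟩ := exists_four_points h4 hX
  let S : Finset (Fin 3 × Fin 3) := {(0,1),(1,0),(0,2),(2,0),(1,2),(2,1),(2,2)}
  have hS : ∀ (p q : Q X), (pos p (q 0), pos p (q 1)) ∈ S := by
    intro p q
    have h01 : q 0 ≠ q 1 := by simp
    unfold pos
    split_ifs <;> simp_all [S]
  let mk : ∀ x y : X, x ≠ y → Q X := mkQ
  refine Eq.trans (card_orbits_eq (fun z => (⟨_, hS z.1 z.2⟩ : S))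
    (fun g z => Subtype.ext (by simp [← pos_smul g z.1, Function.Embedding.smul_apply]))
    (fun t => by
      obtain ⟨t, ht⟩ := t
      simp only [S, Finset.mem_insert, Finset.mem_singleton] at ht
      rcases ht with rfl | rfl | rfl | rfl | rfl | rfl | rfl
      · exact ⟨(mk a b hab, mk a b hab), by simp [pos, mk, hab.symm]⟩
      · exact ⟨(mk a b hab, mk b a hab.symm), by simp [pos, mk, hab.symm]⟩
      · exact ⟨(mk a b hab, mk a c hac), by simp [pos, mk, hac.symm, hbc.symm]⟩
      · exact ⟨(mk a b hab, mk c a hac.symm), by simp [pos, mk, hac.symm, hbc.symm]⟩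
      · exact ⟨(mk a b hab, mk b c hbc), by simp [pos, mk, hab.symm, hac.symm, hbc.symm]⟩
      · exact ⟨(mk a b hab, mk c b hbc.symm), by simp [pos, mk, hab.symm, hac.symm, hbc.symm]⟩
      · exact ⟨(mk a b hab, mk c d hcd),
          by simp [pos, mk, hac.symm, hbc.symm, had.symm, hbd.symm]⟩) ?_) (by rw [Fintype.card_coe]; rfl)
  rintro ⟨p, q⟩ ⟨p', q'⟩ h
  simp only [Subtype.mk.injEq, Prod.mk.injEq] at h
  obtain ⟨⟨h0, h1⟩, ⟨h2, h3⟩⟩ := h.imp pos_eq_iff.1 pos_eq_iff.1
  obtain ⟨g, hg⟩ := move h4 hX (k := 4) le_rfl ![p 0, p 1, q 0, q 1] ![p' 0, p' 1, q' 0, q' 1] (by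
    intro i j; fin_cases i <;> fin_cases j <;>
      simp [h0, h1, h2, h3, symm_iff h0, symm_iff h1, symm_iff h2, symm_iff h3])
  refine ⟨g, Prod.ext ?_ ?_⟩
  · ext i; fin_cases i; exacts [hg 0, hg 1]
  · ext i; fin_cases i; exacts [hg 2, hg 3]

theorem orb_RX : Nat.card (Quotient (orbitRel G (R X × X))) = 2 := by
  obtain ⟨a, b, c, -, hab, hac, -, hbc, -⟩ := exists_four_points h4 hX
  refine Eq.trans (card_orbits_eq (K := Bool) (fun z => decide (z.2 ∈ (z.1 : Finset X)))
    (fun g z => by simp [mem_smul_iff])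
    (fun t => by
      cases t
      exacts [⟨(setOf' a b hab, c), by simp [setOf', hac.symm, hbc.symm]⟩,
        ⟨(setOf' a b hab, a), by simp [setOf']⟩]) ?_) (by simp)
  rintro ⟨s, x⟩ ⟨s', x'⟩ h
  simp only [decide_eq_decide] at h
  by_cases hx : x ∈ (s : Finset X)
  · obtain ⟨c, hc, hs⟩ := other s hx
    obtain ⟨c', hc', hs'⟩ := other s' (h.1 hx)
    obtain ⟨g, hg⟩ := move h4 hX (k := 2) (by omega) ![x, c] ![x', c'] (by
      intro i j; fin_cases i <;> fin_cases j <;> simp [hc, hc', hc.symm, hc'.symm])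
    exact ⟨g, Prod.ext (smul_set_eq hs hs' (hg 0) (hg 1)) (hg 0)⟩
  · have hx' := mt h.2 hx
    obtain ⟨a, b, hab, hs⟩ := exists_pair s
    obtain ⟨a', b', hab', hs'⟩ := exists_pair s'
    simp [hs] at hx; simp [hs'] at hx'
    obtain ⟨g, hg⟩ := move h4 hX (k := 3) (by omega) ![a, b, x] ![a', b', x'] (by
      intro i j; fin_cases i <;> fin_cases j <;>
        simp [hab, hab', hab.symm, hab'.symm, hx.1, hx.2, hx'.1, hx'.2, Ne.symm hx.1, Ne.symm hx.2,
          Ne.symm hx'.1, Ne.symm hx'.2])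
    exact ⟨g, Prod.ext (smul_set_eq hs hs' (hg 0) (hg 1)) (hg 2)⟩

theorem orb_QR : Nat.card (Quotient (orbitRel G (Q X × R X))) = 4 := by
  obtain ⟨a, b, c, d, hab, hac, had, hbc, hbd, hcd⟩ := exists_four_points h4 hX
  let p : Q X := mkQ a b hab
  refine Eq.trans (card_orbits_eq (K := Bool × Bool)
    (fun z => (decide (z.1 0 ∈ (z.2 : Finset X)), decide (z.1 1 ∈ (z.2 : Finset X))))
    (fun g z => by simp [Function.Embedding.smul_apply, mem_smul_iff])
    (fun t => by
      rcases t with ⟨_ | _, _ | _⟩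
      · exact ⟨(p, setOf' c d hcd), by simp [setOf', p, hac, had, hbc, hbd]⟩
      · exact ⟨(p, setOf' b c hbc), by simp [setOf', p, hab, hac]⟩
      · exact ⟨(p, setOf' a c hac), by simp [setOf', p, hab.symm, hbc]⟩
      · exact ⟨(p, setOf' a b hab), by simp [setOf', p]⟩) ?_) (by simp)
  rintro ⟨p, s⟩ ⟨p', s'⟩ h
  simp only [Prod.mk.injEq, decide_eq_decide] at h
  obtain ⟨h0, h1⟩ := h
  have hp : p 0 ≠ p 1 := by simp
  have hp' : p' 0 ≠ p' 1 := by simp
  have fin : ∀ g : G, g • p 0 = p' 0 → g • p 1 = p' 1 → g • p = p' := fun g u v => by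
    ext i; fin_cases i; exacts [u, v]
  by_cases hx : p 0 ∈ (s : Finset X)
  · obtain ⟨c, hc, hs⟩ := other s hx
    obtain ⟨c', hc', hs'⟩ := other s' (h0.1 hx)
    rw [hs, hs'] at h1
    simp [hp.symm, hp'.symm] at h1
    obtain ⟨g, hg⟩ := move h4 hX (k := 3) (by omega) ![p 0, p 1, c] ![p' 0, p' 1, c'] (by
      intro i j; fin_cases i <;> fin_cases j <;>
        simp [hc, hc', hc.symm, hc'.symm, h1, eq_comm (a := c), eq_comm (a := c')])
    exact ⟨g, Prod.ext (fin g (hg 0) (hg 1)) (smul_set_eq hs hs' (hg 0) (hg 2))⟩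
  · have hx' := mt h0.2 hx
    by_cases hy : p 1 ∈ (s : Finset X)
    · obtain ⟨c, hc, hs⟩ := other s hy
      obtain ⟨c', hc', hs'⟩ := other s' (h1.1 hy)
      simp [hs] at hx; simp [hs'] at hx'
      obtain ⟨g, hg⟩ := move h4 hX (k := 3) (by omega) ![p 0, p 1, c] ![p' 0, p' 1, c'] (by
        intro i j; fin_cases i <;> fin_cases j <;>
          simp [hc, hc', hc.symm, hc'.symm, hx, hx', Ne.symm hx, Ne.symm hx'])
      exact ⟨g, Prod.ext (fin g (hg 0) (hg 1)) (smul_set_eq hs hs' (hg 1) (hg 2))⟩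
    · have hy' := mt h1.2 hy
      obtain ⟨c, d, hcd, hs⟩ := exists_pair s
      obtain ⟨c', d', hcd', hs'⟩ := exists_pair s'
      simp [hs] at hx hy; simp [hs'] at hx' hy'
      obtain ⟨g, hg⟩ := move h4 hX (k := 4) le_rfl ![p 0, p 1, c, d] ![p' 0, p' 1, c', d'] (by
        intro i j; fin_cases i <;> fin_cases j <;>
          simp [hcd, hcd', hcd.symm, hcd'.symm, hx.1, hx.2, hx'.1, hx'.2, hy.1, hy.2, hy'.1, hy'.2,
            Ne.symm hx.1, Ne.symm hx.2, Ne.symm hx'.1, Ne.symm hx'.2, Ne.symm hy.1, Ne.symm hy.2,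
            Ne.symm hy'.1, Ne.symm hy'.2])
      exact ⟨g, Prod.ext (fin g (hg 0) (hg 1)) (smul_set_eq hs hs' (hg 2) (hg 3))⟩

theorem orb_RR : Nat.card (Quotient (orbitRel G (R X × R X))) = 3 := by
  obtain ⟨a, b, c, d, hab, hac, had, hbc, hbd, hcd⟩ := exists_four_points h4 hX
  have hlt : ∀ s t : R X, ((s : Finset X) ∩ (t : Finset X)).card < 3 := fun s t =>
    lt_of_le_of_lt (Finset.card_le_card Finset.inter_subset_left) (by rw [s.2]; omega)
  refine Eq.trans (card_orbits_eq (K := Fin 3) (fun z => (⟨_, hlt z.1 z.2⟩ : Fin 3))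
    (fun g z => Fin.ext (by simp [← Finset.smul_finset_inter, Finset.card_smul_finset]))
    (fun t => by
      fin_cases t
      · exact ⟨(setOf' a b hab, setOf' c d hcd), Fin.ext (by simp [setOf', hac, had, hbc, hbd])⟩
      · exact ⟨(setOf' a b hab, setOf' a c hac), Fin.ext (by
          show (({a, b} : Finset X) ∩ {a, c}).card = 1
          rw [show ({a, b} : Finset X) ∩ {a, c} = {a} by ext z; simp; grind, Finset.card_singleton])⟩
      · exact ⟨(setOf' a b hab, setOf' a b hab),
          Fin.ext (by simp [setOf', Finset.card_pair hab])⟩) ?_) (by simp)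
  rintro ⟨s, t⟩ ⟨s', t'⟩ h
  simp only [Fin.mk.injEq] at h
  by_cases h0 : ((s : Finset X) ∩ t).card = 0
  · have h0' : ((s' : Finset X) ∩ t').card = 0 := h ▸ h0
    obtain ⟨a, b, hab, hs⟩ := exists_pair s
    obtain ⟨c, d, hcd, ht⟩ := exists_pair t
    obtain ⟨a', b', hab', hs'⟩ := exists_pair s'
    obtain ⟨c', d', hcd', ht'⟩ := exists_pair t'
    simp [hs, ht, Finset.ext_iff] at h0; simp [hs', ht', Finset.ext_iff] at h0'
    obtain ⟨g, hg⟩ := move h4 hX (k := 4) le_rfl ![a, b, c, d] ![a', b', c', d'] (by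
      intro i j; fin_cases i <;> fin_cases j <;>
        simp [hab, hab', hab.symm, hab'.symm, hcd, hcd', hcd.symm, hcd'.symm, h0, h0', eq_comm])
    exact ⟨g, Prod.ext (smul_set_eq hs hs' (hg 0) (hg 1)) (smul_set_eq ht ht' (hg 2) (hg 3))⟩
  · by_cases h2 : (s : Finset X) = t
    · have hst : s = t := Subtype.ext h2
      subst hst
      rw [Finset.inter_self, s.2] at h
      have hst' : s' = t' := by
        refine Subtype.ext (Finset.eq_of_subset_of_card_le ?_ (by rw [s'.2, t'.2]))
        rw [← Finset.inter_eq_left]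
        exact Finset.eq_of_subset_of_card_le Finset.inter_subset_left (by rw [s'.2, ← h])
      subst hst'
      obtain ⟨a, b, hab, hs⟩ := exists_pair s
      obtain ⟨a', b', hab', hs'⟩ := exists_pair s'
      obtain ⟨g, hg⟩ := move h4 hX (k := 2) (by omega) ![a, b] ![a', b'] (by
        intro i j; fin_cases i <;> fin_cases j <;> simp [hab, hab', hab.symm, hab'.symm])
      exact ⟨g, Prod.ext (smul_set_eq hs hs' (hg 0) (hg 1)) (smul_set_eq hs hs' (hg 0) (hg 1))⟩
    · have key : ∀ (s t : R X), ((s : Finset X) ∩ t).card ≠ 0 → (s : Finset X) ≠ t →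
          ∃ x y z, (s : Finset X) = {x, y} ∧ (t : Finset X) = {x, z} ∧ y ≠ x ∧ z ≠ x ∧ y ≠ z := by
        intro s t hc hne
        obtain ⟨x, hx⟩ := Finset.card_ne_zero.1 hc
        rw [Finset.mem_inter] at hx
        obtain ⟨y, hy, hs⟩ := other s hx.1
        obtain ⟨z, hz, ht⟩ := other t hx.2
        exact ⟨x, y, z, hs, ht, hy, hz, fun e => hne (by rw [hs, ht, e])⟩
      obtain ⟨x, y, z, hs, ht, hy, hz, hyz⟩ := key s t h0 h2
      have h2' : (s' : Finset X) ≠ t' := fun e => by
        rw [← e, Finset.inter_self, s'.2] at h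
        exact h2 (Finset.eq_of_subset_of_card_le (Finset.inter_eq_left.1
          (Finset.eq_of_subset_of_card_le Finset.inter_subset_left (by rw [s.2, h])))
          (by rw [s.2, t.2]))
      obtain ⟨x', y', z', hs', ht', hy', hz', hyz'⟩ := key s' t' (h ▸ h0) h2'
      obtain ⟨g, hg⟩ := move h4 hX (k := 3) (by omega) ![x, y, z] ![x', y', z'] (by
        intro i j; fin_cases i <;> fin_cases j <;>
          simp [hy, hy', hz, hz', hyz, hyz', hy.symm, hy'.symm, hz.symm, hz'.symm, hyz.symm,
            hyz'.symm])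
      exact ⟨g, Prod.ext (smul_set_eq hs hs' (hg 0) (hg 1)) (smul_set_eq ht ht' (hg 0) (hg 2))⟩

omit h4 hX in
theorem sum_permChar [Fintype G] (Z : Type*) [MulAction G Z] [Finite Z] {k : ℕ}
    (h : Nat.card (Quotient (orbitRel G Z)) = k) :
    ∑ g : G, permChar Z g = (k : ℂ) * (Nat.card G : ℂ) := by
  have h1 := classInner_permChar_one (G := G) Z
  rw [classInner, h, inv_mul_eq_iff_eq_mul₀ (Nat.cast_ne_zero.mpr Nat.card_pos.ne')] at h1
  simp only [map_one, mul_one] at h1
  rw [h1, mul_comm]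

omit h4 hX in
theorem sum_permChar_mul [Fintype G] (Z W : Type*) [MulAction G Z] [MulAction G W] [Finite Z]
    [Finite W] {k : ℕ} (h : Nat.card (Quotient (orbitRel G (Z × W))) = k) :
    ∑ g : G, permChar Z g * permChar W g = (k : ℂ) * (Nat.card G : ℂ) := by
  rw [← sum_permChar (Z × W) h]
  exact Finset.sum_congr rfl fun g _ => (permChar_prod (G := G) Z g).symm

omit h4 hX in
theorem conj_permChar (Z : Type*) [MulAction G Z] (g : G) :
    conj (permChar Z g) = permChar Z g := Complex.conj_natCast _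

/-- The constituent of degree `n (n - 3) / 2`. -/
theorem isIrr_phi [Finite G] :
    IsIrrCharacter G (fun g => permChar (R X) g - permChar X g) ∨
      IsIrrCharacter G (fun g => permChar X g - permChar (R X) g) := by
  haveI := Fintype.ofFinite G
  have hG : IsGeneralizedCharacter G (permChar (G := G) (R X) - permChar X) :=
    Char.isGeneralizedCharacter_sub
      (isGeneralizedCharacter_of_isCharacter (isCharacter_permChar _))
      (isGeneralizedCharacter_of_isCharacter (isCharacter_permChar _))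
  have hn : classInner (permChar (G := G) (R X) - permChar X) (permChar (R X) - permChar X) = 1 := by
    simp only [classInner, Pi.sub_apply, map_sub, conj_permChar, sub_mul, mul_sub,
      Finset.sum_sub_distrib]
    rw [sum_permChar_mul _ _ (orb_RR h4 hX), sum_permChar_mul _ _ (orb_RX h4 hX),
      sum_permChar_mul _ _ (orb_XX h4 hX)]
    have hc : ∑ g : G, permChar X g * permChar (R X) g = (2 : ℕ) * (Nat.card G : ℂ) := by
      rw [← sum_permChar_mul _ _ (orb_RX h4 hX)]
      exact Finset.sum_congr rfl fun g _ => mul_comm _ _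
    rw [hc, Nat.card_eq_fintype_card]
    field_simp
    push_cast
    ring
  rcases generalized_norm_one hG hn with h | h
  · exact Or.inl h
  · refine Or.inr ?_
    convert h using 1
    funext g; simp

/-- The constituent of degree `(n - 1) (n - 2) / 2`. -/
theorem isIrr_psi [Finite G] :
    IsIrrCharacter G (fun g => permChar (Q X) g - permChar (R X) g - permChar X g + 1) ∨
      IsIrrCharacter G (fun g => -(permChar (Q X) g - permChar (R X) g - permChar X g + 1)) := by
  haveI := Fintype.ofFinite G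
  have hG : IsGeneralizedCharacter G
      (permChar (G := G) (Q X) - permChar (R X) - permChar X + fun _ => 1) :=
    Char.isGeneralizedCharacter_add (Char.isGeneralizedCharacter_sub
      (Char.isGeneralizedCharacter_sub
        (isGeneralizedCharacter_of_isCharacter (isCharacter_permChar _))
        (isGeneralizedCharacter_of_isCharacter (isCharacter_permChar _)))
      (isGeneralizedCharacter_of_isCharacter (isCharacter_permChar _)))
      (isGeneralizedCharacter_of_isCharacter (isCharacter_of_irr (trivialIrr G).2))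
  have hn : classInner (permChar (G := G) (Q X) - permChar (R X) - permChar X + fun _ => 1)
      (permChar (Q X) - permChar (R X) - permChar X + fun _ => 1) = 1 := by
    have hx : ∀ (Z W : Type v) [MulAction G Z] [MulAction G W],
        ∑ g : G, permChar W g * permChar Z g = ∑ g : G, permChar Z g * permChar W g :=
      fun Z W _ _ => Finset.sum_congr rfl fun g _ => mul_comm _ _
    simp only [classInner, Pi.sub_apply, Pi.add_apply, map_sub, map_add, map_one, conj_permChar,
      sub_mul, mul_sub, add_mul, mul_add, one_mul, mul_one, Finset.sum_sub_distrib,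
      Finset.sum_add_distrib]
    rw [hx (Q X) (R X), hx (Q X) X, hx (R X) X,
      sum_permChar_mul _ _ (orb_QQ h4 hX), sum_permChar_mul _ _ (orb_QR h4 hX),
      sum_permChar_mul _ _ (orb_QX h4 hX), sum_permChar_mul _ _ (orb_RR h4 hX),
      sum_permChar_mul _ _ (orb_RX h4 hX), sum_permChar_mul _ _ (orb_XX h4 hX),
      sum_permChar _ (orb_Q h4 hX), sum_permChar _ (orb_R h4 hX), sum_permChar _ (orb_X h4 hX),
      Nat.card_eq_fintype_card]
    simp only [Finset.sum_const, Finset.card_univ, nsmul_eq_mul, mul_one]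
    field_simp
    push_cast
    ring
  rcases generalized_norm_one hG hn with h | h
  · exact Or.inl h
  · refine Or.inr ?_
    convert h using 1
    funext g; simp

end Cfsg.Agent.BlkChar.TwoSet
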